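import Mathlib
import Cfsg.Agent.Helper60.NCDefs

/-!
# helper5: piece UNION of CALL S4135 (helper60): a finite group is not the union of the conjugates of a proper
subgroup (Burnside's orbit counting on the cosets)
-/

set_option autoImplicit false
open Subgroup

namespace Cfsg.Agent.Helper5.NCUNION
open Cfsg.Agent.Helper60.NC

variable {G : Type*} [Group G] [Finite G] {r : ℕ} [Fact r.Prime] {N : Subgroup G} {m : ℕ}

/-- UNION -/
theorem union_conj (L N : Subgroup G) (hLN : L ≤ N)
    (hcov : ∀ v ∈ N, ∃ n ∈ N, n * v * n⁻¹ ∈ L) : N ≤ L := by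
  classical
  haveI : Fintype N := Fintype.ofFinite _
  haveI : Fintype (N ⧸ L.subgroupOf N) := Fintype.ofFinite _
  haveI : ∀ g : N, Fintype (MulAction.fixedBy (N ⧸ L.subgroupOf N) g) :=
    fun g => Fintype.ofFinite _
  haveI : Fintype (Quotient (MulAction.orbitRel N (N ⧸ L.subgroupOf N))) := Fintype.ofFinite _
  have hB := MulAction.sum_card_fixedBy_eq_card_orbits_mul_card_group N (N ⧸ L.subgroupOf N)
  have horb : Fintype.card (Quotient (MulAction.orbitRel N (N ⧸ L.subgroupOf N))) ≤ 1 := by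
    rw [Fintype.card_le_one_iff_subsingleton]
    exact (MulAction.pretransitive_iff_subsingleton_quotient N (N ⧸ L.subgroupOf N)).mp
      inferInstance
  have hfix : ∀ g : N, 1 ≤ Fintype.card (MulAction.fixedBy (N ⧸ L.subgroupOf N) g) := by
    intro g
    obtain ⟨n, hn, hnL⟩ := hcov g.1 g.2
    rw [Nat.succ_le_iff, Fintype.card_pos_iff]
    refine ⟨⟨QuotientGroup.mk ((⟨n, hn⟩ : N)⁻¹), ?_⟩⟩
    show g • (QuotientGroup.mk ((⟨n, hn⟩ : N)⁻¹) : N ⧸ L.subgroupOf N) = _
    show (QuotientGroup.mk (g * (⟨n, hn⟩ : N)⁻¹) : N ⧸ L.subgroupOf N) = _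
    rw [QuotientGroup.eq, Subgroup.mem_subgroupOf]
    have e : (((g * (⟨n, hn⟩ : N)⁻¹)⁻¹ * (⟨n, hn⟩ : N)⁻¹ : N) : G) = (n * (g : G) * n⁻¹)⁻¹ := by
      simp only [Subgroup.coe_mul, Subgroup.coe_inv]
      group
    rw [e]
    exact L.inv_mem hnL
  have h1 : ∑ g : N, Fintype.card (MulAction.fixedBy (N ⧸ L.subgroupOf N) g) =
      Fintype.card (MulAction.fixedBy (N ⧸ L.subgroupOf N) (1 : N)) +
        ∑ g ∈ (Finset.univ : Finset N).erase 1,
          Fintype.card (MulAction.fixedBy (N ⧸ L.subgroupOf N) g) :=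
    (Finset.add_sum_erase _ _ (Finset.mem_univ 1)).symm
  have h2 : ((Finset.univ : Finset N).erase 1).card ≤
      ∑ g ∈ (Finset.univ : Finset N).erase 1,
        Fintype.card (MulAction.fixedBy (N ⧸ L.subgroupOf N) g) := by
    calc ((Finset.univ : Finset N).erase 1).card
        = ∑ g ∈ (Finset.univ : Finset N).erase 1, 1 := by simp
      _ ≤ _ := Finset.sum_le_sum (fun g _ => hfix g)
  have h3 : ((Finset.univ : Finset N).erase 1).card = Fintype.card N - 1 := by
    rw [Finset.card_erase_of_mem (Finset.mem_univ _), Finset.card_univ]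
  have h4 : Fintype.card (MulAction.fixedBy (N ⧸ L.subgroupOf N) (1 : N)) =
      Fintype.card (N ⧸ L.subgroupOf N) :=
    Fintype.card_congr (Equiv.subtypeUnivEquiv (fun x => one_smul N x))
  have h5 : 0 < Fintype.card N := Fintype.card_pos
  have h6 : Fintype.card (Quotient (MulAction.orbitRel N (N ⧸ L.subgroupOf N))) *
      Fintype.card N ≤ Fintype.card N := by
    calc _ ≤ 1 * Fintype.card N := Nat.mul_le_mul_right _ horb
      _ = Fintype.card N := one_mul _
  have h7 : Fintype.card (N ⧸ L.subgroupOf N) ≤ 1 := by omega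
  have h8 : (L.subgroupOf N).index = 1 := by
    rw [Subgroup.index_eq_card, Nat.card_eq_fintype_card]
    have : 0 < Fintype.card (N ⧸ L.subgroupOf N) := Fintype.card_pos
    omega
  exact Subgroup.subgroupOf_eq_top.mp (Subgroup.index_eq_one.mp h8)

end Cfsg.Agent.Helper5.NCUNION
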