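import Mathlib
import Cfsg.Agent.Helper41.DkDih2
import Cfsg.Agent.Helper40.PSL2KleinConj

/-!
# Maximal subgroups of `PSL₂(q)`, part A (helper5)

Matrix tools: maximal subgroups of `SL₂` containing the centre, traces of elements of small
order modulo the centre, the normal form of a quaternion pair, and the coordinates of an element
with respect to a quaternion basis.
-/

set_option autoImplicit false

namespace Cfsg.Agent.Helper5.PMax

open Cfsg.Agent.Helper41 Cfsg.Agent.Helper41.Dk Matrix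

variable {F : Type*} [Field F]

local notation "SL2" => Matrix.SpecialLinearGroup (Fin 2) F

/-- a maximal subgroup of `SL₂`. -/
def IsMx (H : Subgroup SL2) : Prop := H ≠ ⊤ ∧ ∀ T : Subgroup SL2, H ≤ T → T = H ∨ T = ⊤

theorem isMx_pre (M : Subgroup (SL2 ⧸ Subgroup.center SL2)) (hM : IsCoatom M) :
    IsMx (pre M) := by
  refine ⟨fun h => hM.1 (pre_eq_top.mp h), fun T hT => ?_⟩
  have hZT : Subgroup.center SL2 ≤ T := (center_le_pre M).trans hT
  have h1 : pre (T.map (QuotientGroup.mk' (Subgroup.center SL2))) = T := pre_map T hZT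
  have h2 : M ≤ T.map (QuotientGroup.mk' (Subgroup.center SL2)) := by
    rw [← pre_le_pre, h1]; exact hT
  rcases hM.le_iff.mp h2 with h | h
  · right; rw [← h1, h]; rfl
  · left; rw [← h1, h]

theorem isMx_map [Finite F] (H : Subgroup SL2) (hH : IsMx H)
    (Q : Matrix (Fin 2) (Fin 2) F) (hQ : Q.det ≠ 0) : IsMx (H.map (conjGL Q hQ)) := by
  classical
  have hinj := conjGL_injective Q hQ
  have hsurj : Function.Surjective (conjGL Q hQ) := Finite.injective_iff_surjective.mp hinj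
  refine ⟨fun h => hH.1 ?_, fun T hT => ?_⟩
  · rw [eq_top_iff]
    intro g _
    have h1 : conjGL Q hQ g ∈ H.map (conjGL Q hQ) := by rw [h]; trivial
    obtain ⟨g', hg', e⟩ := h1
    rwa [← hinj e]
  · have h1 : H ≤ T.comap (conjGL Q hQ) := fun g hg => hT (Subgroup.mem_map_of_mem _ hg)
    rcases hH.2 _ h1 with h | h
    · left; rw [← Subgroup.map_comap_eq_self_of_surjective hsurj T, h]
    · right
      rw [← Subgroup.map_comap_eq_self_of_surjective hsurj T, h]
      exact Subgroup.map_top_of_surjective _ hsurj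

theorem range_comp_eq (H : Subgroup SL2) (Q : Matrix (Fin 2) (Fin 2) F) (hQ : Q.det ≠ 0) :
    ((conjGL Q hQ).comp H.subtype).range = H.map (conjGL Q hQ) := by
  rw [MonoidHom.range_comp, Subgroup.range_subtype]

theorem tr_conjGL (Q : Matrix (Fin 2) (Fin 2) F) (hQ : Q.det ≠ 0) (g : SL2) :
    tr (conjGL Q hQ g) = tr g := by
  show (conjGL Q hQ g).1.trace = g.1.trace
  rw [conjGL_coe, Matrix.trace_mul_comm, ← Matrix.mul_assoc,
    Matrix.mul_nonsing_inv Q (isUnit_iff_ne_zero.mpr hQ), Matrix.one_mul]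

/-! ### traces of elements of small order modulo the centre -/

open Cfsg.Agent.Helper40 in
theorem useq_eq_zero (h : SL2) (hc : h ∉ Subgroup.center SL2) (n : ℕ)
    (hn : h ^ (n + 1) ∈ Subgroup.center SL2) : PSL2Tri.uSeq (tr h) (n + 1) = 0 := by
  have hp := PSL2Tri.pow_eq h.1 (h.1 0 0 + h.1 1 1) (PSL2Tri.sl2_ch h) n
  rw [← tr_eq] at hp
  obtain ⟨z10, z01, z00⟩ := (center_iff_entries (h ^ (n + 1))).mp hn
  rw [Matrix.SpecialLinearGroup.coe_pow, hp] at z10 z01 z00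
  simp only [Matrix.sub_apply, Matrix.smul_apply, smul_eq_mul, Matrix.one_apply_eq,
    Matrix.one_apply_ne, ne_eq, one_ne_zero, not_false_eq_true, zero_ne_one, mul_zero,
    sub_zero, mul_one] at z10 z01 z00
  rcases (not_center_iff h).mp hc with h1 | h1 | h1
  · exact (mul_eq_zero.mp z10).resolve_right h1
  · exact (mul_eq_zero.mp z01).resolve_right h1
  · have h2 : PSL2Tri.uSeq (tr h) (n + 1) * (h.1 0 0 - h.1 1 1) = 0 := by
      linear_combination z00
    exact (mul_eq_zero.mp h2).resolve_right (sub_ne_zero.mpr h1)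

theorem tr_of_center (h : SL2) (hc : h ∈ Subgroup.center SL2) : tr h = 2 ∨ tr h = -2 := by
  rw [tr_eq]
  rcases (mem_center_iff_pm h).mp hc with e | e
  · left; rw [e]; simp; norm_num
  · right; rw [e]; simp; norm_num

theorem tr_of_sq (h : SL2) (hc : h ∉ Subgroup.center SL2)
    (hn : h ^ 2 ∈ Subgroup.center SL2) : tr h = 0 := by
  have := useq_eq_zero h hc 1 hn
  simpa [Cfsg.Agent.Helper40.PSL2Tri.uSeq] using this

theorem tr_of_cube (h : SL2) (hc : h ∉ Subgroup.center SL2)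
    (hn : h ^ 3 ∈ Subgroup.center SL2) : tr h = 1 ∨ tr h = -1 := by
  have h1 := useq_eq_zero h hc 2 hn
  simp only [Cfsg.Agent.Helper40.PSL2Tri.uSeq] at h1
  have h2 : (tr h - 1) * (tr h + 1) = 0 := by linear_combination h1
  rcases mul_eq_zero.mp h2 with h3 | h3
  · left; linear_combination h3
  · right; linear_combination h3

theorem tr_of_fourth (h : SL2) (hc : h ∉ Subgroup.center SL2)
    (hn : h ^ 4 ∈ Subgroup.center SL2) : tr h = 0 ∨ tr h ^ 2 = 2 := by
  have h1 := useq_eq_zero h hc 3 hn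
  simp only [Cfsg.Agent.Helper40.PSL2Tri.uSeq] at h1
  have h2 : tr h * (tr h ^ 2 - 2) = 0 := by linear_combination h1
  rcases mul_eq_zero.mp h2 with h3 | h3
  · left; exact h3
  · right; linear_combination h3

theorem tr_of_fifth (h : SL2) (hc : h ∉ Subgroup.center SL2)
    (hn : h ^ 5 ∈ Subgroup.center SL2) :
    (2 * tr h + 1) ^ 2 = 5 ∨ (2 * tr h - 1) ^ 2 = 5 := by
  have h1 := useq_eq_zero h hc 4 hn
  simp only [Cfsg.Agent.Helper40.PSL2Tri.uSeq] at h1
  have h2 : (tr h ^ 2 + tr h - 1) * (tr h ^ 2 - tr h - 1) = 0 := by linear_combination h1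
  rcases mul_eq_zero.mp h2 with h3 | h3
  · left; linear_combination 4 * h3
  · right; linear_combination 4 * h3

/-! ### coordinates with respect to a quaternion basis -/

theorem memK_of_traces (K : Subfield F) (h2 : (2 : F) ≠ 0) (α β lam : F) (hα : α ∈ K)
    (hβ : β ∈ K) (hαβ : α ^ 2 + β ^ 2 = -1) (J B h : SL2) (hJ : J.1 = !![0, -1; 1, 0])
    (hB : B.1 = !![α, β; β, -α]) (h1 : lam * tr h ∈ K) (h2' : lam * tr (h * J) ∈ K)
    (h3 : lam * tr (h * B) ∈ K) (h4 : lam * tr (h * (J * B)) ∈ K) : MemK K (lam • h.1) := by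
  have hJB : (J * B).1 = !![-β, α; α, β] := by
    rw [Matrix.SpecialLinearGroup.coe_mul, hJ, hB]
    ext i j
    fin_cases i <;> fin_cases j <;> simp [Matrix.mul_apply, Fin.sum_univ_two]
  have e2 : tr (h * J) = h.1 0 1 - h.1 1 0 := by
    rw [tr_eq, mul_e00, mul_e11, hJ]; simp; ring
  have e3 : tr (h * B) = α * (h.1 0 0 - h.1 1 1) + β * (h.1 0 1 + h.1 1 0) := by
    rw [tr_eq, mul_e00, mul_e11, hB]; simp; ring
  have e4 : tr (h * (J * B)) = -β * (h.1 0 0 - h.1 1 1) + α * (h.1 0 1 + h.1 1 0) := by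
    rw [tr_eq, mul_e00, mul_e11, hJB]; simp; ring
  rw [tr_eq] at h1
  rw [e2] at h2'
  rw [e3] at h3
  rw [e4] at h4
  have k2 : (2 : F)⁻¹ ∈ K := K.inv_mem (by
    have : (2 : F) = 1 + 1 := by norm_num
    rw [this]; exact K.add_mem K.one_mem K.one_mem)
  rw [memK_iff]
  simp only [Matrix.smul_apply, smul_eq_mul]
  refine ⟨?_, ?_, ?_, ?_⟩
  · have e : lam * h.1 0 0 = 2⁻¹ * (lam * (h.1 0 0 + h.1 1 1)
        - α * (lam * (α * (h.1 0 0 - h.1 1 1) + β * (h.1 0 1 + h.1 1 0)))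
        + β * (lam * (-β * (h.1 0 0 - h.1 1 1) + α * (h.1 0 1 + h.1 1 0)))) := by
      rw [eq_inv_mul_iff_mul_eq₀ h2]
      linear_combination (lam * (h.1 0 0 - h.1 1 1)) * hαβ
    rw [e]
    exact K.mul_mem k2 (K.add_mem (K.sub_mem h1 (K.mul_mem hα h3)) (K.mul_mem hβ h4))
  · have e : lam * h.1 0 1 = 2⁻¹ * (lam * (h.1 0 1 - h.1 1 0)
        - β * (lam * (α * (h.1 0 0 - h.1 1 1) + β * (h.1 0 1 + h.1 1 0)))
        - α * (lam * (-β * (h.1 0 0 - h.1 1 1) + α * (h.1 0 1 + h.1 1 0)))) := by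
      rw [eq_inv_mul_iff_mul_eq₀ h2]
      linear_combination (lam * (h.1 0 1 + h.1 1 0)) * hαβ
    rw [e]
    exact K.mul_mem k2 (K.sub_mem (K.sub_mem h2' (K.mul_mem hβ h3)) (K.mul_mem hα h4))
  · have e : lam * h.1 1 0 = 2⁻¹ * (-(lam * (h.1 0 1 - h.1 1 0))
        - β * (lam * (α * (h.1 0 0 - h.1 1 1) + β * (h.1 0 1 + h.1 1 0)))
        - α * (lam * (-β * (h.1 0 0 - h.1 1 1) + α * (h.1 0 1 + h.1 1 0)))) := by
      rw [eq_inv_mul_iff_mul_eq₀ h2]
      linear_combination (lam * (h.1 0 1 + h.1 1 0)) * hαβ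
    rw [e]
    exact K.mul_mem k2 (K.sub_mem (K.sub_mem (K.neg_mem h2') (K.mul_mem hβ h3))
      (K.mul_mem hα h4))
  · have e : lam * h.1 1 1 = 2⁻¹ * (lam * (h.1 0 0 + h.1 1 1)
        + α * (lam * (α * (h.1 0 0 - h.1 1 1) + β * (h.1 0 1 + h.1 1 0)))
        - β * (lam * (-β * (h.1 0 0 - h.1 1 1) + α * (h.1 0 1 + h.1 1 0)))) := by
      rw [eq_inv_mul_iff_mul_eq₀ h2]
      linear_combination (-lam * (h.1 0 0 - h.1 1 1)) * hαβ
    rw [e]
    exact K.mul_mem k2 (K.sub_mem (K.add_mem h1 (K.mul_mem hα h3)) (K.mul_mem hβ h4))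

/-! ### the normal form of a quaternion pair -/

theorem exists_conj_J (h2 : (2 : F) ≠ 0) (A : SL2) (hA : tr A = 0) :
    ∃ (Q : Matrix (Fin 2) (Fin 2) F) (hQ : Q.det ≠ 0),
      (conjGL Q hQ A).1 = !![0, -1; 1, 0] := by
  have hd := sl2_det A
  rw [tr_eq] at hA
  have h11 : A.1 1 1 = -A.1 0 0 := by linear_combination hA
  have hd' : -(A.1 0 0 * A.1 0 0) - A.1 0 1 * A.1 1 0 = 1 := by
    rw [h11] at hd; linear_combination hd
  have key : ∀ (v0 v1 : F),
      v0 * (A.1 1 0 * v0 + A.1 1 1 * v1) - (A.1 0 0 * v0 + A.1 0 1 * v1) * v1 ≠ 0 →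
      ∃ (Q : Matrix (Fin 2) (Fin 2) F) (hQ : Q.det ≠ 0),
        (conjGL Q hQ A).1 = !![0, -1; 1, 0] := by
    intro v0 v1 hv
    refine ⟨!![v0, A.1 0 0 * v0 + A.1 0 1 * v1; v1, A.1 1 0 * v0 + A.1 1 1 * v1],
      by rw [Matrix.det_fin_two_of]; exact hv, ?_⟩
    apply conjGL_eq_of_mul_eq
    ext i j
    fin_cases i <;> fin_cases j <;> simp [Matrix.mul_apply, Fin.sum_univ_two]
    · rw [h11]
      linear_combination v0 * hd'
    · rw [h11]
      linear_combination v1 * hd'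
  by_cases h10 : A.1 1 0 = 0
  · by_cases h01 : A.1 0 1 = 0
    · apply key 1 1
      intro hc
      rw [h10, h01, h11] at hc
      rw [h10, h01] at hd'
      have h3 : (2 : F) * A.1 0 0 = 0 := by linear_combination (-1 : F) * hc
      rcases mul_eq_zero.mp h3 with h | h
      · exact h2 h
      · rw [h] at hd'
        simp at hd'
    · apply key 0 1
      intro hc
      apply h01
      linear_combination (-1 : F) * hc
  · apply key 1 0
    intro hc
    apply h10
    linear_combination hc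

theorem exists_conj_B (h2 : (2 : F) ≠ 0) (B : SL2) (α β : F) (hαβ : α ^ 2 + β ^ 2 = -1)
    (hB : tr B = 0)
    (hJB : (!![0, -1; 1, 0] : Matrix (Fin 2) (Fin 2) F) * B.1 = -(B.1 * !![0, -1; 1, 0])) :
    ∃ (Q : Matrix (Fin 2) (Fin 2) F), Q.det ≠ 0 ∧
      Q * !![0, -1; 1, 0] = !![0, -1; 1, 0] * Q ∧ Q * !![α, β; β, -α] = B.1 * Q := by
  have hd := sl2_det B
  rw [tr_eq] at hB
  have h11 : B.1 1 1 = -B.1 0 0 := by linear_combination hB
  have h10 : B.1 1 0 = B.1 0 1 := by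
    have := congrFun (congrFun hJB 0) 0
    simp [Matrix.mul_apply, Fin.sum_univ_two] at this
    exact this
  rw [h11, h10] at hd
  have key : ∀ c s : F, c ^ 2 + s ^ 2 ≠ 0 → c * (B.1 0 0 - α) = -s * (B.1 0 1 + β) →
      c * (B.1 0 1 - β) = s * (B.1 0 0 + α) →
      ∃ (Q : Matrix (Fin 2) (Fin 2) F), Q.det ≠ 0 ∧
        Q * !![0, -1; 1, 0] = !![0, -1; 1, 0] * Q ∧ Q * !![α, β; β, -α] = B.1 * Q := by
    intro c s hcs e1 e2
    refine ⟨!![c, -s; s, c], ?_, ?_, ?_⟩
    · rw [Matrix.det_fin_two_of]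
      intro h
      apply hcs
      linear_combination h
    · ext i j
      fin_cases i <;> fin_cases j <;> simp [Matrix.mul_apply, Fin.sum_univ_two]
    · ext i j
      fin_cases i <;> fin_cases j <;> simp [Matrix.mul_apply, Fin.sum_univ_two, h11, h10]
      · linear_combination (-1 : F) * e1
      · linear_combination (-1 : F) * e2
      · linear_combination (-1 : F) * e2
      · linear_combination e1
  by_cases hc1 : (B.1 0 1 + β) ^ 2 + (-(B.1 0 0 - α)) ^ 2 = 0
  · apply key (B.1 0 0 + α) (B.1 0 1 - β)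
    · intro hc2
      apply h2
      have h4 : (4 : F) = 0 := by linear_combination (-1 : F) * hc1 - hc2 - 2 * hd + 2 * hαβ
      have h5 : (2 : F) * 2 = 0 := by linear_combination h4
      exact (mul_eq_zero.mp h5).elim id id
    · linear_combination (-1 : F) * hd - hαβ
    · ring
  · apply key (B.1 0 1 + β) (-(B.1 0 0 - α)) hc1
    · ring
    · linear_combination (-1 : F) * hd - hαβ

theorem exists_conj_std (h2 : (2 : F) ≠ 0) (A B : SL2) (hA : tr A = 0) (hB : tr B = 0)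
    (hAB : A.1 * B.1 = -(B.1 * A.1)) (α β : F) (hαβ : α ^ 2 + β ^ 2 = -1) :
    ∃ (Q : Matrix (Fin 2) (Fin 2) F) (hQ : Q.det ≠ 0),
      (conjGL Q hQ A).1 = !![0, -1; 1, 0] ∧ (conjGL Q hQ B).1 = !![α, β; β, -α] := by
  obtain ⟨Q1, hQ1, hA1⟩ := exists_conj_J h2 A hA
  have hB1 : tr (conjGL Q1 hQ1 B) = 0 := by rw [tr_conjGL, hB]
  have hJB : (!![0, -1; 1, 0] : Matrix (Fin 2) (Fin 2) F) * (conjGL Q1 hQ1 B).1 =
      -((conjGL Q1 hQ1 B).1 * !![0, -1; 1, 0]) := by
    rw [← hA1, ← Matrix.SpecialLinearGroup.coe_mul, ← Matrix.SpecialLinearGroup.coe_mul,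
      ← map_mul, ← map_mul, conjGL_coe, conjGL_coe, Matrix.SpecialLinearGroup.coe_mul,
      Matrix.SpecialLinearGroup.coe_mul, hAB]
    simp
  obtain ⟨R, hR, hRJ, hRB⟩ := exists_conj_B h2 (conjGL Q1 hQ1 B) α β hαβ hB1 hJB
  have hQR : (Q1 * R).det ≠ 0 := by
    rw [Matrix.det_mul]; exact mul_ne_zero hQ1 hR
  refine ⟨Q1 * R, hQR, ?_, ?_⟩
  · rw [← conjGL_comp Q1 R hQ1 hR hQR]
    apply conjGL_eq_of_mul_eq
    rw [hA1]; exact hRJ
  · rw [← conjGL_comp Q1 R hQ1 hR hQR]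
    apply conjGL_eq_of_mul_eq
    exact hRB

/-- the anticommutation of two trace-zero matrices with trace-zero product. -/
theorem anticomm_of_tr (A B : SL2) (hA : tr A = 0) (hB : tr B = 0) (hAB : tr (A * B) = 0) :
    A.1 * B.1 = -(B.1 * A.1) := by
  rw [tr_eq] at hA hB
  rw [tr_eq, mul_e00, mul_e11] at hAB
  have a11 : A.1 1 1 = -A.1 0 0 := by linear_combination hA
  have b11 : B.1 1 1 = -B.1 0 0 := by linear_combination hB
  rw [a11, b11] at hAB
  ext i j
  fin_cases i <;> fin_cases j <;>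
    simp [Matrix.mul_apply, Fin.sum_univ_two, a11, b11]
  · linear_combination hAB
  · ring
  · ring
  · linear_combination hAB

end Cfsg.Agent.Helper5.PMax
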