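import Mathlib
import Cfsg.Agent.Helper5.PMaxA
import Cfsg.Agent.Helper41.DkMax2
import Cfsg.Agent.Helper5.SLCard

/-!
# Maximal subgroups of `PSL₂(q)`, part B (helper5)

Subfields of a finite field as fixed fields of Frobenius powers, the subgroups `SL₂(K₀)` and
`SL₂(K₀)·⟨diag(λ, λ⁻¹)⟩` of `SL₂(F)`, and the consequences of their maximality.
-/

set_option autoImplicit false

namespace Cfsg.Agent.Helper5.PMax

open Cfsg.Agent.Helper41 Cfsg.Agent.Helper41.Dk Matrix Polynomial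

variable {F : Type*} [Field F]

local notation "SL2" => Matrix.SpecialLinearGroup (Fin 2) F

/-- the fixed field of the `a`-th power of Frobenius. -/
def fixF (p : ℕ) [Fact p.Prime] [CharP F p] (a : ℕ) : Subfield F :=
  RingHom.eqLocusField (iterateFrobenius F p a) (RingHom.id F)

theorem mem_fixF (p : ℕ) [Fact p.Prime] [CharP F p] (a : ℕ) (x : F) :
    x ∈ fixF p a ↔ x ^ p ^ a = x := by
  show (iterateFrobenius F p a) x = (RingHom.id F) x ↔ _
  rw [iterateFrobenius_def, RingHom.id_apply]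

theorem card_fixF_le [Finite F] (p : ℕ) [Fact p.Prime] [CharP F p] (a : ℕ) (ha : a ≠ 0) :
    Nat.card (fixF (F := F) p a) ≤ p ^ a := by
  classical
  have hp1 : 1 < p := (Fact.out : p.Prime).one_lt
  have hP : (X ^ p ^ a - X : F[X]) ≠ 0 := FiniteField.X_pow_card_pow_sub_X_ne_zero F ha hp1
  have hdeg := FiniteField.X_pow_card_pow_sub_X_natDegree_eq F ha hp1
  have hsub : ∀ x : fixF (F := F) p a, x.1 ∈ (X ^ p ^ a - X : F[X]).roots.toFinset := by
    intro x
    rw [Multiset.mem_toFinset, Polynomial.mem_roots hP]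
    simp [Polynomial.IsRoot, (mem_fixF p a x.1).mp x.2]
  calc Nat.card (fixF (F := F) p a)
      ≤ Nat.card ((X ^ p ^ a - X : F[X]).roots.toFinset) :=
        Nat.card_le_card_of_injective (fun x => ⟨x.1, hsub x⟩)
          (fun x y h => Subtype.ext (by have h' := congrArg Subtype.val h; exact h'))
    _ = (X ^ p ^ a - X : F[X]).roots.toFinset.card := Nat.card_eq_finsetCard _
    _ ≤ Multiset.card (X ^ p ^ a - X : F[X]).roots := Multiset.toFinset_card_le _
    _ ≤ (X ^ p ^ a - X : F[X]).natDegree := Polynomial.card_roots' _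
    _ = p ^ a := hdeg

theorem pow_card_of_mem [Finite F] (p : ℕ) (K0 : Subfield F) (a : ℕ)
    (hK : Nat.card K0 = p ^ a) (x : F) (hx : x ∈ K0) : x ^ p ^ a = x := by
  classical
  haveI : Fintype K0 := Fintype.ofFinite _
  have h1 : (⟨x, hx⟩ : K0) ^ Fintype.card K0 = ⟨x, hx⟩ := FiniteField.pow_card _
  rw [← Nat.card_eq_fintype_card, hK] at h1
  exact congrArg Subtype.val h1

theorem mem_of_pow_eq [Finite F] (p : ℕ) [Fact p.Prime] [CharP F p] (K0 : Subfield F) (a : ℕ)
    (hK : Nat.card K0 = p ^ a) (x : F) (hx : x ^ p ^ a = x) : x ∈ K0 := by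
  classical
  have ha : a ≠ 0 := by
    rintro rfl
    rw [pow_zero] at hK
    haveI : Fintype K0 := Fintype.ofFinite _
    have h1 : 1 < Fintype.card K0 := Fintype.one_lt_card
    rw [← Nat.card_eq_fintype_card, hK] at h1
    omega
  have hinj : Function.Injective (fun y : K0 =>
      (⟨y.1, (mem_fixF p a y.1).mpr (pow_card_of_mem p K0 a hK y.1 y.2)⟩ : fixF (F := F) p a)) :=
    fun y z h => Subtype.ext (by have h' := congrArg Subtype.val h; exact h')
  have hbij := hinj.bijective_of_nat_card_le (by rw [hK]; exact card_fixF_le p a ha)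
  obtain ⟨y, hy⟩ := hbij.2 ⟨x, (mem_fixF p a x).mpr hx⟩
  have : y.1 = x := congrArg Subtype.val hy
  rw [← this]
  exact y.2

theorem card_fixF [Fintype F] (p : ℕ) [Fact p.Prime] [CharP F p] (n m : ℕ)
    (hq : Fintype.card F = p ^ n) (hm : m ∣ n) (hm0 : m ≠ 0) :
    Nat.card (fixF (F := F) p m) = p ^ m := by
  classical
  apply le_antisymm (card_fixF_le p m hm0)
  obtain ⟨d, rfl⟩ := hm
  haveI : Fintype (GaloisField p m) := Fintype.ofFinite _
  have hG : Fintype.card (GaloisField p m) = p ^ m := by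
    rw [← Nat.card_eq_fintype_card, GaloisField.card p m hm0]
  obtain ⟨φ⟩ := Cfsg.Agent.Helper44.exists_ringHom_of_card_pow (F := GaloisField p m) (K := F)
    hG (by rw [hq, pow_mul])
  have hmem : ∀ x : GaloisField p m, φ x ∈ fixF (F := F) p m := by
    intro x
    rw [mem_fixF, ← map_pow, ← hG, FiniteField.pow_card]
  rw [← hG, ← Nat.card_eq_fintype_card]
  exact Nat.card_le_card_of_injective (fun x => (⟨φ x, hmem x⟩ : fixF (F := F) p m))
    (fun x y h => φ.injective (congrArg Subtype.val h))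

/-! ### the groups `SL₂(K₀)` and its quadratic extension -/

theorem SK_mono {K0 K1 : Subfield F} (h : K0 ≤ K1) : SK K0 ≤ SK K1 :=
  fun _ hg i j => h (hg i j)

theorem kk_strict {a b : ℕ} (h : a < b) (ha : 1 ≤ a) : a * (a ^ 2 - 1) < b * (b ^ 2 - 1) := by
  have h1 : a ^ 2 ≤ b ^ 2 := Nat.pow_le_pow_left h.le 2
  have h2 : 4 ≤ b ^ 2 := by nlinarith
  calc a * (a ^ 2 - 1) ≤ a * (b ^ 2 - 1) := Nat.mul_le_mul_left a (by omega)
    _ < b * (b ^ 2 - 1) := Nat.mul_lt_mul_of_pos_right h (by omega)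

theorem kk_inj {a b : ℕ} (ha : 1 ≤ a) (hb : 1 ≤ b) (h : a * (a ^ 2 - 1) = b * (b ^ 2 - 1)) :
    a = b := by
  rcases Nat.lt_trichotomy a b with h1 | h1 | h1
  · exact absurd h (kk_strict h1 ha).ne
  · exact h1
  · exact absurd h.symm (kk_strict h1 hb).ne

theorem card_of_SK_top [Fintype F] (K : Subfield F) (h : SK K = ⊤) :
    Nat.card K = Fintype.card F := by
  classical
  have h1 := card_SK K
  rw [h, Subgroup.card_top, Cfsg.Agent.Helper5.card_SL2] at h1
  haveI : Fintype K := Fintype.ofFinite _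
  have hk : 1 ≤ Nat.card K := by
    rw [Nat.card_eq_fintype_card]; exact Fintype.card_pos
  exact (kk_inj Fintype.card_pos hk h1).symm

theorem SK_top_of_card [Fintype F] (K : Subfield F) (h : Nat.card K = Fintype.card F) :
    SK K = ⊤ := by
  classical
  apply Subgroup.eq_top_of_card_eq
  rw [card_SK, h, Cfsg.Agent.Helper5.card_SL2]

/-- the group `SL₂(K₀) ∪ λ⁻¹ GL₂(K₀)`. -/
def PK (K0 : Subfield F) (lam : F) (hlam0 : lam ≠ 0) (hlam2 : lam ^ 2 ∈ K0) : Subgroup SL2 where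
  carrier := {g | MemK K0 g.1 ∨ MemK K0 (lam • g.1)}
  one_mem' := by
    left
    rw [memK_iff]
    simp [K0.zero_mem, K0.one_mem]
  mul_mem' := by
    intro g h hg hh
    have hl : (lam ^ 2)⁻¹ ∈ K0 := K0.inv_mem hlam2
    rcases hg with hg | hg <;> rcases hh with hh | hh
    · left
      rw [Matrix.SpecialLinearGroup.coe_mul]
      exact memK_mul K0 hg hh
    · right
      rw [Matrix.SpecialLinearGroup.coe_mul, ← Matrix.mul_smul]
      exact memK_mul K0 hg hh
    · right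
      rw [Matrix.SpecialLinearGroup.coe_mul, ← Matrix.smul_mul]
      exact memK_mul K0 hg hh
    · left
      have e : (g * h).1 = (lam ^ 2)⁻¹ • ((lam • g.1) * (lam • h.1)) := by
        rw [Matrix.SpecialLinearGroup.coe_mul, Matrix.smul_mul, Matrix.mul_smul, smul_smul,
          smul_smul]
        have h1 : (lam ^ 2)⁻¹ * lam * lam = 1 := by field_simp
        rw [h1, one_smul]
      rw [e]
      intro i j
      rw [Matrix.smul_apply, smul_eq_mul]
      exact K0.mul_mem hl (memK_mul K0 hg hh i j)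
  inv_mem' := by
    intro g hg
    rcases hg with hg | hg
    · left
      rw [memK_iff] at hg ⊢
      rw [inv_e00, inv_e01, inv_e10, inv_e11]
      exact ⟨hg.2.2.2, K0.neg_mem hg.2.1, K0.neg_mem hg.2.2.1, hg.1⟩
    · right
      rw [memK_iff] at hg ⊢
      simp only [Matrix.smul_apply, smul_eq_mul, inv_e00, inv_e01, inv_e10, inv_e11,
        mul_neg] at hg ⊢
      exact ⟨hg.2.2.2, K0.neg_mem hg.2.1, K0.neg_mem hg.2.2.1, hg.1⟩

theorem mem_PK (K0 : Subfield F) (lam : F) (hlam0 : lam ≠ 0) (hlam2 : lam ^ 2 ∈ K0) (g : SL2) :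
    g ∈ PK K0 lam hlam0 hlam2 ↔ (MemK K0 g.1 ∨ MemK K0 (lam • g.1)) := Iff.rfl

theorem SK_le_PK (K0 : Subfield F) (lam : F) (hlam0 : lam ≠ 0) (hlam2 : lam ^ 2 ∈ K0) :
    SK K0 ≤ PK K0 lam hlam0 hlam2 := fun _ hg => Or.inl hg

/-- `diag(λ, λ⁻¹)`. -/
def dgl (lam : F) (hlam0 : lam ≠ 0) : SL2 :=
  mkSL lam 0 0 lam⁻¹ (by rw [mul_inv_cancel₀ hlam0]; ring)

theorem dgl_mem_PK (K0 : Subfield F) (lam : F) (hlam0 : lam ≠ 0) (hlam2 : lam ^ 2 ∈ K0) :
    dgl lam hlam0 ∈ PK K0 lam hlam0 hlam2 := by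
  right
  rw [memK_iff]
  simp only [Matrix.smul_apply, smul_eq_mul, dgl, mk_e00, mk_e01, mk_e10, mk_e11, mul_zero]
  refine ⟨?_, K0.zero_mem, K0.zero_mem, ?_⟩
  · rw [← pow_two]; exact hlam2
  · rw [mul_inv_cancel₀ hlam0]; exact K0.one_mem

theorem dgl_not_mem_SK (K0 : Subfield F) (lam : F) (hlam0 : lam ≠ 0) (hlam : lam ∉ K0) :
    dgl lam hlam0 ∉ SK K0 := fun h => hlam (h 0 0)

theorem card_PK_le [Fintype F] (K0 : Subfield F) (lam : F) (hlam0 : lam ≠ 0)
    (hlam2 : lam ^ 2 ∈ K0) :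
    Nat.card (PK K0 lam hlam0 hlam2) ≤ 2 * Nat.card (SK K0) := by
  classical
  have key : ∀ g : PK K0 lam hlam0 hlam2, ¬ MemK K0 g.1.1 →
      (dgl lam hlam0)⁻¹ * g.1 ∈ SK K0 := by
    intro g hg
    have h1 : MemK K0 (lam • g.1.1) := g.2.resolve_left hg
    have h0 : MemK K0 (lam • (dgl lam hlam0).1) :=
      (dgl_mem_PK K0 lam hlam0 hlam2).resolve_left (dgl_not_mem_SK K0 lam hlam0 (by
        intro hl
        apply hg
        have hli : lam⁻¹ ∈ K0 := K0.inv_mem hl
        intro i j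
        have := K0.mul_mem hli (h1 i j)
        rw [Matrix.smul_apply, smul_eq_mul, ← mul_assoc, inv_mul_cancel₀ hlam0, one_mul] at this
        exact this))
    exact memK_inv_mul K0 lam hlam0 hlam2 h0 h1
  have hc : Nat.card (Bool × SK K0) = 2 * Nat.card (SK K0) := by
    rw [Nat.card_prod, Nat.card_eq_fintype_card (α := Bool), Fintype.card_bool]
  rw [← hc]
  apply Nat.card_le_card_of_injective (fun g : PK K0 lam hlam0 hlam2 =>
    if hg : MemK K0 g.1.1 then ((true, ⟨g.1, hg⟩) : Bool × SK K0)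
    else (false, ⟨(dgl lam hlam0)⁻¹ * g.1, key g hg⟩))
  intro g g' h
  by_cases hg : MemK K0 g.1.1 <;> by_cases hg' : MemK K0 g'.1.1
  · simp only [dif_pos hg, dif_pos hg'] at h
    exact Subtype.ext (congrArg (fun x : Bool × SK K0 => x.2.1) h)
  · simp only [dif_pos hg, dif_neg hg'] at h
    exact absurd (congrArg Prod.fst h) (by simp)
  · simp only [dif_neg hg, dif_pos hg'] at h
    exact absurd (congrArg Prod.fst h) (by simp)
  · simp only [dif_neg hg, dif_neg hg'] at h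
    have h1 : (dgl lam hlam0)⁻¹ * g.1 = (dgl lam hlam0)⁻¹ * g'.1 :=
      congrArg (fun x : Bool × SK K0 => x.2.1) h
    exact Subtype.ext (mul_left_cancel h1)

end Cfsg.Agent.Helper5.PMax
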