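import Mathlib
import Cfsg.Agent.Helper5.PMaxB
import Cfsg.Agent.Helper41.DkMax2

/-!
# Maximal subgroups of `PSL₂(q)`, part C (helper5)

Consequences of the maximality of a subfield subgroup: if `SL₂(K₀)` is maximal in `SL₂(F)` then
`[F : K₀]` is an odd prime; if `SL₂(K₀)·⟨diag(λ, λ⁻¹)⟩` is maximal then `[F : K₀] = 2`.
-/

set_option autoImplicit false
set_option linter.style.haveILetI false

namespace Cfsg.Agent.Helper5.PMax

open Cfsg.Agent.Helper41 Cfsg.Agent.Helper41.Dk Matrix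

variable {F : Type*} [Field F]

local notation "SL2" => Matrix.SpecialLinearGroup (Fin 2) F

theorem pow_iter {R : Type*} [Monoid R] (x : R) (m d : ℕ) (h : x ^ m = x) : x ^ m ^ d = x := by
  induction d with
  | zero => simp
  | succ d ih => rw [pow_succ, pow_mul, ih, h]

theorem kk_mono {a b : ℕ} (h : a ≤ b) : a * (a ^ 2 - 1) ≤ b * (b ^ 2 - 1) := by
  have h1 : a ^ 2 ≤ b ^ 2 := Nat.pow_le_pow_left h 2
  exact Nat.mul_le_mul h (by omega)

theorem two_kk_lt {k m : ℕ} (hk : 1 ≤ k) (hm : 2 * k ≤ m) :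
    2 * (k * (k ^ 2 - 1)) < m * (m ^ 2 - 1) := by
  have h1 : 2 * (k * (k ^ 2 - 1)) < (2 * k) * ((2 * k) ^ 2 - 1) := by
    have h2 : k ^ 2 - 1 < (2 * k) ^ 2 - 1 := by
      have : k ^ 2 < (2 * k) ^ 2 := Nat.pow_lt_pow_left (by omega) (by norm_num)
      have : 1 ≤ k ^ 2 := Nat.one_le_pow _ _ hk
      omega
    calc 2 * (k * (k ^ 2 - 1)) = (2 * k) * (k ^ 2 - 1) := by ring
      _ < (2 * k) * ((2 * k) ^ 2 - 1) := Nat.mul_lt_mul_of_pos_left h2 (by omega)
  exact lt_of_lt_of_le h1 (kk_mono hm)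

theorem odd_of_odd_pow (k n : ℕ) (hn : n ≠ 0) (h : Odd (k ^ n)) : Odd k := by
  by_contra hk
  rw [Nat.not_odd_iff_even] at hk
  have := hk.pow_of_ne_zero hn (n := n)
  exact (Nat.not_odd_iff_even.mpr this) h

/-- the order of a subfield. -/
theorem exists_card_subfield [Fintype F] (p : ℕ) [Fact p.Prime] [CharP F p] (K0 : Subfield F) :
    ∃ a : ℕ, a ≠ 0 ∧ Nat.card K0 = p ^ a := by
  classical
  haveI : CharP K0 p := RingHom.charP K0.subtype K0.subtype.injective p
  haveI : Fintype K0 := Fintype.ofFinite _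
  obtain ⟨a, -, ha⟩ := FiniteField.card K0 p
  exact ⟨a, a.ne_zero, by rw [Nat.card_eq_fintype_card, ha]⟩

theorem two_ne_zero' [Fintype F] (hodd : Odd (Fintype.card F)) : (2 : F) ≠ 0 :=
  Cfsg.Agent.Helper40.two_ne_zero_of_odd hodd

theorem exists_lam [Fintype F] (p : ℕ) [Fact p.Prime] [CharP F p] (K0 : Subfield F)
    (hodd : Odd (Fintype.card F)) (hF : Fintype.card F = Nat.card K0 ^ 2) :
    ∃ lam : F, lam ≠ 0 ∧ lam ∉ K0 ∧ lam ^ 2 ∈ K0 := by
  classical
  have h2 := two_ne_zero' hodd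
  obtain ⟨a, ha, hK⟩ := exists_card_subfield p K0
  obtain ⟨ζ, hζ⟩ := exists_gen (F := F)
  have hkodd : Odd (Nat.card K0) := by
    rw [hF] at hodd
    exact odd_of_odd_pow _ 2 (by norm_num) hodd
  obtain ⟨j, hj⟩ := hkodd
  have hk2 : 2 ≤ Nat.card K0 := by
    haveI : Fintype K0 := Fintype.ofFinite _
    rw [Nat.card_eq_fintype_card]; exact Fintype.one_lt_card
  have hj1 : 1 ≤ j := by omega
  have hq1 : Fintype.card F - 1 = 4 * (j * (j + 1)) := by
    rw [hF, hj]
    have : (2 * j + 1) ^ 2 = 4 * (j * (j + 1)) + 1 := by ring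
    rw [this]; simp
  have hε1 : (ζ : F) ^ (2 * (j * (j + 1))) ≠ 1 := by
    have h1 : ζ ^ (2 * (j * (j + 1))) ≠ 1 := by
      apply pow_ne_one_of_lt_orderOf
      · have : 0 < j * (j + 1) := Nat.mul_pos (by omega) (by omega)
        omega
      · rw [hζ, hq1]
        have : 0 < j * (j + 1) := Nat.mul_pos (by omega) (by omega)
        omega
    intro h
    apply h1
    apply Units.ext
    rw [Units.val_pow_eq_pow_val, h, Units.val_one]
  have hε2 : ((ζ : F) ^ (2 * (j * (j + 1)))) ^ 2 = 1 := by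
    rw [← pow_mul]
    have h1 : ζ ^ (2 * (j * (j + 1)) * 2) = 1 := by
      have : 2 * (j * (j + 1)) * 2 = orderOf ζ := by rw [hζ, hq1]; ring
      rw [this]; exact pow_orderOf_eq_one ζ
    have := congrArg Units.val h1
    rwa [Units.val_pow_eq_pow_val, Units.val_one] at this
  have hε : (ζ : F) ^ (2 * (j * (j + 1))) = -1 := (sq_eq_one_iff.mp hε2).resolve_left hε1
  have hlam0 : (ζ : F) ^ (j + 1) ≠ 0 := pow_ne_zero _ ζ.ne_zero
  have hpow : ((ζ : F) ^ (j + 1)) ^ (p ^ a) = -(ζ : F) ^ (j + 1) := by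
    rw [← hK, hj, pow_succ, ← pow_mul]
    have : (j + 1) * (2 * j) = 2 * (j * (j + 1)) := by ring
    rw [this, hε]; ring
  refine ⟨(ζ : F) ^ (j + 1), hlam0, ?_, ?_⟩
  · intro hmem
    have h1 := pow_card_of_mem p K0 a hK _ hmem
    rw [hpow] at h1
    have h3 : (2 : F) * (ζ : F) ^ (j + 1) = 0 := by linear_combination (-1 : F) * h1
    rcases mul_eq_zero.mp h3 with h | h
    · exact h2 h
    · exact hlam0 h
  · apply mem_of_pow_eq p K0 a hK
    rw [← pow_mul, mul_comm, pow_mul, hpow]; ring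

theorem sub_case_SK [Fintype F] (p : ℕ) [Fact p.Prime] [CharP F p]
    (hodd : Odd (Fintype.card F)) (K0 : Subfield F) (hmx : IsMx (SK K0)) :
    ∃ r : ℕ, r.Prime ∧ Odd r ∧ Fintype.card F = Nat.card K0 ^ r := by
  classical
  haveI : Fintype K0 := Fintype.ofFinite _
  have c2 : Fintype.card F = Fintype.card K0 ^ Module.finrank K0 F := Module.card_eq_pow_finrank
  rw [← Nat.card_eq_fintype_card (α := K0)] at c2
  obtain ⟨a, ha, hK⟩ := exists_card_subfield p K0
  have hp1 : 1 < p := (Fact.out : p.Prime).one_lt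
  have hk2 : 2 ≤ Nat.card K0 := by
    rw [Nat.card_eq_fintype_card]; exact Fintype.one_lt_card
  obtain ⟨r, hr⟩ : ∃ r, r = Module.finrank K0 F := ⟨_, rfl⟩
  rw [← hr] at c2
  have hq : Fintype.card F = p ^ (a * r) := by rw [c2, hK, pow_mul]
  have hr1 : r ≠ 1 := by
    rintro rfl
    rw [pow_one] at c2
    exact hmx.1 (SK_top_of_card K0 c2.symm)
  have hr0 : r ≠ 0 := by
    rintro rfl
    rw [pow_zero] at c2
    have : 1 < Fintype.card F := Fintype.one_lt_card
    omega
  have hrp : r.Prime := by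
    by_contra hnp
    obtain ⟨d, hd, hd2, hdr⟩ := Nat.exists_dvd_of_not_prime2 (by omega) hnp
    have hcard := card_fixF (F := F) p (a * r) (a * d) hq (Nat.mul_dvd_mul_left a hd)
      (Nat.mul_ne_zero ha (by omega))
    have hle : K0 ≤ fixF (F := F) p (a * d) := by
      intro x hx
      rw [mem_fixF, pow_mul]
      exact pow_iter x (p ^ a) d (pow_card_of_mem p K0 a hK x hx)
    rcases hmx.2 _ (SK_mono hle) with h | h
    · have h1 := congrArg (fun S : Subgroup SL2 => Nat.card S) h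
      simp only [card_SK] at h1
      have h3 := kk_inj (by rw [hcard]; exact Nat.one_le_pow _ _ (by omega)) (by omega) h1
      rw [hcard, hK] at h3
      have h4 := Nat.pow_right_injective hp1 h3
      have : a * d = a * 1 := by rw [h4, mul_one]
      have := Nat.eq_of_mul_eq_mul_left (Nat.pos_of_ne_zero ha) this
      omega
    · have h1 := card_of_SK_top _ h
      rw [hcard, hq] at h1
      have h4 := Nat.pow_right_injective hp1 h1
      have := Nat.eq_of_mul_eq_mul_left (Nat.pos_of_ne_zero ha) h4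
      omega
  refine ⟨r, hrp, hrp.odd_of_ne_two ?_, c2⟩
  rintro rfl
  obtain ⟨lam, hlam0, hlam, hlam2⟩ := exists_lam p K0 hodd c2
  rcases hmx.2 _ (SK_le_PK K0 lam hlam0 hlam2) with h | h
  · have h1 := dgl_mem_PK K0 lam hlam0 hlam2
    rw [h] at h1
    exact dgl_not_mem_SK K0 lam hlam0 hlam h1
  · have h1 := card_PK_le K0 lam hlam0 hlam2
    rw [h, Subgroup.card_top, Cfsg.Agent.Helper5.card_SL2, card_SK, c2] at h1
    have h3 : 2 * Nat.card K0 ≤ Nat.card K0 ^ 2 := by nlinarith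
    have h4 := two_kk_lt (k := Nat.card K0) (by omega) h3
    omega

theorem sub_case_PK [Fintype F] (p : ℕ) [Fact p.Prime] [CharP F p]
    (hodd : Odd (Fintype.card F)) (K0 : Subfield F) (lam : F) (hlam0 : lam ≠ 0)
    (hlam : lam ∉ K0) (hlam2 : lam ^ 2 ∈ K0) (hmx : IsMx (PK K0 lam hlam0 hlam2)) :
    Fintype.card F = Nat.card K0 ^ 2 := by
  classical
  haveI : Fintype K0 := Fintype.ofFinite _
  have c2 : Fintype.card F = Fintype.card K0 ^ Module.finrank K0 F := Module.card_eq_pow_finrank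
  rw [← Nat.card_eq_fintype_card (α := K0)] at c2
  obtain ⟨a, ha, hK⟩ := exists_card_subfield p K0
  have hp1 : 1 < p := (Fact.out : p.Prime).one_lt
  have hk2 : 2 ≤ Nat.card K0 := by
    rw [Nat.card_eq_fintype_card]; exact Fintype.one_lt_card
  obtain ⟨r, hr⟩ : ∃ r, r = Module.finrank K0 F := ⟨_, rfl⟩
  rw [← hr] at c2
  have hr1 : r ≠ 1 := by
    rintro rfl
    rw [pow_one, hK] at c2
    apply hlam
    apply mem_of_pow_eq p K0 a hK
    rw [← c2]; exact FiniteField.pow_card lam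
  have hr0 : r ≠ 0 := by
    rintro rfl
    rw [pow_zero] at c2
    have : 1 < Fintype.card F := Fintype.one_lt_card
    omega
  have hpodd : Odd (p ^ a) := by
    rw [c2, hK] at hodd
    exact odd_of_odd_pow _ r hr0 hodd
  have hle : K0 ≤ fixF (F := F) p (2 * a) := by
    intro x hx
    rw [mem_fixF, mul_comm, pow_mul]
    exact pow_iter x (p ^ a) 2 (pow_card_of_mem p K0 a hK x hx)
  have hlamK : lam ∈ fixF (F := F) p (2 * a) := by
    rw [mem_fixF, mul_comm, pow_mul, pow_two, pow_mul]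
    have h1 : (lam ^ p ^ a) ^ 2 = lam ^ 2 := by
      rw [← pow_mul, mul_comm, pow_mul]
      exact pow_card_of_mem p K0 a hK _ hlam2
    rcases sq_eq_sq_iff_eq_or_eq_neg.mp h1 with h | h
    · rw [h, h]
    · rw [h, hpodd.neg_pow, h, neg_neg]
  have hPle : PK K0 lam hlam0 hlam2 ≤ SK (fixF (F := F) p (2 * a)) := by
    intro g hg
    rcases hg with hg | hg
    · exact fun i j => hle (hg i j)
    · intro i j
      have h1 := (fixF (F := F) p (2 * a)).mul_mem
        ((fixF (F := F) p (2 * a)).inv_mem hlamK) (hle (hg i j))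
      rw [Matrix.smul_apply, smul_eq_mul, ← mul_assoc, inv_mul_cancel₀ hlam0, one_mul] at h1
      exact h1
  have hcle := card_fixF_le (F := F) p (2 * a) (by omega)
  rcases hmx.2 _ hPle with h | h
  · exfalso
    haveI : CharP (fixF (F := F) p (2 * a)) p :=
      RingHom.charP (fixF (F := F) p (2 * a)).subtype
        (fixF (F := F) p (2 * a)).subtype.injective p
    obtain ⟨b, hb, hKb⟩ := exists_card_subfield p (fixF (F := F) p (2 * a))
    haveI : Fintype (fixF (F := F) p (2 * a)) := Fintype.ofFinite _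
    have hlt : Nat.card K0 < Nat.card (fixF (F := F) p (2 * a)) := by
      rw [Nat.card_eq_fintype_card, Nat.card_eq_fintype_card]
      apply Fintype.card_lt_of_injective_of_notMem
        (fun x : K0 => (⟨x.1, hle x.2⟩ : fixF (F := F) p (2 * a)))
        (fun x y hxy => Subtype.ext (by have h' := congrArg Subtype.val hxy; exact h'))
        (b := ⟨lam, hlamK⟩)
      rintro ⟨x, hx⟩
      apply hlam
      have : x.1 = lam := congrArg Subtype.val hx
      rw [← this]; exact x.2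
    rw [hK, hKb] at hlt
    have hab : a < b := (Nat.pow_lt_pow_iff_right hp1).mp hlt
    have h2k : 2 * Nat.card K0 ≤ Nat.card (fixF (F := F) p (2 * a)) := by
      rw [hK, hKb]
      calc 2 * p ^ a ≤ p * p ^ a := Nat.mul_le_mul_right _ hp1
        _ = p ^ (a + 1) := by rw [pow_succ, mul_comm]
        _ ≤ p ^ b := Nat.pow_le_pow_right (by omega) hab
    have h4 := two_kk_lt (k := Nat.card K0) (by omega) h2k
    have h5 := card_PK_le K0 lam hlam0 hlam2
    rw [← h, card_SK, card_SK] at h5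
    omega
  · have h1 := card_of_SK_top _ h
    rw [h1, c2, hK, ← pow_mul] at hcle
    have h3 : a * r ≤ 2 * a := (Nat.pow_le_pow_iff_right hp1).mp hcle
    have h4 : r ≤ 2 := by
      by_contra hc
      have : 3 ≤ r := by omega
      have : a * 3 ≤ a * r := Nat.mul_le_mul_left a this
      omega
    have : r = 2 := by omega
    rw [c2, this]

/-! ### the conclusions for a maximal subgroup of `PSL₂` -/

theorem map_eq_of_range [Fintype F] (H : Subgroup SL2) (Q : Matrix (Fin 2) (Fin 2) F)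
    (hQ : Q.det ≠ 0) (S : Subgroup SL2)
    (h : ∀ g : SL2, g ∈ ((conjGL Q hQ).comp H.subtype).range ↔ g ∈ S) :
    H.map (conjGL Q hQ) = S := by
  rw [← range_comp_eq]
  ext g
  exact h g

theorem concl_SK [Fintype F] (p : ℕ) [Fact p.Prime] [CharP F p] (hodd : Odd (Fintype.card F))
    (M : Subgroup (SL2 ⧸ Subgroup.center SL2)) (hM : IsCoatom M)
    (Q : Matrix (Fin 2) (Fin 2) F) (hQ : Q.det ≠ 0) (K0 : Subfield F)
    (h : ∀ g : SL2, g ∈ ((conjGL Q hQ).comp (pre M).subtype).range ↔ MemK K0 g.1) :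
    ∃ (F₀ : Type) (_ : Field F₀) (_ : Fintype F₀) (r : ℕ), r.Prime ∧ Odd r ∧
      Fintype.card F = Fintype.card F₀ ^ r ∧
      Nonempty (M ≃* Matrix.ProjectiveSpecialLinearGroup (Fin 2) F₀) := by
  classical
  have hmx : IsMx (SK K0) := by
    rw [← map_eq_of_range (pre M) Q hQ (SK K0) h]
    exact isMx_map _ (isMx_pre M hM) Q hQ
  obtain ⟨r, hrp, hro, hr⟩ := sub_case_SK p hodd K0 hmx
  obtain ⟨K, hKf, hKfin, m, φ, -, hφ⟩ := exists_small_field p K0
  have hcK : Fintype.card K = Nat.card K0 := by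
    rw [← Nat.card_eq_fintype_card]
    apply Nat.card_congr
    refine Equiv.ofBijective (fun k => (⟨φ k, (hφ _).mpr ⟨k, rfl⟩⟩ : K0)) ⟨?_, ?_⟩
    · intro x y hxy
      exact φ.injective (congrArg Subtype.val hxy)
    · rintro ⟨c, hc⟩
      obtain ⟨k, hk⟩ := (hφ c).mp hc
      exact ⟨k, Subtype.ext hk⟩
  obtain ⟨br⟩ := psl_bridge M
  have hZ2 : ∀ g : (pre M), g ∈ (Subgroup.center SL2).subgroupOf (pre M) ↔
      ((conjGL Q hQ).comp (pre M).subtype) g ∈ Subgroup.center SL2 := by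
    intro g
    rw [MonoidHom.comp_apply, conjGL_mem_center]; exact Subgroup.mem_subgroupOf
  obtain ⟨e⟩ := sl2K_case φ K0 ((conjGL Q hQ).comp (pre M).subtype) _ hφ hZ2 h
  exact ⟨K, hKf, hKfin, r, hrp, hro, by rw [hcK]; exact hr, ⟨br.symm.trans e⟩⟩

theorem concl_PK [Fintype F] (p : ℕ) [Fact p.Prime] [CharP F p] (hodd : Odd (Fintype.card F))
    (M : Subgroup (SL2 ⧸ Subgroup.center SL2)) (hM : IsCoatom M)
    (Q : Matrix (Fin 2) (Fin 2) F) (hQ : Q.det ≠ 0) (K0 : Subfield F) (lam : F)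
    (hlam : lam ∉ K0) (hlam2 : lam ^ 2 ∈ K0)
    (h : ∀ g : SL2, g ∈ ((conjGL Q hQ).comp (pre M).subtype).range ↔
      (MemK K0 g.1 ∨ MemK K0 (lam • g.1))) :
    ∃ (F₀ : Type) (_ : Field F₀) (_ : Fintype F₀), Fintype.card F = Fintype.card F₀ ^ 2 ∧
      Nonempty (M ≃* Matrix.ProjGenLinGroup (Fin 2) F₀) := by
  classical
  have hlam0 : lam ≠ 0 := fun h0 => hlam (h0 ▸ K0.zero_mem)
  have hmx : IsMx (PK K0 lam hlam0 hlam2) := by
    rw [← map_eq_of_range (pre M) Q hQ (PK K0 lam hlam0 hlam2) h]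
    exact isMx_map _ (isMx_pre M hM) Q hQ
  have hr := sub_case_PK p hodd K0 lam hlam0 hlam hlam2 hmx
  obtain ⟨K, hKf, hKfin, m, φ, -, hφ⟩ := exists_small_field p K0
  have hcK : Fintype.card K = Nat.card K0 := by
    rw [← Nat.card_eq_fintype_card]
    apply Nat.card_congr
    refine Equiv.ofBijective (fun k => (⟨φ k, (hφ _).mpr ⟨k, rfl⟩⟩ : K0)) ⟨?_, ?_⟩
    · intro x y hxy
      exact φ.injective (congrArg Subtype.val hxy)
    · rintro ⟨c, hc⟩
      obtain ⟨k, hk⟩ := (hφ c).mp hc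
      exact ⟨k, Subtype.ext hk⟩
  obtain ⟨br⟩ := psl_bridge M
  have hZ2 : ∀ g : (pre M), g ∈ (Subgroup.center SL2).subgroupOf (pre M) ↔
      ((conjGL Q hQ).comp (pre M).subtype) g ∈ Subgroup.center SL2 := by
    intro g
    rw [MonoidHom.comp_apply, conjGL_mem_center]; exact Subgroup.mem_subgroupOf
  obtain ⟨e⟩ := pgl2K_case φ K0 ((conjGL Q hQ).comp (pre M).subtype) _ hφ hZ2 lam hlam hlam2 h
  exact ⟨K, hKf, hKfin, by rw [hcK]; exact hr, ⟨br.symm.trans e⟩⟩

end Cfsg.Agent.Helper5.PMax
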