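import Mathlib
import Cfsg.Agent.Helper5.PMaxC

/-!
# Maximal subgroups of `PSL₂(q)`, part D (helper5)

The trace-field argument: a maximal subgroup of `SL₂(F)` containing a quaternion pair, all of
whose traces lie in a subfield `K`, is conjugate to `SL₂(K)` or `K = F`.
-/

set_option autoImplicit false
set_option linter.style.haveILetI false

namespace Cfsg.Agent.Helper5.PMax

open Cfsg.Agent.Helper41 Cfsg.Agent.Helper41.Dk Matrix

variable {F : Type*} [Field F]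

local notation "SL2" => Matrix.SpecialLinearGroup (Fin 2) F

theorem exists_lifts {T : Type*} [Group T] (Ht : Subgroup SL2)
    (e : (↥Ht ⧸ (Subgroup.center SL2).subgroupOf Ht) ≃* T) (a b : T)
    (ha : a ≠ 1) (hb : b ≠ 1) (hab : a * b ≠ 1) (ha2 : a ^ 2 = 1) (hb2 : b ^ 2 = 1)
    (hab2 : (a * b) ^ 2 = 1) :
    ∃ A B : Ht, e (QuotientGroup.mk A) = a ∧ e (QuotientGroup.mk B) = b ∧
      tr (A : SL2) = 0 ∧ tr (B : SL2) = 0 ∧
      (A : SL2).1 * (B : SL2).1 = -((B : SL2).1 * (A : SL2).1) := by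
  obtain ⟨A, hA⟩ := QuotientGroup.mk_surjective (e.symm a)
  obtain ⟨B, hB⟩ := QuotientGroup.mk_surjective (e.symm b)
  have hA' : e (QuotientGroup.mk A) = a := by rw [hA]; simp
  have hB' : e (QuotientGroup.mk B) = b := by rw [hB]; simp
  have hAB' : e (QuotientGroup.mk (A * B)) = a * b := by
    rw [QuotientGroup.mk_mul, map_mul, hA', hB']
  have key : ∀ (X : Ht) (x : T), e (QuotientGroup.mk X) = x → x ≠ 1 → x ^ 2 = 1 →
      tr (X : SL2) = 0 := by
    intro X x hX hx hx2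
    apply tr_of_sq
    · intro hc
      apply hx
      rw [← hX]
      have : (QuotientGroup.mk X : ↥Ht ⧸ (Subgroup.center SL2).subgroupOf Ht) = 1 :=
        (QuotientGroup.eq_one_iff X).mpr (Subgroup.mem_subgroupOf.mpr hc)
      rw [this, map_one]
    · exact quot_pow_center Ht e X 2 (by rw [hX, hx2])
  refine ⟨A, B, hA', hB', key A a hA' ha ha2, key B b hB' hb hb2, ?_⟩
  exact anticomm_of_tr _ _ (key A a hA' ha ha2) (key B b hB' hb hb2)
    (key (A * B) (a * b) hAB' hab hab2)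

theorem cast_mem_subfield (p : ℕ) [Fact p.Prime] [CharP F p] (K : Subfield F) (a : ZMod p) :
    (ZMod.castHom (dvd_refl p) F) a ∈ K := by
  have h : (ZMod.castHom (dvd_refl p) F) a = ((a.val : ℕ) : F) := by
    rw [← map_natCast (ZMod.castHom (dvd_refl p) F), ZMod.natCast_zmod_val]
  rw [h]
  exact natCast_mem K _

theorem trace_case [Fintype F] (p : ℕ) [Fact p.Prime] [CharP F p] (h2 : (2 : F) ≠ 0)
    (Ht : Subgroup SL2) (A B : SL2) (htA : tr A = 0) (htB : tr B = 0)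
    (hAB : A.1 * B.1 = -(B.1 * A.1)) (K : Subfield F) (lam : F)
    (HT : ∀ h ∈ Ht, (lam * tr h ∈ K ∧ lam * tr (h * A) ∈ K ∧ lam * tr (h * B) ∈ K ∧
        lam * tr (h * (A * B)) ∈ K) ∨
      (tr h ∈ K ∧ tr (h * A) ∈ K ∧ tr (h * B) ∈ K ∧ tr (h * (A * B)) ∈ K)) :
    ∃ (Q : Matrix (Fin 2) (Fin 2) F) (hQ : Q.det ≠ 0), ∀ h ∈ Ht,
      MemK K (conjGL Q hQ h).1 ∨ MemK K (lam • (conjGL Q hQ h).1) := by
  obtain ⟨a, b, hab⟩ := ZMod.sq_add_sq p (-1)
  have hαβ : ((ZMod.castHom (dvd_refl p) F) a) ^ 2 + ((ZMod.castHom (dvd_refl p) F) b) ^ 2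
      = -1 := by
    rw [← map_pow, ← map_pow, ← map_add, hab, map_neg, map_one]
  obtain ⟨Q, hQ, hJ, hB0⟩ := exists_conj_std h2 A B htA htB hAB _ _ hαβ
  refine ⟨Q, hQ, fun h hh => ?_⟩
  have e1 : tr (conjGL Q hQ h * conjGL Q hQ A) = tr (h * A) := by
    rw [← map_mul, tr_conjGL]
  have e2 : tr (conjGL Q hQ h * conjGL Q hQ B) = tr (h * B) := by
    rw [← map_mul, tr_conjGL]
  have e3 : tr (conjGL Q hQ h * (conjGL Q hQ A * conjGL Q hQ B)) = tr (h * (A * B)) := by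
    rw [← map_mul, ← map_mul, tr_conjGL]
  rcases HT h hh with ⟨t1, t2, t3, t4⟩ | ⟨t1, t2, t3, t4⟩
  · right
    apply memK_of_traces K h2 _ _ lam (cast_mem_subfield p K a) (cast_mem_subfield p K b) hαβ
      (conjGL Q hQ A) (conjGL Q hQ B) (conjGL Q hQ h) hJ hB0
    · rw [tr_conjGL]; exact t1
    · rw [e1]; exact t2
    · rw [e2]; exact t3
    · rw [e3]; exact t4
  · left
    have := memK_of_traces K h2 _ _ 1 (cast_mem_subfield p K a) (cast_mem_subfield p K b) hαβ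
      (conjGL Q hQ A) (conjGL Q hQ B) (conjGL Q hQ h) hJ hB0
      (by rw [one_mul, tr_conjGL]; exact t1) (by rw [one_mul, e1]; exact t2)
      (by rw [one_mul, e2]; exact t3) (by rw [one_mul, e3]; exact t4)
    rwa [one_smul] at this

theorem PK_ne_top [Fintype F] (K0 : Subfield F) (lam : F) (hlam0 : lam ≠ 0) (hlam : lam ∉ K0)
    (hlam2 : lam ^ 2 ∈ K0) : PK K0 lam hlam0 hlam2 ≠ ⊤ := by
  classical
  intro htop
  haveI : Fintype K0 := Fintype.ofFinite _
  have c2 : Fintype.card F = Fintype.card K0 ^ Module.finrank K0 F := Module.card_eq_pow_finrank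
  rw [← Nat.card_eq_fintype_card (α := K0)] at c2
  have hk2 : 2 ≤ Nat.card K0 := by
    rw [Nat.card_eq_fintype_card]; exact Fintype.one_lt_card
  obtain ⟨r, hr⟩ : ∃ r, r = Module.finrank K0 F := ⟨_, rfl⟩
  rw [← hr] at c2
  have hr1 : r ≠ 1 := by
    rintro rfl
    rw [pow_one] at c2
    have hbij := (Subtype.val_injective (p := fun x : F => x ∈ K0)).bijective_of_nat_card_le
      (by rw [Nat.card_eq_fintype_card (α := F), c2])
    obtain ⟨y, hy⟩ := hbij.2 lam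
    apply hlam
    rw [← hy]; exact y.2
  have hr0 : r ≠ 0 := by
    rintro rfl
    rw [pow_zero] at c2
    have : 1 < Fintype.card F := Fintype.one_lt_card
    omega
  have h1 := card_PK_le K0 lam hlam0 hlam2
  rw [htop, Subgroup.card_top, Cfsg.Agent.Helper5.card_SL2, card_SK] at h1
  have h3 : 2 * Nat.card K0 ≤ Fintype.card F := by
    rw [c2]
    calc 2 * Nat.card K0 ≤ Nat.card K0 * Nat.card K0 := Nat.mul_le_mul_right _ hk2
      _ = Nat.card K0 ^ 2 := (pow_two _).symm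
      _ ≤ Nat.card K0 ^ r := Nat.pow_le_pow_right (by omega) (by omega)
  have h4 := two_kk_lt (k := Nat.card K0) (by omega) h3
  omega

theorem trace_concl_SK [Fintype F] (p : ℕ) [Fact p.Prime] [CharP F p]
    (hodd : Odd (Fintype.card F)) (M : Subgroup (SL2 ⧸ Subgroup.center SL2)) (hM : IsCoatom M)
    (A B : SL2) (hA : A ∈ pre M) (hB : B ∈ pre M) (htA : tr A = 0) (htB : tr B = 0)
    (hAB : A.1 * B.1 = -(B.1 * A.1)) (K : Subfield F) (HT : ∀ h ∈ pre M, tr h ∈ K) :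
    (∃ (F₀ : Type) (_ : Field F₀) (_ : Fintype F₀) (r : ℕ), r.Prime ∧ Odd r ∧
      Fintype.card F = Fintype.card F₀ ^ r ∧
      Nonempty (M ≃* Matrix.ProjectiveSpecialLinearGroup (Fin 2) F₀)) ∨
    Nat.card K = Fintype.card F := by
  classical
  have h2 := two_ne_zero' hodd
  obtain ⟨Q, hQ, hmem⟩ := trace_case p h2 (pre M) A B htA htB hAB K 1 (fun h hh => Or.inr
    ⟨HT h hh, HT _ ((pre M).mul_mem hh hA), HT _ ((pre M).mul_mem hh hB),
      HT _ ((pre M).mul_mem hh ((pre M).mul_mem hA hB))⟩)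
  have hle : (pre M).map (conjGL Q hQ) ≤ SK K := by
    rintro g ⟨h, hh, rfl⟩
    rcases hmem h hh with h1 | h1
    · exact h1
    · rwa [one_smul] at h1
  rcases (isMx_map _ (isMx_pre M hM) Q hQ).2 _ hle with h | h
  · left
    apply concl_SK p hodd M hM Q hQ K
    intro g
    rw [range_comp_eq, ← h]
    rfl
  · right
    exact card_of_SK_top K h

theorem trace_concl_PK [Fintype F] (p : ℕ) [Fact p.Prime] [CharP F p]
    (hodd : Odd (Fintype.card F)) (M : Subgroup (SL2 ⧸ Subgroup.center SL2)) (hM : IsCoatom M)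
    (A B : SL2) (htA : tr A = 0) (htB : tr B = 0)
    (hAB : A.1 * B.1 = -(B.1 * A.1)) (K : Subfield F) (lam : F) (hlam : lam ∉ K)
    (hlam2 : lam ^ 2 ∈ K)
    (HT : ∀ h ∈ pre M, (lam * tr h ∈ K ∧ lam * tr (h * A) ∈ K ∧ lam * tr (h * B) ∈ K ∧
        lam * tr (h * (A * B)) ∈ K) ∨
      (tr h ∈ K ∧ tr (h * A) ∈ K ∧ tr (h * B) ∈ K ∧ tr (h * (A * B)) ∈ K)) :
    ∃ (F₀ : Type) (_ : Field F₀) (_ : Fintype F₀), Fintype.card F = Fintype.card F₀ ^ 2 ∧
      Nonempty (M ≃* Matrix.ProjGenLinGroup (Fin 2) F₀) := by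
  classical
  have h2 := two_ne_zero' hodd
  have hlam0 : lam ≠ 0 := fun h0 => hlam (h0 ▸ K.zero_mem)
  obtain ⟨Q, hQ, hmem⟩ := trace_case p h2 (pre M) A B htA htB hAB K lam HT
  have hle : (pre M).map (conjGL Q hQ) ≤ PK K lam hlam0 hlam2 := by
    rintro g ⟨h, hh, rfl⟩
    exact hmem h hh
  rcases (isMx_map _ (isMx_pre M hM) Q hQ).2 _ hle with h | h
  · apply concl_PK p hodd M hM Q hQ K lam hlam hlam2
    intro g
    rw [range_comp_eq, ← h]
    rfl
  · exact absurd h (PK_ne_top K lam hlam0 hlam hlam2)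

end Cfsg.Agent.Helper5.PMax
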