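import Mathlib
import Cfsg.Agent.Helper5.SylowConj
import Cfsg.Agent.Helper40.PSL2KleinConj

/-!
# Maximal subgroups of `PSL₂(q)`, part E (helper5)

Group-theoretic criteria showing that a subgroup of a finite group is not maximal, and facts
on `A₄`, `S₄`, `A₅` proved by `decide`.
-/

set_option autoImplicit false
set_option linter.style.haveILetI false

namespace Cfsg.Agent.Helper5.PMax

open Cfsg.Agent.Helper40.PSL2Klein

/-- A Sylow-size `p`-subgroup that is properly contained, up to conjugacy, in a proper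
subgroup is not maximal. -/
theorem not_coatom_of_pgroup {G : Type*} [Group G] [Finite G] (p : ℕ) [Fact p.Prime]
    (M S : Subgroup G) (k : ℕ) (hM : Nat.card M = p ^ k) (hG : ¬ p ^ (k + 1) ∣ Nat.card G)
    (hS : p ^ k ∣ Nat.card S) (hS1 : Nat.card S ≠ p ^ k) (hS2 : S ≠ ⊤) : ¬ IsCoatom M := by
  intro hco
  have hp1 : 1 < p := (Fact.out : p.Prime).one_lt
  obtain ⟨D0, hD0⟩ := Sylow.exists_subgroup_card_pow_prime p hS
  have hDc : Nat.card (D0.map S.subtype) = p ^ k := by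
    rw [Subgroup.card_map_of_injective S.subtype_injective, hD0]
  have hDS : D0.map S.subtype ≤ S := by
    rintro x ⟨y, -, rfl⟩
    exact y.2
  have hMp : IsPGroup p M := IsPGroup.of_card hM
  have hDp : IsPGroup p (D0.map S.subtype) := IsPGroup.of_card hDc
  obtain ⟨P, hP⟩ := hMp.exists_le_sylow
  obtain ⟨j, hj⟩ := IsPGroup.iff_card.mp P.2
  have hjk : j ≤ k := by
    by_contra hc
    apply hG
    calc p ^ (k + 1) ∣ p ^ j := pow_dvd_pow p (by omega)
      _ ∣ Nat.card G := hj ▸ Subgroup.card_subgroup_dvd_card (P : Subgroup G)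
  have hMP : M = (P : Subgroup G) := by
    apply Subgroup.eq_of_le_of_card_ge hP
    rw [hj, hM]
    exact Nat.pow_le_pow_right (by omega) hjk
  obtain ⟨g, hg⟩ := exists_conj_mem_sylow _ hDp P
  have hDM : (D0.map S.subtype).map (MulAut.conj g).toMonoidHom = M := by
    apply Subgroup.eq_of_le_of_card_ge
    · rintro x ⟨y, hy, rfl⟩
      rw [hMP]
      exact hg y hy
    · rw [Subgroup.card_map_of_injective (MulAut.conj g).injective, hDc, hM]
  have hMS : M ≤ S.map (MulAut.conj g).toMonoidHom := by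
    rw [← hDM]
    exact Subgroup.map_mono hDS
  have hcS : Nat.card (S.map (MulAut.conj g).toMonoidHom) = Nat.card S :=
    Subgroup.card_map_of_injective (MulAut.conj g).injective
  rcases hco.le_iff.mp hMS with h | h
  · apply hS2
    apply Subgroup.eq_top_of_card_eq
    rw [← hcS, h, Subgroup.card_top]
  · apply hS1
    rw [← hcS, h, hM]

/-- A subgroup of order `2r` is not maximal if some proper subgroup of larger order contains,
for each of its elements of order `r`, an involution inverting it. -/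
theorem not_coatom_of_two_r {G : Type*} [Group G] [Finite G] (r : ℕ) [Fact r.Prime]
    (hr2 : r ≠ 2) (M S : Subgroup G) (hM : Nat.card M = 2 * r) (hG : ¬ r ^ 2 ∣ Nat.card G)
    (hSinv : ∀ y ∈ S, y ^ r = 1 → y ≠ 1 → ∃ s ∈ S, s * s = 1 ∧ s ≠ 1 ∧ s * y * s⁻¹ = y⁻¹)
    (hSr : r ∣ Nat.card S) (hS1 : 2 * r < Nat.card S) (hS2 : S ≠ ⊤)
    (hsimple : ∀ R : Subgroup G, Nat.card R = r → ¬ R.Normal) : ¬ IsCoatom M := by
  intro hco
  have hrp : r.Prime := Fact.out
  have hr1 : 1 < r := hrp.one_lt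
  -- an element of order `r` of `M`
  obtain ⟨x, hx⟩ := exists_prime_orderOf_dvd_card' (G := M) r (by rw [hM]; exact ⟨2, by ring⟩)
  have hy0 : orderOf (x : G) = r := by rw [Subgroup.orderOf_coe, hx]
  have hRc : Nat.card (Subgroup.zpowers (x : G)) = r := by rw [Nat.card_zpowers, hy0]
  have hRM : Subgroup.zpowers (x : G) ≤ M := by
    rw [Subgroup.zpowers_le]; exact x.2
  have hidx : ((Subgroup.zpowers (x : G)).subgroupOf M).index = 2 := by
    have h1 := Subgroup.index_mul_card ((Subgroup.zpowers (x : G)).subgroupOf M)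
    rw [Nat.card_congr (Subgroup.subgroupOfEquivOfLe hRM).toEquiv, hRc, hM] at h1
    exact Nat.eq_of_mul_eq_mul_right (by omega) h1
  have hnorm : M ≤ Subgroup.normalizer (Subgroup.zpowers (x : G) : Set G) :=
    (Subgroup.normal_subgroupOf_iff_le_normalizer hRM).mp (Subgroup.normal_of_index_eq_two hidx)
  have hN : Subgroup.normalizer (Subgroup.zpowers (x : G) : Set G) = M := by
    rcases hco.le_iff.mp hnorm with h | h
    · exact absurd (Subgroup.normalizer_eq_top_iff.mp h) (hsimple _ hRc)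
    · exact h
  -- an element of order `r` of `S`
  obtain ⟨x', hx'⟩ := exists_prime_orderOf_dvd_card' (G := S) r hSr
  have hy : orderOf (x' : G) = r := by rw [Subgroup.orderOf_coe, hx']
  have hRp : IsPGroup r (Subgroup.zpowers (x : G)) :=
    isPGroup_zpowers (x : G) 1 (by rw [hy0, pow_one])
  have hRp' : IsPGroup r (Subgroup.zpowers (x' : G)) :=
    isPGroup_zpowers (x' : G) 1 (by rw [hy, pow_one])
  obtain ⟨P, hP⟩ := hRp.exists_le_sylow
  obtain ⟨j, hj⟩ := IsPGroup.iff_card.mp P.2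
  have hj1 : j ≤ 1 := by
    by_contra hc
    apply hG
    calc r ^ 2 ∣ r ^ j := pow_dvd_pow r (by omega)
      _ ∣ Nat.card G := hj ▸ Subgroup.card_subgroup_dvd_card (P : Subgroup G)
  have hRP : Subgroup.zpowers (x : G) = (P : Subgroup G) := by
    apply Subgroup.eq_of_le_of_card_ge hP
    rw [hj, hRc]
    calc r ^ j ≤ r ^ 1 := Nat.pow_le_pow_right (by omega) hj1
      _ = r := pow_one r
  obtain ⟨g, hg⟩ := exists_conj_mem_sylow _ hRp' P
  have hy'R : g * (x' : G) * g⁻¹ ∈ Subgroup.zpowers (x : G) := by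
    rw [hRP]; exact hg _ (Subgroup.mem_zpowers _)
  have hx'1 : (x' : G) ≠ 1 := by
    intro h
    rw [h, orderOf_one] at hy
    omega
  have hy'1 : g * (x' : G) * g⁻¹ ≠ 1 := by
    intro h
    apply hx'1
    have : (x' : G) = g⁻¹ * (g * (x' : G) * g⁻¹) * g := by group
    rw [this, h]; group
  have hy'r : (g * (x' : G) * g⁻¹) ^ r = 1 := by
    rw [conj_pow, ← hy, pow_orderOf_eq_one]; group
  obtain ⟨s, hsS, hss, hs1, hsy⟩ := hSinv (x' : G) x'.2 (by rw [← hy, pow_orderOf_eq_one]) hx'1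
  have hReq : Subgroup.zpowers (g * (x' : G) * g⁻¹) = Subgroup.zpowers (x : G) := by
    apply Subgroup.eq_of_le_of_card_ge
    · rw [Subgroup.zpowers_le]; exact hy'R
    · rw [hRc, Nat.card_zpowers, orderOf_eq_prime hy'r hy'1]
  have hs'N : g * s * g⁻¹ ∈ Subgroup.normalizer (Subgroup.zpowers (x : G) : Set G) := by
    rw [← hReq]
    apply zpowers_le_normalizer_zpowers (g * (x' : G) * g⁻¹) (g * s * g⁻¹) _
      (Subgroup.mem_zpowers _)
    have e1 : g * s * g⁻¹ * (g * (x' : G) * g⁻¹) * (g * s * g⁻¹)⁻¹ =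
        g * (s * (x' : G) * s⁻¹) * g⁻¹ := by group
    rw [e1, hsy]
    have e2 : g * ((x' : G))⁻¹ * g⁻¹ = (g * (x' : G) * g⁻¹)⁻¹ := by group
    rw [e2]
    exact inv_mem (Subgroup.mem_zpowers _)
  rw [hN] at hs'N
  have hy'M : g * (x' : G) * g⁻¹ ∈ M := hRM hy'R
  have hy'S : g * (x' : G) * g⁻¹ ∈ S.map (MulAut.conj g).toMonoidHom := ⟨x', x'.2, rfl⟩
  have hs'S : g * s * g⁻¹ ∈ S.map (MulAut.conj g).toMonoidHom := ⟨s, hsS, rfl⟩
  have hs'1 : g * s * g⁻¹ ≠ 1 := by
    intro h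
    apply hs1
    have : s = g⁻¹ * (g * s * g⁻¹) * g := by group
    rw [this, h]; group
  have hs'2 : (g * s * g⁻¹) ^ 2 = 1 := by
    rw [conj_pow, pow_two, hss]; group
  have ho2 : orderOf (g * s * g⁻¹) = 2 := orderOf_eq_prime hs'2 hs'1
  have hor : orderOf (g * (x' : G) * g⁻¹) = r := orderOf_eq_prime hy'r hy'1
  have hd2 : 2 ∣ Nat.card (M ⊓ S.map (MulAut.conj g).toMonoidHom : Subgroup G) := by
    rw [← ho2]; exact Subgroup.orderOf_dvd_natCard _ ⟨hs'N, hs'S⟩
  have hdr : r ∣ Nat.card (M ⊓ S.map (MulAut.conj g).toMonoidHom : Subgroup G) := by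
    rw [← hor]; exact Subgroup.orderOf_dvd_natCard _ ⟨hy'M, hy'S⟩
  have hcop : Nat.Coprime 2 r := by
    rw [Nat.coprime_primes Nat.prime_two hrp]; exact fun h => hr2 h.symm
  have hd := hcop.mul_dvd_of_dvd_of_dvd hd2 hdr
  have hinf : (M ⊓ S.map (MulAut.conj g).toMonoidHom : Subgroup G) = M := by
    apply Subgroup.eq_of_le_of_card_ge inf_le_left
    rw [hM]
    exact Nat.le_of_dvd Nat.card_pos hd
  have hMS : M ≤ S.map (MulAut.conj g).toMonoidHom := by
    rw [← hinf]; exact inf_le_right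
  have hcS : Nat.card (S.map (MulAut.conj g).toMonoidHom) = Nat.card S :=
    Subgroup.card_map_of_injective (MulAut.conj g).injective
  rcases hco.le_iff.mp hMS with h | h
  · apply hS2
    apply Subgroup.eq_top_of_card_eq
    rw [← hcS, h, Subgroup.card_top]
  · rw [← hcS, h, hM] at hS1
    omega

theorem inv_transport {G T : Type*} [Group G] [Group T] (S : Subgroup G) (e : S ≃* T) (r : ℕ)
    (hT : ∀ y : T, y ^ r = 1 → y ≠ 1 → ∃ s : T, s * s = 1 ∧ s ≠ 1 ∧ s * y * s⁻¹ = y⁻¹) :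
    ∀ y ∈ S, y ^ r = 1 → y ≠ 1 → ∃ s ∈ S, s * s = 1 ∧ s ≠ 1 ∧ s * y * s⁻¹ = y⁻¹ := by
  intro y hy hyr hy1
  obtain ⟨s, hss, hs1, hsy⟩ := hT (e ⟨y, hy⟩)
    (by rw [← map_pow]; convert map_one e; exact Subtype.ext hyr)
    (by
      intro h
      apply hy1
      have : (⟨y, hy⟩ : S) = 1 := e.injective (by rw [h, map_one])
      exact congrArg Subtype.val this)
  refine ⟨(e.symm s : G), (e.symm s).2, ?_, ?_, ?_⟩
  · have : e.symm s * e.symm s = 1 := by rw [← map_mul, hss, map_one]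
    exact congrArg Subtype.val this
  · intro h
    apply hs1
    have : e.symm s = 1 := Subtype.ext h
    rw [← e.apply_symm_apply s, this, map_one]
  · have : e.symm s * ⟨y, hy⟩ * (e.symm s)⁻¹ = (⟨y, hy⟩ : S)⁻¹ := by
      apply e.injective
      rw [map_mul, map_mul, map_inv, map_inv, e.apply_symm_apply, hsy]
    exact congrArg Subtype.val this

/-- the normaliser of a non-normal subgroup normalised by a maximal subgroup. -/
theorem normalizer_eq_of_coatom {G : Type*} [Group G] (M V : Subgroup G) (hco : IsCoatom M)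
    (hnorm : M ≤ Subgroup.normalizer (V : Set G)) (hVn : ¬ V.Normal) :
    Subgroup.normalizer (V : Set G) = M := by
  rcases hco.le_iff.mp hnorm with h | h
  · exact absurd (Subgroup.normalizer_eq_top_iff.mp h) hVn
  · exact h

theorem not_eight_dvd_of_A4 {G : Type*} [Group G] [Finite G] (M V : Subgroup G)
    (hco : IsCoatom M) (hV : Nat.card V = 4) (hnorm : M ≤ Subgroup.normalizer (V : Set G))
    (hVn : ¬ V.Normal) (hM : Nat.card M = 12) : ¬ 8 ∣ Nat.card G := by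
  intro h8
  haveI : Fact (Nat.Prime 2) := ⟨Nat.prime_two⟩
  obtain ⟨K, hK, hVK⟩ := Sylow.exists_subgroup_card_pow_succ (p := 2) (n := 2) (G := G)
    (by norm_num; exact h8) (H := V) (by rw [hV]; norm_num)
  have hidx : (V.subgroupOf K).index = 2 := by
    have h1 := Subgroup.index_mul_card (V.subgroupOf K)
    rw [Nat.card_congr (Subgroup.subgroupOfEquivOfLe hVK).toEquiv, hV, hK] at h1
    omega
  have hKn : K ≤ Subgroup.normalizer (V : Set G) :=
    (Subgroup.normal_subgroupOf_iff_le_normalizer hVK).mp (Subgroup.normal_of_index_eq_two hidx)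
  rw [normalizer_eq_of_coatom M V hco hnorm hVn] at hKn
  have := Subgroup.card_dvd_of_le hKn
  rw [hK, hM] at this
  omega

theorem not_coatom_of_conj_klein {G : Type*} [Group G] [Finite G] (M V V' S : Subgroup G)
    (hco : IsCoatom M) (hM : Nat.card M = 12) (hVM : V ≤ M)
    (hnorm : M ≤ Subgroup.normalizer (V : Set G))
    (hVn : ∀ W : Subgroup G, Nat.card W = 4 → ¬ W.Normal) (hV : Nat.card V = 4) (g : G)
    (hV' : V' = V.map (MulAut.conj g).toMonoidHom) (hV'S : V' ≤ S) (c : G) (hcS : c ∈ S)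
    (hc3 : orderOf c = 3) (hcN : c ∈ Subgroup.normalizer (V' : Set G))
    (hS1 : Nat.card S ≠ 12) (hS2 : S ≠ ⊤) : False := by
  have hco' : IsCoatom (M.map (MulAut.conj g).toMonoidHom) :=
    ((MulEquiv.mapSubgroup (MulAut.conj g)).isCoatom_iff M).mpr hco
  have hcM' : Nat.card (M.map (MulAut.conj g).toMonoidHom) = 12 := by
    rw [Subgroup.card_map_of_injective (MulAut.conj g).injective, hM]
  have hcV' : Nat.card V' = 4 := by
    rw [hV', Subgroup.card_map_of_injective (MulAut.conj g).injective, hV]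
  have hnorm' : M.map (MulAut.conj g).toMonoidHom ≤ Subgroup.normalizer (V' : Set G) := by
    rw [hV', ← Subgroup.map_equiv_normalizer_eq V (MulAut.conj g)]
    exact Subgroup.map_mono hnorm
  have hN := normalizer_eq_of_coatom _ V' hco' hnorm' (hVn V' hcV')
  rw [hN] at hcN
  have hV'M : V' ≤ M.map (MulAut.conj g).toMonoidHom := by
    rw [hV']; exact Subgroup.map_mono hVM
  have hd4 : 4 ∣ Nat.card (M.map (MulAut.conj g).toMonoidHom ⊓ S : Subgroup G) := by
    rw [← hcV']; exact Subgroup.card_dvd_of_le (le_inf hV'M hV'S)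
  have hd3 : 3 ∣ Nat.card (M.map (MulAut.conj g).toMonoidHom ⊓ S : Subgroup G) := by
    rw [← hc3]; exact Subgroup.orderOf_dvd_natCard _ ⟨hcN, hcS⟩
  have hd : 4 * 3 ∣ Nat.card (M.map (MulAut.conj g).toMonoidHom ⊓ S : Subgroup G) :=
    Nat.Coprime.mul_dvd_of_dvd_of_dvd (by norm_num) hd4 hd3
  have hinf : (M.map (MulAut.conj g).toMonoidHom ⊓ S : Subgroup G) =
      M.map (MulAut.conj g).toMonoidHom := by
    apply Subgroup.eq_of_le_of_card_ge inf_le_left
    rw [hcM']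
    exact Nat.le_of_dvd Nat.card_pos hd
  have hMS : M.map (MulAut.conj g).toMonoidHom ≤ S := by
    rw [← hinf]; exact inf_le_right
  rcases hco'.le_iff.mp hMS with h | h
  · exact hS2 h
  · apply hS1
    rw [h, hcM']

/-- The Klein four-group of a subgroup isomorphic to a group with a Klein pair. -/
theorem klein_of_iso {G T : Type*} [Group G] [Finite G] [Group T] (S : Subgroup G) (e : S ≃* T)
    (a b : T) (hk : KPair a b) :
    ∃ V : Subgroup G, IsKleinFour V ∧ V ≤ S ∧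
      ∀ τ : T, (∀ z : T, (z = 1 ∨ z = a ∨ z = b ∨ z = a * b) →
        (τ * z * τ⁻¹ = 1 ∨ τ * z * τ⁻¹ = a ∨ τ * z * τ⁻¹ = b ∨ τ * z * τ⁻¹ = a * b)) →
        ((e.symm τ : S) : G) ∈ Subgroup.normalizer (V : Set G) := by
  let φ : T →* G := S.subtype.comp e.symm.toMonoidHom
  have hφ : Function.Injective φ := fun x y h => e.symm.injective (Subtype.ext h)
  have hk' := kpair_map φ hφ a b hk
  refine ⟨kGroup (φ a) (φ b) hk', kGroup_isKleinFour _ _ _, ?_, ?_⟩
  · intro x hx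
    rcases hx with rfl | rfl | rfl | rfl
    · exact S.one_mem
    · exact (e.symm a).2
    · exact (e.symm b).2
    · exact S.mul_mem (e.symm a).2 (e.symm b).2
  · intro τ hτ
    apply mem_normalizer_of_map_le
    rintro x ⟨y, hy, rfl⟩
    have hy' : ∃ z, (z = 1 ∨ z = a ∨ z = b ∨ z = a * b) ∧ y = φ z := by
      rcases hy with rfl | rfl | rfl | rfl
      · exact ⟨1, Or.inl rfl, (map_one φ).symm⟩
      · exact ⟨a, Or.inr (Or.inl rfl), rfl⟩
      · exact ⟨b, Or.inr (Or.inr (Or.inl rfl)), rfl⟩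
      · exact ⟨a * b, Or.inr (Or.inr (Or.inr rfl)), (map_mul φ _ _).symm⟩
    obtain ⟨z, hz, rfl⟩ := hy'
    have e1 : (MulAut.conj ((e.symm τ : S) : G)).toMonoidHom (φ z) = φ (τ * z * τ⁻¹) := by
      show ((e.symm τ : S) : G) * φ z * ((e.symm τ : S) : G)⁻¹ = φ (τ * z * τ⁻¹)
      rw [map_mul, map_mul, map_inv]
      rfl
    rw [e1]
    rcases hτ z hz with h | h | h | h <;> rw [h]
    · rw [map_one]; exact Subgroup.one_mem _
    · exact Or.inr (Or.inl rfl)
    · exact Or.inr (Or.inr (Or.inl rfl))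
    · rw [map_mul]; exact Or.inr (Or.inr (Or.inr rfl))

/-! ### facts on `A₄`, `S₄`, `A₅` -/

/-- an even permutation as an element of the alternating group. -/
def alt {n : ℕ} (σ : Equiv.Perm (Fin n)) (h : Equiv.Perm.sign σ = 1) : alternatingGroup (Fin n) :=
  ⟨σ, Equiv.Perm.mem_alternatingGroup.mpr h⟩

/-- `(0 1)(2 3)` in `A₄`. -/
def a4A : alternatingGroup (Fin 4) := alt (Equiv.swap 0 1 * Equiv.swap 2 3) (by decide)

/-- `(0 2)(1 3)` in `A₄`. -/
def a4B : alternatingGroup (Fin 4) := alt (Equiv.swap 0 2 * Equiv.swap 1 3) (by decide)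

theorem a4_kpair : KPair a4A a4B := by
  unfold KPair a4A a4B alt
  decide

set_option maxRecDepth 100000 in
theorem a4_normal : ∀ σ z : alternatingGroup (Fin 4),
    (z = 1 ∨ z = a4A ∨ z = a4B ∨ z = a4A * a4B) →
    (σ * z * σ⁻¹ = 1 ∨ σ * z * σ⁻¹ = a4A ∨ σ * z * σ⁻¹ = a4B ∨ σ * z * σ⁻¹ = a4A * a4B) := by
  unfold a4A a4B alt
  decide

set_option maxRecDepth 100000 in
theorem a4_pow_fact : ∀ g : alternatingGroup (Fin 4), g ^ 2 = 1 ∨ g ^ 3 = 1 := by decide

theorem a4_facts : a4A ≠ 1 ∧ a4B ≠ 1 ∧ a4A * a4B ≠ 1 ∧ a4A ^ 2 = 1 ∧ a4B ^ 2 = 1 ∧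
    (a4A * a4B) ^ 2 = 1 := by
  unfold a4A a4B alt
  decide

theorem s4_facts : kA ≠ 1 ∧ kB ≠ 1 ∧ kA * kB ≠ 1 ∧ kA ^ 2 = 1 ∧ kB ^ 2 = 1 ∧
    (kA * kB) ^ 2 = 1 ∧ Equiv.Perm.sign kA = 1 ∧ Equiv.Perm.sign kB = 1 := by
  unfold kA kB
  decide

set_option maxRecDepth 100000 in
theorem s4_even : ∀ g : Equiv.Perm (Fin 4), Equiv.Perm.sign g = 1 → g ^ 2 = 1 ∨ g ^ 3 = 1 := by
  decide

set_option maxRecDepth 100000 in
theorem s4_odd : ∀ g : Equiv.Perm (Fin 4), Equiv.Perm.sign g ≠ 1 → g ^ 4 = 1 := by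
  decide

/-- a four-cycle. -/
def s4C : Equiv.Perm (Fin 4) := Equiv.swap 0 1 * Equiv.swap 1 2 * Equiv.swap 2 3

theorem s4C_facts : s4C ^ 4 = 1 ∧ s4C ^ 2 ≠ 1 := by
  unfold s4C
  decide

set_option maxRecDepth 100000 in
theorem s4_inv3 : ∀ y : Equiv.Perm (Fin 4), y ^ 3 = 1 → y ≠ 1 →
    ∃ s : Equiv.Perm (Fin 4), s * s = 1 ∧ s ≠ 1 ∧ s * y * s⁻¹ = y⁻¹ := by decide

set_option maxRecDepth 1000000 in
theorem a5_inv5 : ∀ y : alternatingGroup (Fin 5), y ^ 5 = 1 → y ≠ 1 →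
    ∃ s : alternatingGroup (Fin 5), s * s = 1 ∧ s ≠ 1 ∧ s * y * s⁻¹ = y⁻¹ := by decide

/-- `(0 1)(2 3)` in `A₅`. -/
def a5A : alternatingGroup (Fin 5) := alt (Equiv.swap 0 1 * Equiv.swap 2 3) (by decide)

/-- `(0 2)(1 3)` in `A₅`. -/
def a5B : alternatingGroup (Fin 5) := alt (Equiv.swap 0 2 * Equiv.swap 1 3) (by decide)

/-- `(0 1 2)` in `A₅`. -/
def a5C : alternatingGroup (Fin 5) := alt (Equiv.swap 0 1 * Equiv.swap 1 2) (by decide)

theorem a5_kpair : KPair a5A a5B := by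
  unfold KPair a5A a5B alt
  decide

theorem a5_facts : a5A ≠ 1 ∧ a5B ≠ 1 ∧ a5A * a5B ≠ 1 ∧ a5A ^ 2 = 1 ∧ a5B ^ 2 = 1 ∧
    (a5A * a5B) ^ 2 = 1 ∧ a5C ^ 3 = 1 ∧ a5C ≠ 1 := by
  unfold a5A a5B a5C alt
  decide

theorem a5C_conj : a5C * a5A * a5C⁻¹ = a5A * a5B ∧ a5C * a5B * a5C⁻¹ = a5A ∧
    a5C * (a5A * a5B) * a5C⁻¹ = a5B := by
  unfold a5A a5B a5C alt
  refine ⟨?_, ?_, ?_⟩ <;> apply Subtype.ext <;> decide

theorem a5C_normal : ∀ z : alternatingGroup (Fin 5),
    (z = 1 ∨ z = a5A ∨ z = a5B ∨ z = a5A * a5B) →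
    (a5C * z * a5C⁻¹ = 1 ∨ a5C * z * a5C⁻¹ = a5A ∨ a5C * z * a5C⁻¹ = a5B ∨
      a5C * z * a5C⁻¹ = a5A * a5B) := by
  intro z hz
  obtain ⟨h1, h2, h3⟩ := a5C_conj
  rcases hz with rfl | rfl | rfl | rfl
  · left; group
  · right; right; right; exact h1
  · right; left; exact h2
  · right; right; left; exact h3

end Cfsg.Agent.Helper5.PMax
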