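import Mathlib
import Cfsg.Agent.Helper5.PMaxD
import Cfsg.Agent.Helper5.PMaxE
import Cfsg.Agent.Helper5.DkMax
import Cfsg.Agent.Helper41.DkTorus3

/-!
# Maximal subgroups of `PSL₂(q)`, part F (helper5)

The Borel case and the torus-normaliser case of Dickson's theorem for a maximal subgroup.
-/

set_option autoImplicit false
set_option linter.style.haveILetI false

namespace Cfsg.Agent.Helper5.PMax

open Cfsg.Agent.Helper41 Cfsg.Agent.Helper41.Dk Matrix

variable {F : Type*} [Field F]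

local notation "SL2" => Matrix.SpecialLinearGroup (Fin 2) F

theorem card_pre_two [Fintype F] (hodd : Odd (Fintype.card F))
    (M : Subgroup (SL2 ⧸ Subgroup.center SL2)) : Nat.card (pre M) = 2 * Nat.card M := by
  rw [card_pre, Cfsg.Agent.Helper5.card_center_SL2 (two_ne_zero' hodd), mul_comm]

theorem case_borel [Fintype F] (hodd : Odd (Fintype.card F))
    (M : Subgroup (SL2 ⧸ Subgroup.center SL2)) (hM : IsCoatom M) (v : Fin 2 → F) (hv : v ≠ 0)
    (hfix : ∀ g ∈ pre M, ∃ c : F, g.1 *ᵥ v = c • v) :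
    2 * Nat.card M = Fintype.card F * (Fintype.card F - 1) := by
  classical
  obtain ⟨Q0, hQ0⟩ := exists_conj_borel v hv
  have hle : pre M ≤ (Bor : Subgroup SL2).map (MulAut.conj Q0).toMonoidHom := by
    intro g hg
    refine ⟨Q0⁻¹ * g * Q0, hQ0 g (hfix g hg), ?_⟩
    show Q0 * (Q0⁻¹ * g * Q0) * Q0⁻¹ = g
    group
  have hc : Nat.card ((Bor : Subgroup SL2).map (MulAut.conj Q0).toMonoidHom) =
      Fintype.card F * (Fintype.card F - 1) := by
    rw [Subgroup.card_map_of_injective (MulAut.conj Q0).injective, card_Bor]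
  have hq : 2 ≤ Fintype.card F := Fintype.one_lt_card
  rcases (isMx_pre M hM).2 _ hle with h | h
  · rw [← card_pre_two hodd, ← h, hc]
  · exfalso
    rw [h, Subgroup.card_top, Cfsg.Agent.Helper5.card_SL2] at hc
    have h1 : Fintype.card F - 1 < Fintype.card F ^ 2 - 1 := by
      have : Fintype.card F < Fintype.card F ^ 2 := by nlinarith
      omega
    have := Nat.mul_lt_mul_of_pos_left h1 (show 0 < Fintype.card F by omega)
    omega

theorem simple_no_normal [Fintype F] (h4 : 4 ≤ Fintype.card F) (r : ℕ) (hr1 : r ≠ 1)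
    (hr : r ≠ Nat.card (SL2 ⧸ Subgroup.center SL2)) :
    ∀ R : Subgroup (SL2 ⧸ Subgroup.center SL2), Nat.card R = r → ¬ R.Normal := by
  intro R hR hn
  haveI : IsSimpleGroup (Matrix.ProjectiveSpecialLinearGroup (Fin 2) F) :=
    Matrix.ProjectiveSpecialLinearGroup.rank_two_simple
      (by rw [Nat.card_eq_fintype_card]; exact h4)
  rcases hn.eq_bot_or_eq_top with h | h
  · rw [h, Subgroup.card_bot] at hR
    exact hr1 hR.symm
  · rw [h, Subgroup.card_top] at hR
    exact hr hR.symm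

/-- exclusion of a maximal subgroup of `2`-power order. -/
theorem excl_two [Fintype F] (M S : Subgroup (SL2 ⧸ Subgroup.center SL2)) (hM : IsCoatom M)
    (k c g : ℕ) (hMc : Nat.card M = 2 ^ k) (hGc : Nat.card (SL2 ⧸ Subgroup.center SL2) = g)
    (hSc : Nat.card S = c) (hG : ¬ 2 ^ (k + 1) ∣ g) (hS : 2 ^ k ∣ c) (hS1 : c ≠ 2 ^ k)
    (hS2 : c ≠ g) : False := by
  haveI : Fact (Nat.Prime 2) := ⟨Nat.prime_two⟩
  refine not_coatom_of_pgroup 2 M S k hMc (by rw [hGc]; exact hG) (by rw [hSc]; exact hS)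
    (by rw [hSc]; exact hS1) ?_ hM
  intro h
  rw [h, Subgroup.card_top, hGc] at hSc
  exact hS2 hSc.symm

/-- exclusion of a maximal subgroup of order `2r`. -/
theorem excl_r [Fintype F] (h4 : 4 ≤ Fintype.card F)
    (M S : Subgroup (SL2 ⧸ Subgroup.center SL2)) (hM : IsCoatom M) {T : Type*} [Group T]
    (e : S ≃* T) (r c g : ℕ) [Fact r.Prime] (hr2 : r ≠ 2)
    (hT : ∀ y : T, y ^ r = 1 → y ≠ 1 → ∃ s : T, s * s = 1 ∧ s ≠ 1 ∧ s * y * s⁻¹ = y⁻¹)
    (hMc : Nat.card M = 2 * r) (hGc : Nat.card (SL2 ⧸ Subgroup.center SL2) = g)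
    (hSc : Nat.card S = c) (hG : ¬ r ^ 2 ∣ g) (hS : r ∣ c) (hS1 : 2 * r < c)
    (hS2 : c ≠ g) (hrg : r ≠ g) : False := by
  refine not_coatom_of_two_r r hr2 M S hMc (by rw [hGc]; exact hG) (inv_transport S e r hT)
    (by rw [hSc]; exact hS) (by rw [hSc]; exact hS1) ?_
    (simple_no_normal h4 r (Fact.out : r.Prime).one_lt.ne' (by rw [hGc]; exact hrg)) hM
  intro h
  rw [h, Subgroup.card_top, hGc] at hSc
  exact hS2 hSc.symm

theorem case_torus [Fintype F] (p : ℕ) [Fact p.Prime] [CharP F p]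
    (hodd : Odd (Fintype.card F)) (h5 : 5 ≤ Fintype.card F)
    (M : Subgroup (SL2 ⧸ Subgroup.center SL2)) (hM : IsCoatom M) (x : SL2)
    (hxc : x ∉ Subgroup.center SL2) (ht : tr x ^ 2 ≠ 4)
    (hx : ∀ g ∈ pre M, g * x * g⁻¹ = x ∨ g * x * g⁻¹ = x⁻¹) :
    (13 ≤ Fintype.card F ∧
      (∃ k : ℕ, 2 * k = Fintype.card F - 1 ∧ Nonempty (M ≃* DihedralGroup k))) ∨
    (Fintype.card F ≠ 7 ∧ Fintype.card F ≠ 9 ∧
      (∃ k : ℕ, 2 * k = Fintype.card F + 1 ∧ Nonempty (M ≃* DihedralGroup k))) := by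
  classical
  have h2 := two_ne_zero' hodd
  have hle : pre M ≤ NT x := fun g hg => hx g hg
  obtain ⟨w, hw⟩ := Cfsg.Agent.Helper40.exists_inverts hodd x
    (by
      intro hc
      exact hxc ((center_iff_entries x).mpr ⟨hc.2.1, hc.1, hc.2.2⟩))
    (by
      have : Cfsg.Agent.Helper40.tr2 x = tr x := by
        rw [tr_eq]; rfl
      rw [this]; exact ht)
  have hw' : w * x * w⁻¹ = x⁻¹ := hw
  have hx2 : x * x ≠ 1 := fun h => ht (tr_sq_of_mul_self x h)
  have hcN := card_NT_of_inv x w hw' hx2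
  have hcc := card_cen_cases p x hxc ht
  have hSL := Cfsg.Agent.Helper5.card_SL2 (F := F)
  have hG : 2 * Nat.card (SL2 ⧸ Subgroup.center SL2) =
      Fintype.card F * (Fintype.card F ^ 2 - 1) := Cfsg.Agent.Helper5.two_mul_card_PSL2 h2
  have hqq : Fintype.card F ^ 2 - 1 = (Fintype.card F - 1) * (Fintype.card F + 1) := by
    obtain ⟨m, hm⟩ : ∃ m, Fintype.card F = m + 1 := ⟨Fintype.card F - 1, by omega⟩
    rw [hm]
    have : (m + 1) ^ 2 = m * (m + 1 + 1) + 1 := by ring
    rw [this]; simp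
  have hNT : NT x = pre M := by
    rcases (isMx_pre M hM).2 _ hle with h | h
    · exact h
    · exfalso
      rw [h, Subgroup.card_top, hSL, hqq] at hcN
      have h3 : 2 * Nat.card (cen x) ≤ 2 * (Fintype.card F + 1) := by
        rcases hcc with h | h <;> rw [h] <;> omega
      have h4 : 4 * (Fintype.card F + 1) ≤ (Fintype.card F - 1) * (Fintype.card F + 1) :=
        Nat.mul_le_mul_right _ (by omega)
      have h6 : 5 * ((Fintype.card F - 1) * (Fintype.card F + 1)) ≤
          Fintype.card F * ((Fintype.card F - 1) * (Fintype.card F + 1)) :=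
        Nat.mul_le_mul_right _ h5
      omega
  have hMeq : M = (NT x).map (QuotientGroup.mk' (Subgroup.center SL2)) := by
    rw [hNT]
    exact (Subgroup.map_comap_eq_self_of_surjective (QuotientGroup.mk'_surjective _) M).symm
  obtain ⟨e⟩ := NT_dihedral p x w hxc ht hw'
  rw [Cfsg.Agent.Helper5.card_center_SL2 h2] at e
  have hcM : Nat.card M = Nat.card (cen x) := by
    have h1 := card_pre_two hodd M
    rw [← hNT, hcN] at h1
    omega
  obtain ⟨j, hj⟩ := hodd
  have h4F : 4 ≤ Fintype.card F := by omega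
  rcases hcc with hc | hc
  · rw [hc] at e hcM
    by_cases h13 : 13 ≤ Fintype.card F
    · left
      refine ⟨h13, (Fintype.card F - 1) / 2, by omega, ⟨(MulEquiv.subgroupCongr hMeq).trans e⟩⟩
    · exfalso
      have hq : Fintype.card F = 5 ∨ Fintype.card F = 7 ∨ Fintype.card F = 9 ∨
          Fintype.card F = 11 := by omega
      rcases hq with hq | hq | hq | hq
      · rw [hq] at hG hcM
        obtain ⟨S, ⟨eS⟩⟩ := Cfsg.Agent.Helper40.PSL2Sub.exists_A4 (F := F)
          (Or.inl (by rw [hq]))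
        exact excl_two M S hM 2 12 60 (by rw [hcM]; norm_num) (by omega)
          (by rw [Nat.card_congr eS.toEquiv, Cfsg.Agent.Helper5.card_alt_fin_four])
          (by norm_num) (by norm_num) (by norm_num) (by norm_num)
      · rw [hq] at hG hcM
        obtain ⟨S, ⟨eS⟩⟩ := Cfsg.Agent.Helper40.PSL2Sub.exists_S4 (F := F) (by rw [hq]; norm_num)
        haveI : Fact (Nat.Prime 3) := ⟨Nat.prime_three⟩
        exact excl_r h4F M S hM eS 3 24 168 (by norm_num) s4_inv3 (by rw [hcM])
          (by omega)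
          (by rw [Nat.card_congr eS.toEquiv, Cfsg.Agent.Helper5.card_perm_fin_four])
          (by norm_num) (by norm_num) (by norm_num) (by norm_num) (by norm_num)
      · rw [hq] at hG hcM
        obtain ⟨S, ⟨eS⟩⟩ := Cfsg.Agent.Helper40.PSL2Sub.exists_S4 (F := F) (by rw [hq]; norm_num)
        exact excl_two M S hM 3 24 360 (by rw [hcM]; norm_num) (by omega)
          (by rw [Nat.card_congr eS.toEquiv, Cfsg.Agent.Helper5.card_perm_fin_four])
          (by norm_num) (by norm_num) (by norm_num) (by norm_num)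
      · rw [hq] at hG hcM
        obtain ⟨S, ⟨eS⟩⟩ := Cfsg.Agent.Helper40.PSL2Sub.exists_A5 (F := F)
          (by rw [hq]; norm_num)
        haveI : Fact (Nat.Prime 5) := ⟨Nat.prime_five⟩
        exact excl_r h4F M S hM eS 5 60 660 (by norm_num) a5_inv5 (by rw [hcM])
          (by omega)
          (by rw [Nat.card_congr eS.toEquiv, Cfsg.Agent.Helper5.card_alt_fin_five])
          (by norm_num) (by norm_num) (by norm_num) (by norm_num) (by norm_num)
  · rw [hc] at e hcM
    right
    refine ⟨?_, ?_, (Fintype.card F + 1) / 2, by omega,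
      ⟨(MulEquiv.subgroupCongr hMeq).trans e⟩⟩
    · intro hq
      rw [hq] at hG hcM
      obtain ⟨S, ⟨eS⟩⟩ := Cfsg.Agent.Helper40.PSL2Sub.exists_S4 (F := F) (by rw [hq]; norm_num)
      exact excl_two M S hM 3 24 168 (by rw [hcM]; norm_num) (by omega)
        (by rw [Nat.card_congr eS.toEquiv, Cfsg.Agent.Helper5.card_perm_fin_four])
        (by norm_num) (by norm_num) (by norm_num) (by norm_num)
    · intro hq
      rw [hq] at hG hcM
      obtain ⟨S, ⟨eS⟩⟩ := Cfsg.Agent.Helper40.PSL2Sub.exists_A5 (F := F)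
        (by rw [hq]; norm_num)
      haveI : Fact (Nat.Prime 5) := ⟨Nat.prime_five⟩
      exact excl_r h4F M S hM eS 5 60 360 (by norm_num) a5_inv5 (by rw [hcM])
        (by omega)
        (by rw [Nat.card_congr eS.toEquiv, Cfsg.Agent.Helper5.card_alt_fin_five])
        (by norm_num) (by norm_num) (by norm_num) (by norm_num) (by norm_num)

end Cfsg.Agent.Helper5.PMax
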