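import Mathlib
import Cfsg.Agent.Helper5.PMaxF
import Cfsg.Agent.Helper5.DkMax2

/-!
# Maximal subgroups of `PSL₂(q)`, part G (helper5)

The cases `A₄`, `S₄`, `A₅` of Dickson's theorem for a maximal subgroup.
-/

set_option autoImplicit false
set_option linter.style.haveILetI false

namespace Cfsg.Agent.Helper5.PMax

open Cfsg.Agent.Helper41 Cfsg.Agent.Helper41.Dk Matrix Cfsg.Agent.Helper40.PSL2Klein

variable {F : Type*} [Field F]

local notation "SL2" => Matrix.SpecialLinearGroup (Fin 2) F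

theorem two_mem_sub (K : Subfield F) : (2 : F) ∈ K := by
  have : (2 : F) = 1 + 1 := by norm_num
  rw [this]; exact K.add_mem K.one_mem K.one_mem

theorem center_of_tr_zero (h : SL2) (ht : tr h = 0) : h ^ 2 ∈ Subgroup.center SL2 := by
  rw [mem_center_iff_pm]
  right
  have h1 := sl2_sq h
  rw [Matrix.SpecialLinearGroup.coe_pow, pow_two, h1]
  have : (h : Matrix (Fin 2) (Fin 2) F).trace = 0 := ht
  rw [this]; simp

theorem quot_pow_of_center {T : Type*} [Group T] (Ht : Subgroup SL2)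
    (e : (↥Ht ⧸ (Subgroup.center SL2).subgroupOf Ht) ≃* T) (X : Ht) (k : ℕ)
    (hc : (X : SL2) ^ k ∈ Subgroup.center SL2) : (e (QuotientGroup.mk X)) ^ k = 1 := by
  rw [← map_pow, ← QuotientGroup.mk_pow]
  have : (QuotientGroup.mk (X ^ k) : ↥Ht ⧸ (Subgroup.center SL2).subgroupOf Ht) = 1 :=
    (QuotientGroup.eq_one_iff (X ^ k)).mpr (Subgroup.mem_subgroupOf.mpr hc)
  rw [this, map_one]

theorem quot_one_of_center {T : Type*} [Group T] (Ht : Subgroup SL2)
    (e : (↥Ht ⧸ (Subgroup.center SL2).subgroupOf Ht) ≃* T) (X : Ht)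
    (hc : (X : SL2) ∈ Subgroup.center SL2) : e (QuotientGroup.mk X) = 1 := by
  have := quot_pow_of_center Ht e X 1 (by rw [pow_one]; exact hc)
  rwa [pow_one] at this

theorem tr_center_mem (K : Subfield F) (h : SL2) (hc : h ∈ Subgroup.center SL2) :
    tr h ∈ K := by
  rcases tr_of_center h hc with t | t <;> rw [t]
  · exact two_mem_sub K
  · exact K.neg_mem (two_mem_sub K)

theorem eight_dvd_of_mod (q g : ℕ) (hq : q % 8 = 1 ∨ q % 8 = 7)
    (hG : 2 * g = q * (q ^ 2 - 1)) : 8 ∣ g := by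
  have h1 : q ^ 2 % 16 = 1 := by
    have h16 : q % 16 = 1 ∨ q % 16 = 7 ∨ q % 16 = 9 ∨ q % 16 = 15 := by omega
    rw [Nat.pow_mod]
    rcases h16 with h | h | h | h <;> rw [h] <;> norm_num
  have hpos : 1 ≤ q ^ 2 := Nat.one_le_pow _ _ (by omega)
  obtain ⟨t, ht⟩ : 16 ∣ q ^ 2 - 1 := by omega
  rw [ht] at hG
  refine ⟨q * t, ?_⟩
  have : 2 * g = 2 * (8 * (q * t)) := by rw [hG]; ring
  omega

theorem two_ne_char [Fintype F] (p : ℕ) [Fact p.Prime] [CharP F p]
    (hodd : Odd (Fintype.card F)) : p ≠ 2 := by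
  rintro rfl
  apply two_ne_zero' hodd
  have := CharP.cast_eq_zero F 2
  exact_mod_cast this

theorem case_A4 [Fintype F] (p : ℕ) [Fact p.Prime] [CharP F p]
    (hodd : Odd (Fintype.card F)) (h5 : 5 ≤ Fintype.card F)
    (M : Subgroup (SL2 ⧸ Subgroup.center SL2)) (hM : IsCoatom M)
    (e : (↥(pre M) ⧸ (Subgroup.center SL2).subgroupOf (pre M)) ≃* alternatingGroup (Fin 4)) :
    (∃ (F₀ : Type) (_ : Field F₀) (_ : Fintype F₀) (r : ℕ), r.Prime ∧ Odd r ∧
      Fintype.card F = Fintype.card F₀ ^ r ∧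
      Nonempty (M ≃* Matrix.ProjectiveSpecialLinearGroup (Fin 2) F₀)) ∨
    (Fintype.card F = p ∧ (p % 8 = 3 ∨ p % 8 = 5) ∧ ¬ (p % 10 = 1 ∨ p % 10 = 9) ∧
      Nonempty (M ≃* alternatingGroup (Fin 4))) := by
  classical
  have h2 := two_ne_zero' hodd
  obtain ⟨br⟩ := psl_bridge M
  obtain ⟨f1, f2, f3, f4, f5, f6⟩ := a4_facts
  obtain ⟨A, B, hA, hB, htA, htB, hAB⟩ := exists_lifts (pre M) e a4A a4B f1 f2 f3 f4 f5 f6
  have HT : ∀ h ∈ pre M, tr h ∈ (⊥ : Subfield F) := by
    intro h hh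
    by_cases hc : h ∈ Subgroup.center SL2
    · exact tr_center_mem _ h hc
    · rcases a4_pow_fact (e (QuotientGroup.mk ⟨h, hh⟩)) with g2 | g3
      · rw [tr_of_sq h hc (quot_pow_center (pre M) e ⟨h, hh⟩ 2 g2)]
        exact Subfield.zero_mem _
      · rcases tr_of_cube h hc (quot_pow_center (pre M) e ⟨h, hh⟩ 3 g3) with t | t <;> rw [t]
        · exact Subfield.one_mem _
        · exact Subfield.neg_mem _ (Subfield.one_mem _)
  rcases trace_concl_SK p hodd M hM A B A.2 B.2 htA htB hAB ⊥ HT with h | h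
  · left; exact h
  · right
    rw [Subfield.card_bot F p] at h
    have hcM : Nat.card M = 12 := by
      rw [Nat.card_congr (br.symm.trans e).toEquiv, Cfsg.Agent.Helper5.card_alt_fin_four]
    have hG : 2 * Nat.card (SL2 ⧸ Subgroup.center SL2) =
        Fintype.card F * (Fintype.card F ^ 2 - 1) := Cfsg.Agent.Helper5.two_mul_card_PSL2 h2
    have hG120 : 120 ≤ Fintype.card F * (Fintype.card F ^ 2 - 1) := by
      have h1 : 25 ≤ Fintype.card F ^ 2 := by nlinarith
      calc 120 = 5 * 24 := by norm_num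
        _ ≤ Fintype.card F * (Fintype.card F ^ 2 - 1) := Nat.mul_le_mul h5 (by omega)
    obtain ⟨V, hVk, hVM, hVn⟩ := klein_of_iso M (br.symm.trans e) a4A a4B a4_kpair
    have hVc : Nat.card V = 4 := hVk.card_four
    have hnorm : M ≤ Subgroup.normalizer (V : Set (SL2 ⧸ Subgroup.center SL2)) := by
      intro m hm
      have := hVn ((br.symm.trans e) ⟨m, hm⟩) (a4_normal _)
      rwa [MulEquiv.symm_apply_apply] at this
    have hsimp := simple_no_normal (F := F) (by omega) 4 (by norm_num) (by omega)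
    have h8 := not_eight_dvd_of_A4 M V hM hVc hnorm (hsimp V hVc) hcM
    have hodd' := hodd
    obtain ⟨j, hj⟩ := hodd'
    have hq8 : Fintype.card F % 8 = 3 ∨ Fintype.card F % 8 = 5 := by
      by_contra hc
      exact h8 (eight_dvd_of_mod _ _ (by omega) hG)
    refine ⟨h.symm, by rw [h]; exact hq8, ?_, ⟨br.symm.trans e⟩⟩
    intro h10
    rw [h] at h10
    have h5dvd : 5 ∣ Fintype.card F * (Fintype.card F ^ 2 - 1) :=
      Cfsg.Agent.Helper5.five_dvd_of_mod _ (by omega) (by omega)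
    obtain ⟨H5, ⟨e5⟩⟩ := Cfsg.Agent.Helper40.PSL2Sub.exists_A5 (F := F) h5dvd
    obtain ⟨g1, g2, g3, g4, g5, g6, g7, g8⟩ := a5_facts
    obtain ⟨V', hV'k, hV'S, hV'n⟩ := klein_of_iso H5 e5 a5A a5B a5_kpair
    haveI : Fact (Nat.Prime 3) := ⟨Nat.prime_three⟩
    have hc3 : orderOf ((e5.symm a5C : H5) : SL2 ⧸ Subgroup.center SL2) = 3 := by
      rw [Subgroup.orderOf_coe, MulEquiv.orderOf_eq]
      exact orderOf_eq_prime g7 g8
    obtain ⟨g, hg⟩ := (klein_classes hodd).1 hq8 V V' hVk hV'k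
    have hcH : Nat.card H5 = 60 := by
      rw [Nat.card_congr e5.toEquiv, Cfsg.Agent.Helper5.card_alt_fin_five]
    have hq9 : 9 ≤ Fintype.card F := by omega
    have hG720 : 720 ≤ Fintype.card F * (Fintype.card F ^ 2 - 1) := by
      have h1 : 81 ≤ Fintype.card F ^ 2 := by nlinarith
      calc 720 = 9 * 80 := by norm_num
        _ ≤ Fintype.card F * (Fintype.card F ^ 2 - 1) := Nat.mul_le_mul hq9 (by omega)
    exact not_coatom_of_conj_klein M V V' H5 hM hcM hVM hnorm (fun W hW => hsimp W hW) hVc g hg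
      hV'S _ (e5.symm a5C).2 hc3 (hV'n a5C a5C_normal) (by rw [hcH]; norm_num) (by
        intro htop
        rw [htop, Subgroup.card_top] at hcH
        have hcH' : Nat.card (SL2 ⧸ Subgroup.center SL2) = 60 := hcH
        omega)

theorem case_S4 [Fintype F] (p : ℕ) [Fact p.Prime] [CharP F p]
    (hodd : Odd (Fintype.card F))
    (M : Subgroup (SL2 ⧸ Subgroup.center SL2)) (hM : IsCoatom M)
    (e : (↥(pre M) ⧸ (Subgroup.center SL2).subgroupOf (pre M)) ≃* Equiv.Perm (Fin 4)) :
    (∃ (F₀ : Type) (_ : Field F₀) (_ : Fintype F₀), Fintype.card F = Fintype.card F₀ ^ 2 ∧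
      Nonempty (M ≃* Matrix.ProjGenLinGroup (Fin 2) F₀)) ∨
    (∃ (F₀ : Type) (_ : Field F₀) (_ : Fintype F₀) (r : ℕ), r.Prime ∧ Odd r ∧
      Fintype.card F = Fintype.card F₀ ^ r ∧
      Nonempty (M ≃* Matrix.ProjectiveSpecialLinearGroup (Fin 2) F₀)) ∨
    (Fintype.card F = p ∧ (p % 8 = 1 ∨ p % 8 = 7) ∧ Nonempty (M ≃* Equiv.Perm (Fin 4))) := by
  classical
  have h2 := two_ne_zero' hodd
  have hp2 := two_ne_char p hodd
  have hpodd : Odd p := (Fact.out : p.Prime).odd_of_ne_two hp2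
  obtain ⟨br⟩ := psl_bridge M
  obtain ⟨f1, f2, f3, f4, f5, f6, f7, f8⟩ := s4_facts
  obtain ⟨A, B, hA, hB, htA, htB, hAB⟩ := exists_lifts (pre M) e kA kB f1 f2 f3 f4 f5 f6
  by_cases h8 : p % 8 = 1 ∨ p % 8 = 7
  · obtain ⟨c, hc⟩ := (ZMod.exists_sq_eq_two_iff hp2).mpr h8
    have hs0 : ((ZMod.castHom (dvd_refl p) F) c) ^ 2 = 2 := by
      rw [← map_pow, pow_two, ← hc, map_ofNat]
    have HT : ∀ h ∈ pre M, tr h ∈ (⊥ : Subfield F) := by
      intro h hh
      by_cases hcen : h ∈ Subgroup.center SL2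
      · exact tr_center_mem _ h hcen
      · rcases s4_pow_fact (e (QuotientGroup.mk ⟨h, hh⟩)) with g3 | g4
        · rcases tr_of_cube h hcen (quot_pow_center (pre M) e ⟨h, hh⟩ 3 g3) with t | t <;>
            rw [t]
          · exact Subfield.one_mem _
          · exact Subfield.neg_mem _ (Subfield.one_mem _)
        · rcases tr_of_fourth h hcen (quot_pow_center (pre M) e ⟨h, hh⟩ 4 g4) with t | t
          · rw [t]; exact Subfield.zero_mem _
          · rw [← hs0] at t
            rcases sq_eq_sq_iff_eq_or_eq_neg.mp t with t' | t' <;> rw [t']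
            · exact cast_mem_subfield p _ c
            · exact Subfield.neg_mem _ (cast_mem_subfield p _ c)
    rcases trace_concl_SK p hodd M hM A B A.2 B.2 htA htB hAB ⊥ HT with h | h
    · right; left; exact h
    · right; right
      rw [Subfield.card_bot F p] at h
      exact ⟨h.symm, h8, ⟨br.symm.trans e⟩⟩
  · left
    have hns : ¬ IsSquare (2 : ZMod p) := fun h => h8 ((ZMod.exists_sq_eq_two_iff hp2).mp h)
    obtain ⟨X4, hX4⟩ := QuotientGroup.mk_surjective (e.symm s4C)
    have hg4 : e (QuotientGroup.mk X4) = s4C := by rw [hX4]; simp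
    obtain ⟨c1, c2⟩ := s4C_facts
    have hX4c : (X4 : SL2) ∉ Subgroup.center SL2 := by
      intro hc
      apply c2
      rw [← hg4, quot_one_of_center (pre M) e X4 hc, one_pow]
    have hs : tr (X4 : SL2) ^ 2 = 2 := by
      rcases tr_of_fourth (X4 : SL2) hX4c
        (quot_pow_center (pre M) e X4 4 (by rw [hg4, c1])) with t | t
      · exfalso
        apply c2
        rw [← hg4]
        exact quot_pow_of_center (pre M) e X4 2 (center_of_tr_zero _ t)
      · exact t
    obtain ⟨s, hsdef⟩ : ∃ s : F, s = tr (X4 : SL2) := ⟨_, rfl⟩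
    rw [← hsdef] at hs
    have hsK : s ∉ (⊥ : Subfield F) := by
      intro hmem
      have h1 : s ∈ (ZMod.castHom (dvd_refl p) F).fieldRange :=
        (bot_le : (⊥ : Subfield F) ≤ _) hmem
      obtain ⟨c, hc⟩ := RingHom.mem_fieldRange.mp h1
      apply hns
      refine ⟨c, ?_⟩
      apply (ZMod.castHom (dvd_refl p) F).injective
      rw [map_mul, hc, ← pow_two, hs, map_ofNat]
    have hs2K : s ^ 2 ∈ (⊥ : Subfield F) := by rw [hs]; exact two_mem_sub _
    have evenTr : ∀ X : pre M, Equiv.Perm.sign (e (QuotientGroup.mk X)) = 1 →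
        tr (X : SL2) ∈ (⊥ : Subfield F) := by
      intro X hX
      by_cases hcen : (X : SL2) ∈ Subgroup.center SL2
      · exact tr_center_mem _ _ hcen
      · rcases s4_even _ hX with g2 | g3
        · rw [tr_of_sq _ hcen (quot_pow_center (pre M) e X 2 g2)]
          exact Subfield.zero_mem _
        · rcases tr_of_cube _ hcen (quot_pow_center (pre M) e X 3 g3) with t | t <;> rw [t]
          · exact Subfield.one_mem _
          · exact Subfield.neg_mem _ (Subfield.one_mem _)
    have oddTr : ∀ X : pre M, Equiv.Perm.sign (e (QuotientGroup.mk X)) ≠ 1 →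
        s * tr (X : SL2) ∈ (⊥ : Subfield F) := by
      intro X hX
      have hcen : (X : SL2) ∉ Subgroup.center SL2 := by
        intro hc
        apply hX
        rw [quot_one_of_center (pre M) e X hc, map_one]
      rcases tr_of_fourth _ hcen (quot_pow_center (pre M) e X 4 (s4_odd _ hX)) with t | t
      · rw [t, mul_zero]; exact Subfield.zero_mem _
      · rw [← hs] at t
        rcases sq_eq_sq_iff_eq_or_eq_neg.mp t with t' | t' <;> rw [t']
        · rw [← pow_two]; exact hs2K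
        · rw [mul_neg, ← pow_two]; exact Subfield.neg_mem _ hs2K
    have hsgn : ∀ (X Y : pre M), Equiv.Perm.sign (e (QuotientGroup.mk Y)) = 1 →
        Equiv.Perm.sign (e (QuotientGroup.mk (X * Y))) =
          Equiv.Perm.sign (e (QuotientGroup.mk X)) := by
      intro X Y hY
      rw [QuotientGroup.mk_mul, map_mul, map_mul, hY, mul_one]
    have sA : Equiv.Perm.sign (e (QuotientGroup.mk A)) = 1 := by rw [hA, f7]
    have sB : Equiv.Perm.sign (e (QuotientGroup.mk B)) = 1 := by rw [hB, f8]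
    have sAB : Equiv.Perm.sign (e (QuotientGroup.mk (A * B))) = 1 := by rw [hsgn A B sB, sA]
    apply trace_concl_PK p hodd M hM A B htA htB hAB ⊥ s hsK hs2K
    intro h hh
    obtain ⟨X, hXdef⟩ : ∃ X : pre M, X = ⟨h, hh⟩ := ⟨_, rfl⟩
    have hXv : (X : SL2) = h := by rw [hXdef]
    have c1 : ((X * A : pre M) : SL2) = (X : SL2) * (A : SL2) := Subgroup.coe_mul _ _ _
    have c2 : ((X * B : pre M) : SL2) = (X : SL2) * (B : SL2) := Subgroup.coe_mul _ _ _
    have c3 : ((X * (A * B) : pre M) : SL2) = (X : SL2) * ((A : SL2) * (B : SL2)) := by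
      rw [Subgroup.coe_mul, Subgroup.coe_mul]
    rw [← hXv, ← c1, ← c2, ← c3]
    by_cases hsg : Equiv.Perm.sign (e (QuotientGroup.mk X)) = 1
    · right
      exact ⟨evenTr X hsg, evenTr (X * A) ((hsgn X A sA).trans hsg),
        evenTr (X * B) ((hsgn X B sB).trans hsg),
        evenTr (X * (A * B)) ((hsgn X (A * B) sAB).trans hsg)⟩
    · left
      exact ⟨oddTr X hsg, oddTr (X * A) (by rw [hsgn X A sA]; exact hsg),
        oddTr (X * B) (by rw [hsgn X B sB]; exact hsg),
        oddTr (X * (A * B)) (by rw [hsgn X (A * B) sAB]; exact hsg)⟩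

theorem sq_mem_fix2 (p : ℕ) [Fact p.Prime] [CharP F p] (hpodd : Odd p) (w : F) (c : ℕ)
    (h : w ^ 2 = (c : F)) : w ∈ fixF p 2 := by
  rw [mem_fixF, pow_two, pow_mul]
  have h1 : (w ^ p) ^ 2 = w ^ 2 := by
    rw [← pow_mul, mul_comm, pow_mul, h]
    have := map_natCast (frobenius F p) c
    rwa [frobenius_def] at this
  rcases sq_eq_sq_iff_eq_or_eq_neg.mp h1 with h3 | h3
  · rw [h3, h3]
  · rw [h3, hpodd.neg_pow, h3, neg_neg]

theorem case_A5 [Fintype F] (p : ℕ) [Fact p.Prime] [CharP F p]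
    (hodd : Odd (Fintype.card F))
    (M : Subgroup (SL2 ⧸ Subgroup.center SL2)) (hM : IsCoatom M)
    (e : (↥(pre M) ⧸ (Subgroup.center SL2).subgroupOf (pre M)) ≃* alternatingGroup (Fin 5)) :
    (∃ (F₀ : Type) (_ : Field F₀) (_ : Fintype F₀) (r : ℕ), r.Prime ∧ Odd r ∧
      Fintype.card F = Fintype.card F₀ ^ r ∧
      Nonempty (M ≃* Matrix.ProjectiveSpecialLinearGroup (Fin 2) F₀)) ∨
    ((Fintype.card F % 10 = 1 ∨ Fintype.card F % 10 = 9) ∧
      (Fintype.card F = p ∨ (Fintype.card F = p ^ 2 ∧ (p % 10 = 3 ∨ p % 10 = 7))) ∧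
      Nonempty (M ≃* alternatingGroup (Fin 5))) := by
  classical
  have h2 := two_ne_zero' hodd
  have hp2 := two_ne_char p hodd
  have hpp : p.Prime := Fact.out
  have hpodd : Odd p := hpp.odd_of_ne_two hp2
  obtain ⟨jp, hjp⟩ := hpodd
  have hpodd : Odd p := ⟨jp, hjp⟩
  obtain ⟨br⟩ := psl_bridge M
  obtain ⟨f1, f2, f3, f4, f5, f6, -, -⟩ := a5_facts
  obtain ⟨A, B, hA, hB, htA, htB, hAB⟩ := exists_lifts (pre M) e a5A a5B f1 f2 f3 f4 f5 f6
  have hcM : Nat.card M = 60 := by
    rw [Nat.card_congr (br.symm.trans e).toEquiv, Cfsg.Agent.Helper5.card_alt_fin_five]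
  have hG : 2 * Nat.card (SL2 ⧸ Subgroup.center SL2) =
      Fintype.card F * (Fintype.card F ^ 2 - 1) := Cfsg.Agent.Helper5.two_mul_card_PSL2 h2
  have HT : ∀ K : Subfield F, (∀ w : F, w ^ 2 = 5 → w ∈ K) → ∀ h ∈ pre M, tr h ∈ K := by
    intro K hK5 h hh
    by_cases hcen : h ∈ Subgroup.center SL2
    · exact tr_center_mem _ h hcen
    · rcases a5_pow_fact (e (QuotientGroup.mk ⟨h, hh⟩)) with g2 | g3 | g5
      · rw [tr_of_sq h hcen (quot_pow_center (pre M) e ⟨h, hh⟩ 2 g2)]
        exact K.zero_mem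
      · rcases tr_of_cube h hcen (quot_pow_center (pre M) e ⟨h, hh⟩ 3 g3) with t | t <;> rw [t]
        · exact K.one_mem
        · exact K.neg_mem K.one_mem
      · have k2 : (2 : F)⁻¹ ∈ K := K.inv_mem (two_mem_sub K)
        rcases tr_of_fifth h hcen (quot_pow_center (pre M) e ⟨h, hh⟩ 5 g5) with t | t
        · have e1 : tr h = 2⁻¹ * ((2 * tr h + 1) - 1) := by field_simp; ring
          rw [e1]
          exact K.mul_mem k2 (K.sub_mem (hK5 _ t) K.one_mem)
        · have e1 : tr h = 2⁻¹ * ((2 * tr h - 1) + 1) := by field_simp; ring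
          rw [e1]
          exact K.mul_mem k2 (K.add_mem (hK5 _ t) K.one_mem)
  by_cases hp5 : p = 5
  · -- characteristic five
    have h50 : (5 : F) = 0 := by
      have := CharP.cast_eq_zero F p
      rw [hp5] at this
      exact_mod_cast this
    have hK5 : ∀ w : F, w ^ 2 = 5 → w ∈ (⊥ : Subfield F) := by
      intro w hw
      rw [h50] at hw
      rw [pow_eq_zero_iff (by norm_num) |>.mp hw]
      exact Subfield.zero_mem _
    rcases trace_concl_SK p hodd M hM A B A.2 B.2 htA htB hAB ⊥ (HT ⊥ hK5) with h | h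
    · left; exact h
    · exfalso
      rw [Subfield.card_bot F p, hp5] at h
      rw [← h] at hG
      apply hM.1
      apply Subgroup.eq_top_of_card_eq
      rw [hcM]; omega
  · have hnd : ¬ 5 ∣ p := fun h => hp5 ((Nat.prime_dvd_prime_iff_eq Nat.prime_five hpp).mp h).symm
    by_cases h5 : p % 5 = 1 ∨ p % 5 = 4
    · haveI : Fact (Nat.Prime 5) := ⟨Nat.prime_five⟩
      have hsq : IsSquare ((5 : ℕ) : ZMod p) := by
        rw [← ZMod.exists_sq_eq_prime_iff_of_mod_four_eq_one (p := 5) (q := p) (by norm_num) hp2]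
        rw [← ZMod.natCast_mod p 5]
        rcases h5 with h | h <;> rw [h]
        · exact ⟨1, by simp⟩
        · exact ⟨2, by norm_num⟩
      obtain ⟨c, hc⟩ := hsq
      have hs0 : ((ZMod.castHom (dvd_refl p) F) c) ^ 2 = 5 := by
        rw [← map_pow, pow_two, ← hc, map_natCast]; norm_num
      have hK5 : ∀ w : F, w ^ 2 = 5 → w ∈ (⊥ : Subfield F) := by
        intro w hw
        rw [← hs0] at hw
        rcases sq_eq_sq_iff_eq_or_eq_neg.mp hw with t' | t' <;> rw [t']
        · exact cast_mem_subfield p _ c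
        · exact Subfield.neg_mem _ (cast_mem_subfield p _ c)
      rcases trace_concl_SK p hodd M hM A B A.2 B.2 htA htB hAB ⊥ (HT ⊥ hK5) with h | h
      · left; exact h
      · right
        rw [Subfield.card_bot F p] at h
        refine ⟨by rw [← h]; omega, Or.inl h.symm, ⟨br.symm.trans e⟩⟩
    · have h5' : p % 5 = 2 ∨ p % 5 = 3 := by omega
      have hK5 : ∀ w : F, w ^ 2 = 5 → w ∈ fixF (F := F) p 2 := by
        intro w hw
        exact sq_mem_fix2 p hpodd w 5 (by rw [hw]; norm_num)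
      rcases trace_concl_SK p hodd M hM A B A.2 B.2 htA htB hAB _ (HT _ hK5) with h | h
      · left; exact h
      · right
        have hle := card_fixF_le (F := F) p 2 (by norm_num)
        rw [h] at hle
        obtain ⟨n, -, hn⟩ := FiniteField.card F p
        have hn2 : (n : ℕ) ≤ 2 := by
          rw [hn] at hle
          exact (Nat.pow_le_pow_iff_right hpp.one_lt).mp hle
        have hn0 : (n : ℕ) ≠ 0 := n.ne_zero
        have hn12 : (n : ℕ) = 1 ∨ (n : ℕ) = 2 := by omega
        rcases hn12 with h1 | h1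
        · exfalso
          rw [h1, pow_one] at hn
          have hd : 60 ∣ Nat.card (SL2 ⧸ Subgroup.center SL2) :=
            hcM ▸ Subgroup.card_subgroup_dvd_card M
          have hd5 : 5 ∣ p * (p ^ 2 - 1) := by
            rw [← hn, ← hG]
            exact Dvd.dvd.mul_left (dvd_trans (by norm_num) hd) 2
          rcases (Nat.Prime.dvd_mul Nat.prime_five).1 hd5 with h3 | h3
          · exact hnd h3
          · have h4 : p ^ 2 % 5 = 4 := by
              rw [Nat.pow_mod]
              rcases h5' with h | h <;> rw [h]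
            have hpos : 1 ≤ p ^ 2 := Nat.one_le_pow _ _ (by omega)
            omega
        · rw [h1] at hn
          have hp10 : p % 10 = 3 ∨ p % 10 = 7 := by omega
          refine ⟨?_, Or.inr ⟨hn, hp10⟩, ⟨br.symm.trans e⟩⟩
          right
          rw [hn, Nat.pow_mod]
          rcases hp10 with h | h <;> rw [h]

end Cfsg.Agent.Helper5.PMax
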