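import Mathlib
import Cfsg.Agent.Helper5.PMaxG

/-!
# Maximal subgroups of `PGL₂(q)`, part A (helper5)

The map `SL₂(F) → PGL₂(F)`, representatives of elements of `PGL₂(F)` by invertible matrices, and
the order of the preimage in `SL₂(F)` of a maximal subgroup not containing the image of `SL₂(F)`.
-/

set_option autoImplicit false
set_option linter.style.haveILetI false

namespace Cfsg.Agent.Helper5.GMax

open Cfsg.Agent.Helper41 Cfsg.Agent.Helper41.Dk Cfsg.Agent.Helper5.PMax Matrix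

variable {F : Type*} [Field F]

local notation "SL2" => Matrix.SpecialLinearGroup (Fin 2) F
local notation "PGL2" => Matrix.ProjGenLinGroup (Fin 2) F

/-- the natural map `SL₂(F) → PGL₂(F)`. -/
abbrev tP : SL2 →* PGL2 :=
  Matrix.ProjGenLinGroup.mk.comp Matrix.SpecialLinearGroup.toGL

/-- the element of `PGL₂(F)` represented by an invertible matrix. -/
noncomputable def mkQ (Q : Matrix (Fin 2) (Fin 2) F) (hQ : Q.det ≠ 0) : PGL2 :=
  Matrix.ProjGenLinGroup.mk (Matrix.GeneralLinearGroup.mkOfDetNeZero Q hQ)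

theorem exists_mkQ (c : PGL2) : ∃ (Q : Matrix (Fin 2) (Fin 2) F) (hQ : Q.det ≠ 0),
    c = mkQ Q hQ := by
  obtain ⟨g, rfl⟩ := Matrix.ProjGenLinGroup.mk_surjective c
  have hdet : (g.1 : Matrix (Fin 2) (Fin 2) F).det ≠ 0 := by
    have h := (Matrix.GeneralLinearGroup.det g).ne_zero
    rwa [Matrix.GeneralLinearGroup.val_det_apply] at h
  refine ⟨g.1, hdet, ?_⟩
  unfold mkQ
  congr 1
  apply Units.ext
  rfl

theorem mkQ_eq_iff (Q R : Matrix (Fin 2) (Fin 2) F) (hQ : Q.det ≠ 0) (hR : R.det ≠ 0) :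
    mkQ Q hQ = mkQ R hR ↔ ∃ u : F, u ≠ 0 ∧ R = u • Q := by
  unfold mkQ
  rw [Matrix.ProjGenLinGroup.mk_eq_mk_iff]
  constructor
  · rintro ⟨u, hu⟩
    refine ⟨u, u.ne_zero, ?_⟩
    have h := congrArg (fun g : GL (Fin 2) F => (g : Matrix (Fin 2) (Fin 2) F)) hu
    simp only [Units.val_mul, Matrix.GeneralLinearGroup.val_mkOfDetNeZero,
      Matrix.GeneralLinearGroup.coe_scalar] at h
    rw [← h]
    ext i j
    fin_cases i <;> fin_cases j <;> simp [Matrix.mul_apply, Fin.sum_univ_two, mul_comm]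
  · rintro ⟨u, hu, rfl⟩
    refine ⟨Units.mk0 u hu, ?_⟩
    apply Units.ext
    simp only [Units.val_mul, Matrix.GeneralLinearGroup.val_mkOfDetNeZero,
      Matrix.GeneralLinearGroup.coe_scalar]
    ext i j
    fin_cases i <;> fin_cases j <;> simp [Matrix.mul_apply, Fin.sum_univ_two, mul_comm]

theorem mkQ_mul (Q R : Matrix (Fin 2) (Fin 2) F) (hQ : Q.det ≠ 0) (hR : R.det ≠ 0)
    (hQR : (Q * R).det ≠ 0) : mkQ Q hQ * mkQ R hR = mkQ (Q * R) hQR := by
  unfold mkQ
  rw [← map_mul]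
  congr 1
  apply Units.ext
  rfl

theorem mkQ_smul (Q : Matrix (Fin 2) (Fin 2) F) (hQ : Q.det ≠ 0) (u : F) (hu : u ≠ 0)
    (h : (u • Q).det ≠ 0) : mkQ (u • Q) h = mkQ Q hQ :=
  ((mkQ_eq_iff Q (u • Q) hQ h).mpr ⟨u, hu, rfl⟩).symm

theorem mkQ_one (h : (1 : Matrix (Fin 2) (Fin 2) F).det ≠ 0) : mkQ (1 : Matrix (Fin 2) (Fin 2) F) h = 1 := by
  unfold mkQ
  rw [Matrix.ProjGenLinGroup.mk_eq_one]
  have : Matrix.GeneralLinearGroup.mkOfDetNeZero (1 : Matrix (Fin 2) (Fin 2) F) h = 1 := by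
    apply Units.ext
    rfl
  rw [this]
  exact Subgroup.one_mem _

theorem mkQ_eq_one_iff (Q : Matrix (Fin 2) (Fin 2) F) (hQ : Q.det ≠ 0) :
    mkQ Q hQ = 1 ↔ ∃ u : F, u ≠ 0 ∧ Q = u • (1 : Matrix (Fin 2) (Fin 2) F) := by
  have h1 : (1 : Matrix (Fin 2) (Fin 2) F).det ≠ 0 := by simp
  rw [← mkQ_one h1, eq_comm, mkQ_eq_iff]

theorem sl_det_ne (s : SL2) : (s.1 : Matrix (Fin 2) (Fin 2) F).det ≠ 0 := by
  rw [s.2]; exact one_ne_zero

theorem tP_eq (s : SL2) : tP s = mkQ s.1 (sl_det_ne s) := by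
  unfold mkQ
  show Matrix.ProjGenLinGroup.mk (Matrix.SpecialLinearGroup.toGL s) = _
  congr 1
  apply Units.ext
  rfl

theorem tP_eq_one_iff (s : SL2) : tP s = 1 ↔ s ∈ Subgroup.center SL2 := by
  rw [← MonoidHom.mem_ker, Matrix.SpecialLinearGroup.toPGL_ker]

theorem tP_eq_tP_iff (s s' : SL2) : tP s = tP s' ↔ s⁻¹ * s' ∈ Subgroup.center SL2 := by
  rw [← tP_eq_one_iff, map_mul, map_inv, inv_mul_eq_one]

theorem mkQ_conj (Q : Matrix (Fin 2) (Fin 2) F) (hQ : Q.det ≠ 0) (s : SL2) :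
    (mkQ Q hQ)⁻¹ * tP s * mkQ Q hQ = tP (conjGL Q hQ s) := by
  rw [mul_assoc, inv_mul_eq_iff_eq_mul, tP_eq, tP_eq,
    mkQ_mul _ _ _ _ (by rw [Matrix.det_mul]; exact mul_ne_zero (sl_det_ne s) hQ),
    mkQ_mul _ _ _ _ (by rw [Matrix.det_mul]; exact mul_ne_zero hQ (sl_det_ne _))]
  congr 1
  rw [conjGL_coe, ← Matrix.mul_assoc, ← Matrix.mul_assoc,
    Matrix.mul_nonsing_inv Q (isUnit_iff_ne_zero.mpr hQ), Matrix.one_mul]

/-! ### orders -/

instance finitePGL2 [Finite F] : Finite PGL2 :=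
  Finite.of_surjective _ Matrix.ProjGenLinGroup.mk_surjective

section card

variable [Fintype F]

theorem card_range_tP (h2 : (2 : F) ≠ 0) :
    2 * Nat.card (tP (F := F)).range = Fintype.card F * (Fintype.card F ^ 2 - 1) := by
  have e := QuotientGroup.quotientKerEquivRange (tP (F := F))
  have h1 := Subgroup.card_eq_card_quotient_mul_card_subgroup (tP (F := F)).ker
  rw [Nat.card_congr e.toEquiv, Matrix.SpecialLinearGroup.toPGL_ker,
    Cfsg.Agent.Helper5.card_center_SL2 h2, Cfsg.Agent.Helper5.card_SL2] at h1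
  omega

theorem index_range_tP (h2 : (2 : F) ≠ 0) : (tP (F := F)).range.index = 2 := by
  have h1 := (tP (F := F)).range.card_mul_index
  rw [Cfsg.Agent.Helper5.card_PGL2_eq, ← card_range_tP h2, mul_comm] at h1
  exact Nat.eq_of_mul_eq_mul_right Nat.card_pos h1

theorem normal_range_tP (h2 : (2 : F) ≠ 0) : (tP (F := F)).range.Normal :=
  Subgroup.normal_of_index_eq_two (index_range_tP h2)

/-- the standing hypotheses on a maximal subgroup of `PGL₂(F)`. -/
structure MaxData (M : Subgroup PGL2) : Prop where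
  odd : Odd (Fintype.card F)
  h3 : 3 < Fintype.card F
  co : IsCoatom M
  nL : ¬ (tP (F := F)).range ≤ M

namespace MaxData

theorem two {M : Subgroup PGL2} (D : MaxData M) : (2 : F) ≠ 0 := two_ne_zero' D.odd

theorem sup_eq_top {M : Subgroup PGL2} (D : MaxData M) : M ⊔ (tP (F := F)).range = ⊤ :=
  D.co.2 _ (lt_of_le_of_ne le_sup_left (fun heq => D.nL (heq ▸ le_sup_right)))

theorem card_inf {M : Subgroup PGL2} (D : MaxData M) :
    2 * Nat.card (M ⊓ (tP (F := F)).range : Subgroup PGL2) = Nat.card M := by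
  haveI := normal_range_tP D.two
  have h1 : (tP (F := F)).range.relIndex M = 2 := by
    rw [← Subgroup.relIndex_sup_right M (tP (F := F)).range, D.sup_eq_top,
      Subgroup.relIndex_top_right, index_range_tP D.two]
  have h2 := relIndex_mul_card_of_le (inf_le_left : M ⊓ (tP (F := F)).range ≤ M)
  rw [inf_comm, Subgroup.inf_relIndex_right, h1, inf_comm] at h2
  exact h2

theorem card_pr {M : Subgroup PGL2} (D : MaxData M) : Nat.card (M.comap (tP (F := F))) = Nat.card M := by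
  have h3 : (M.comap (tP (F := F))).index = M.relIndex (tP (F := F)).range :=
    Subgroup.index_comap M tP
  have h4 := (M.comap (tP (F := F))).card_mul_index
  rw [h3, Cfsg.Agent.Helper5.card_SL2, ← card_range_tP D.two] at h4
  have h5 := relIndex_mul_card_of_le
    (inf_le_right : M ⊓ (tP (F := F)).range ≤ (tP (F := F)).range)
  rw [Subgroup.inf_relIndex_right] at h5
  have h6 := D.card_inf
  have hpos : 0 < M.relIndex (tP (F := F)).range := by
    rcases Nat.eq_zero_or_pos (M.relIndex (tP (F := F)).range) with h | h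
    · rw [h, zero_mul] at h5
      have : 0 < Nat.card (tP (F := F)).range := Nat.card_pos
      omega
    · exact h
  apply Nat.eq_of_mul_eq_mul_right hpos
  rw [h4, ← h5, ← h6]
  ring

omit [Fintype F] in
theorem center_le_pr (M : Subgroup PGL2) : Subgroup.center SL2 ≤ M.comap (tP (F := F)) := by
  intro z hz
  rw [Subgroup.mem_comap, (tP_eq_one_iff z).mpr hz]
  exact M.one_mem

theorem card_G_ge {M : Subgroup PGL2} (D : MaxData M) : 120 ≤ Fintype.card F * (Fintype.card F ^ 2 - 1) := by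
  obtain ⟨j, hj⟩ := D.odd
  have h5 : 5 ≤ Fintype.card F := by have := D.h3; omega
  have h1 : 25 ≤ Fintype.card F ^ 2 := by nlinarith
  calc 120 = 5 * 24 := by norm_num
    _ ≤ Fintype.card F * (Fintype.card F ^ 2 - 1) := Nat.mul_le_mul h5 (by omega)

theorem eight_dvd_G {M : Subgroup PGL2} (D : MaxData M) : 8 ∣ Fintype.card F * (Fintype.card F ^ 2 - 1) := by
  obtain ⟨j, hj⟩ := D.odd
  have h1 : Fintype.card F ^ 2 % 8 = 1 := by
    have h8 : Fintype.card F % 8 = 1 ∨ Fintype.card F % 8 = 3 ∨ Fintype.card F % 8 = 5 ∨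
        Fintype.card F % 8 = 7 := by omega
    rw [Nat.pow_mod]
    rcases h8 with h | h | h | h <;> rw [h]
  have hpos : 1 ≤ Fintype.card F ^ 2 := Nat.one_le_pow _ _ (by omega)
  exact Dvd.dvd.mul_left (by omega) _

/-- a maximal subgroup which is a `2`-group is a Sylow `2`-subgroup. -/
theorem card_of_two_group {M : Subgroup PGL2} (D : MaxData M) (hM2 : IsPGroup 2 M) :
    Nat.card M = 2 ^ (Fintype.card F * (Fintype.card F ^ 2 - 1)).factorization 2 := by
  haveI : Fact (Nat.Prime 2) := ⟨Nat.prime_two⟩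
  obtain ⟨P, hP⟩ := hM2.exists_le_sylow
  have hc := Sylow.card_eq_multiplicity P
  rw [Cfsg.Agent.Helper5.card_PGL2_eq] at hc
  rcases D.co.le_iff.mp hP with h | h
  · exfalso
    rw [h, Subgroup.card_top, Cfsg.Agent.Helper5.card_PGL2_eq] at hc
    have h1 : Fintype.card F ∣ 2 ^ (Fintype.card F * (Fintype.card F ^ 2 - 1)).factorization 2 := by
      rw [← hc]; exact Dvd.intro _ rfl
    obtain ⟨i, -, hi⟩ := (Nat.dvd_prime_pow Nat.prime_two).mp h1
    obtain ⟨j, hj⟩ := D.odd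
    have h3 := D.h3
    rcases Nat.eq_zero_or_pos i with h0 | h0
    · rw [h0, pow_zero] at hi; omega
    · have : 2 ∣ Fintype.card F := by rw [hi]; exact dvd_pow_self 2 (by omega)
      omega
  · rw [← h, hc]

theorem eight_dvd_of_two_group {M : Subgroup PGL2} (D : MaxData M) (hM2 : IsPGroup 2 M) : 8 ∣ Nat.card M := by
  rw [D.card_of_two_group hM2]
  have h0 : Fintype.card F * (Fintype.card F ^ 2 - 1) ≠ 0 := by have := D.card_G_ge; omega
  have h3 : 3 ≤ (Fintype.card F * (Fintype.card F ^ 2 - 1)).factorization 2 :=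
    (Nat.Prime.pow_dvd_iff_le_factorization Nat.prime_two h0).mp D.eight_dvd_G
  exact pow_dvd_pow 2 h3

theorem card_ne_two {M : Subgroup PGL2} (D : MaxData M) : Nat.card M ≠ 2 := by
  intro h
  haveI : Fact (Nat.Prime 2) := ⟨Nat.prime_two⟩
  have h1 := D.eight_dvd_of_two_group (IsPGroup.of_card (n := 1) (by rw [h, pow_one]))
  rw [h] at h1
  omega

end MaxData

/-- a normal subgroup of `SL₂(F)` containing the centre is the centre or everything. -/
theorem normal_sub (h4 : 4 ≤ Fintype.card F) (H : Subgroup SL2) (hZ : Subgroup.center SL2 ≤ H)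
    (hn : H.Normal) : H = Subgroup.center SL2 ∨ H = ⊤ := by
  haveI : IsSimpleGroup (Matrix.ProjectiveSpecialLinearGroup (Fin 2) F) :=
    Matrix.ProjectiveSpecialLinearGroup.rank_two_simple
      (by rw [Nat.card_eq_fintype_card]; exact h4)
  have h1 : pre (H.map (QuotientGroup.mk' (Subgroup.center SL2))) = H := pre_map H hZ
  have hn' : (H.map (QuotientGroup.mk' (Subgroup.center SL2))).Normal :=
    hn.map _ (QuotientGroup.mk'_surjective _)
  rcases hn'.eq_bot_or_eq_top with h | h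
  · left
    rw [← h1, h]
    ext g
    show QuotientGroup.mk' (Subgroup.center SL2) g ∈ (⊥ : Subgroup _) ↔ _
    rw [Subgroup.mem_bot, QuotientGroup.mk'_apply, QuotientGroup.eq_one_iff]
  · right
    rw [← h1, h]
    rfl

/-- **the normaliser principle**: an element of `PGL₂(F)` normalising the preimage of `M` lies
in `M`. -/
theorem MaxData.mem_of_normalizes {M : Subgroup PGL2} (D : MaxData M) (c : PGL2)
    (hc : ∀ s ∈ M.comap (tP (F := F)), c * tP s * c⁻¹ ∈ M) : c ∈ M := by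
  haveI hLn := normal_range_tP D.two
  have hMN : M ≤ Subgroup.normalizer ((M ⊓ (tP (F := F)).range : Subgroup PGL2) : Set PGL2) := by
    intro m hm
    apply mem_normalizer_of_map_le
    rintro x ⟨y, hy, rfl⟩
    exact ⟨M.mul_mem (M.mul_mem hm hy.1) (M.inv_mem hm), hLn.conj_mem y hy.2 m⟩
  have hcN : c ∈ Subgroup.normalizer ((M ⊓ (tP (F := F)).range : Subgroup PGL2) : Set PGL2) := by
    apply mem_normalizer_of_map_le
    rintro x ⟨y, hy, rfl⟩
    obtain ⟨s, rfl⟩ := hy.2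
    exact ⟨hc s hy.1, hLn.conj_mem _ hy.2 c⟩
  rcases D.co.le_iff.mp hMN with h | h
  · exfalso
    have hn : (M ⊓ (tP (F := F)).range : Subgroup PGL2).Normal :=
      Subgroup.normalizer_eq_top_iff.mp h
    have hn' : ((M ⊓ (tP (F := F)).range : Subgroup PGL2).comap (tP (F := F))).Normal :=
      hn.comap _
    have e1 : (M ⊓ (tP (F := F)).range : Subgroup PGL2).comap (tP (F := F)) =
        M.comap (tP (F := F)) := by
      ext s
      simp only [Subgroup.mem_comap, Subgroup.mem_inf]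
      exact ⟨fun h => h.1, fun h => ⟨h, ⟨s, rfl⟩⟩⟩
    rw [e1] at hn'
    rcases normal_sub (by have := D.h3; omega) _ (MaxData.center_le_pr M) hn' with h' | h'
    · have h5 := D.card_pr
      rw [h', Cfsg.Agent.Helper5.card_center_SL2 D.two] at h5
      exact D.card_ne_two h5.symm
    · apply D.nL
      rintro _ ⟨s, rfl⟩
      have : s ∈ M.comap (tP (F := F)) := by rw [h']; trivial
      exact this
  · rw [← h]; exact hcN

/-- a maximal subgroup not containing `PSL₂` does not have order `8` (Burnside's transfer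
theorem in `PSL₂(F)`). -/
theorem MaxData.card_ne_eight {M : Subgroup PGL2} (D : MaxData M) : Nat.card M ≠ 8 := by
  intro h8
  haveI : Fact (Nat.Prime 2) := ⟨Nat.prime_two⟩
  have hM2 : IsPGroup 2 M := IsPGroup.of_card (n := 3) (by rw [h8]; norm_num)
  have hf := D.card_of_two_group hM2
  rw [h8] at hf
  have hf3 : (Fintype.card F * (Fintype.card F ^ 2 - 1)).factorization 2 = 3 := by
    have h1 : (2 : ℕ) ^ 3 = 2 ^ (Fintype.card F * (Fintype.card F ^ 2 - 1)).factorization 2 := by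
      rw [← hf]; norm_num
    exact (Nat.pow_right_injective (le_refl 2) h1).symm
  haveI : IsSimpleGroup (Matrix.ProjectiveSpecialLinearGroup (Fin 2) F) :=
    Matrix.ProjectiveSpecialLinearGroup.rank_two_simple
      (by rw [Nat.card_eq_fintype_card]; have := D.h3; omega)
  obtain ⟨P₁, hP₁⟩ : ∃ P₁ : Subgroup (SL2 ⧸ Subgroup.center SL2),
      P₁ = (M.comap (tP (F := F))).map (QuotientGroup.mk' (Subgroup.center SL2)) := ⟨_, rfl⟩
  have hpre : pre P₁ = M.comap (tP (F := F)) := by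
    rw [hP₁]; exact pre_map _ (MaxData.center_le_pr M)
  have hc1 : Nat.card P₁ = 4 := by
    have h1 := card_pre_two D.odd P₁
    rw [hpre, D.card_pr, h8] at h1
    omega
  have hG : 2 * Nat.card (SL2 ⧸ Subgroup.center SL2) =
      Fintype.card F * (Fintype.card F ^ 2 - 1) := Cfsg.Agent.Helper5.two_mul_card_PSL2 D.two
  have hfac : (Nat.card (SL2 ⧸ Subgroup.center SL2)).factorization 2 = 2 := by
    have h0 : Nat.card (SL2 ⧸ Subgroup.center SL2) ≠ 0 := Nat.card_pos.ne'
    have h1 := Nat.factorization_mul (a := 2) (b := Nat.card (SL2 ⧸ Subgroup.center SL2))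
      (by norm_num) h0
    rw [hG] at h1
    have h2 := congrArg (fun f => f 2) h1
    simp only [Finsupp.add_apply, hf3, Nat.prime_two.factorization_self] at h2
    omega
  obtain ⟨P, hPcoe⟩ : ∃ P : Sylow 2 (SL2 ⧸ Subgroup.center SL2),
      (P : Subgroup (SL2 ⧸ Subgroup.center SL2)) = P₁ :=
    ⟨Sylow.ofCard P₁ (by rw [hc1, hfac]; norm_num), Sylow.coe_ofCard _ _⟩
  have hcomm : ∀ a b : P₁, a * b = b * a :=
    fun a b => (IsPGroup.isMulCommutative_of_card_eq_prime_sq (p := 2)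
      (by rw [hc1]; norm_num)).is_comm.comm a b
  have hNC : Subgroup.normalizer
      ((P : Subgroup (SL2 ⧸ Subgroup.center SL2)) : Set (SL2 ⧸ Subgroup.center SL2)) ≤
      Subgroup.centralizer
        ((P : Subgroup (SL2 ⧸ Subgroup.center SL2)) : Set (SL2 ⧸ Subgroup.center SL2)) := by
    rw [hPcoe]
    intro g hg
    obtain ⟨s, rfl⟩ := QuotientGroup.mk'_surjective _ g
    have hs : s ∈ M.comap (tP (F := F)) := by
      apply D.mem_of_normalizes (tP s)
      intro h hh
      have h1 : s * h * s⁻¹ ∈ pre P₁ := by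
        show QuotientGroup.mk' (Subgroup.center SL2) (s * h * s⁻¹) ∈ P₁
        rw [map_mul, map_mul, map_inv]
        refine (Subgroup.mem_normalizer_iff.mp hg _).mp ?_
        rw [hP₁]
        exact ⟨h, hh, rfl⟩
      rw [hpre] at h1
      have h2 : tP (s * h * s⁻¹) ∈ M := h1
      rwa [map_mul, map_mul, map_inv] at h2
    have hgP : QuotientGroup.mk' (Subgroup.center SL2) s ∈ P₁ := by
      rw [hP₁]; exact ⟨s, hs, rfl⟩
    rw [Subgroup.mem_centralizer_iff]
    intro x hx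
    exact congrArg Subtype.val (hcomm ⟨x, hx⟩ ⟨_, hgP⟩)
  have hcompl := MonoidHom.ker_transferSylow_isComplement' P hNC
  have hcard := hcompl.card_mul_card
  have hcP : Nat.card (P : Subgroup (SL2 ⧸ Subgroup.center SL2)) = 4 := by
    rw [hPcoe]; exact hc1
  rw [hcP] at hcard
  have h120 := D.card_G_ge
  rcases (MonoidHom.normal_ker (MonoidHom.transferSylow P hNC)).eq_bot_or_eq_top with hK | hK
  · rw [hK, Subgroup.card_bot] at hcard
    omega
  · rw [hK, Subgroup.card_top] at hcard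
    omega

/-- a maximal subgroup not containing `PSL₂` is not a `2`-group of order at most `8`. -/
theorem MaxData.not_small_two {M : Subgroup PGL2} (D : MaxData M) (hM2 : IsPGroup 2 M)
    (h8 : Nat.card M ≤ 8) : False := by
  have h1 := D.eight_dvd_of_two_group hM2
  have h2 := Nat.le_of_dvd Nat.card_pos h1
  exact D.card_ne_eight (by omega)

/-! ### conjugation of a maximal subgroup -/

/-- the conjugate `c M c⁻¹`. -/
abbrev cj (M : Subgroup PGL2) (c : PGL2) : Subgroup PGL2 := M.map (MulAut.conj c).toMonoidHom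

omit [Fintype F] in
theorem mem_cj (M : Subgroup PGL2) (c x : PGL2) : x ∈ cj M c ↔ c⁻¹ * x * c ∈ M := by
  constructor
  · rintro ⟨y, hy, rfl⟩
    have : c⁻¹ * (MulAut.conj c).toMonoidHom y * c = y := by
      show c⁻¹ * (c * y * c⁻¹) * c = y
      group
    rwa [this]
  · intro h
    refine ⟨c⁻¹ * x * c, h, ?_⟩
    show c * (c⁻¹ * x * c) * c⁻¹ = x
    group

theorem MaxData.cj {M : Subgroup PGL2} (D : MaxData M) (c : PGL2) : MaxData (cj M c) := by
  haveI hLn := normal_range_tP D.two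
  refine ⟨D.odd, D.h3, ((MulEquiv.mapSubgroup (MulAut.conj c)).isCoatom_iff M).mpr D.co, ?_⟩
  intro h
  apply D.nL
  intro x hx
  have h1 : c * x * c⁻¹ ∈ GMax.cj M c := h (hLn.conj_mem x hx c)
  rw [mem_cj] at h1
  have e : c⁻¹ * (c * x * c⁻¹) * c = x := by group
  rwa [e] at h1

omit [Fintype F] in
theorem cj_equiv (M : Subgroup PGL2) (c : PGL2) : Nonempty (M ≃* cj M c) :=
  ⟨Subgroup.equivMapOfInjective M _ (MulAut.conj c).injective⟩

omit [Fintype F] in
/-- the preimage of the conjugate by `(mkQ Q)⁻¹`. -/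
theorem mem_pr_cj (M : Subgroup PGL2) (Q : Matrix (Fin 2) (Fin 2) F) (hQ : Q.det ≠ 0) (s : SL2) :
    conjGL Q hQ s ∈ (cj M (mkQ Q hQ)⁻¹).comap (tP (F := F)) ↔ s ∈ M.comap (tP (F := F)) := by
  rw [Subgroup.mem_comap, mem_cj, ← mkQ_conj, Subgroup.mem_comap, inv_inv]
  have e : mkQ Q hQ * ((mkQ Q hQ)⁻¹ * tP s * mkQ Q hQ) * (mkQ Q hQ)⁻¹ = tP s := by group
  rw [e]

theorem exists_of_mem_pr_cj (M : Subgroup PGL2) (Q : Matrix (Fin 2) (Fin 2) F) (hQ : Q.det ≠ 0)
    (s' : SL2) (hs' : s' ∈ (cj M (mkQ Q hQ)⁻¹).comap (tP (F := F))) :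
    ∃ s ∈ M.comap (tP (F := F)), conjGL Q hQ s = s' := by
  have hsurj : Function.Surjective (conjGL Q hQ) :=
    Finite.injective_iff_surjective.mp (conjGL_injective Q hQ)
  obtain ⟨s, rfl⟩ := hsurj s'
  exact ⟨s, (mem_pr_cj M Q hQ s).mp hs', rfl⟩

/-! ### the conclusion -/

/-- the conclusion of the classification of the maximal subgroups of `PGL₂(F)` not containing
`PSL₂(F)`. -/
def Goal5 (M : Subgroup PGL2) : Prop :=
  Nat.card M = Fintype.card F * (Fintype.card F - 1) ∨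
  (Fintype.card F ≠ 5 ∧ Nonempty (M ≃* DihedralGroup (Fintype.card F - 1))) ∨
  Nonempty (M ≃* DihedralGroup (Fintype.card F + 1)) ∨
  ((Fintype.card F).Prime ∧ (Fintype.card F % 8 = 3 ∨ Fintype.card F % 8 = 5) ∧
    Nonempty (M ≃* Equiv.Perm (Fin 4))) ∨
  (∃ (F₀ : Type) (_ : Field F₀) (_ : Fintype F₀) (r : ℕ), r.Prime ∧ Odd r ∧
    Fintype.card F = Fintype.card F₀ ^ r ∧ Nonempty (M ≃* Matrix.ProjGenLinGroup (Fin 2) F₀))

theorem goal5_of_equiv {M M' : Subgroup PGL2} (e : M ≃* M') (h : Goal5 M') : Goal5 M := by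
  rcases h with h | ⟨h5, ⟨f⟩⟩ | ⟨⟨f⟩⟩ | ⟨h1, h2, ⟨f⟩⟩ | ⟨F₀, i1, i2, r, h1, h2, h3, ⟨f⟩⟩
  · left; rw [Nat.card_congr e.toEquiv]; exact h
  · right; left; exact ⟨h5, ⟨e.trans f⟩⟩
  · right; right; left; exact ⟨e.trans f⟩
  · right; right; right; left; exact ⟨h1, h2, ⟨e.trans f⟩⟩
  · right; right; right; right; exact ⟨F₀, i1, i2, r, h1, h2, h3, ⟨e.trans f⟩⟩

theorem goal5_cj {M : Subgroup PGL2} (c : PGL2) (h : Goal5 (cj M c)) : Goal5 M := by
  obtain ⟨e⟩ := cj_equiv M c
  exact goal5_of_equiv e h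

end card

end Cfsg.Agent.Helper5.GMax
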