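import Mathlib
import Cfsg.Agent.Helper5.GMaxA
import Cfsg.Agent.S0805

/-!
# Maximal subgroups of `PGL₂(q)`, part B (helper5)

The centraliser in `PGL₂(F)` of a Klein four-group, and the subfield lemma: a subgroup of
`GL₂(F)` normalising enough matrices over a subfield `K` consists of scalar multiples of matrices
over `K`.
-/

set_option autoImplicit false
set_option linter.style.haveILetI false

namespace Cfsg.Agent.Helper5.GMax

open Cfsg.Agent.Helper41 Cfsg.Agent.Helper41.Dk Cfsg.Agent.Helper5.PMax Matrix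

variable {F : Type*} [Field F]

local notation "SL2" => Matrix.SpecialLinearGroup (Fin 2) F
local notation "PGL2" => Matrix.ProjGenLinGroup (Fin 2) F

/-! ### the centraliser of a quaternion pair -/

theorem mat_sq_neg_one (A : Matrix (Fin 2) (Fin 2) F) (hA : A.trace = 0) (hdA : A.det = 1) :
    A * A = -1 := by
  rw [Matrix.trace_fin_two] at hA
  rw [Matrix.det_fin_two] at hdA
  have h11 : A 1 1 = -A 0 0 := by linear_combination hA
  rw [h11] at hdA
  ext i j
  fin_cases i <;> fin_cases j <;>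
    simp only [Matrix.mul_apply, Fin.sum_univ_two, h11, Fin.zero_eta, Fin.isValue, Fin.mk_one,
      Matrix.neg_apply, Matrix.one_apply_eq, Matrix.one_apply_ne, ne_eq, one_ne_zero,
      zero_ne_one, not_false_eq_true, neg_zero]
  · linear_combination (-1 : F) * hdA
  · ring
  · ring
  · linear_combination (-1 : F) * hdA

/-- a matrix commuting with an anticommuting pair of trace `0` and determinant `1` is scalar. -/
theorem mat_comm_scalar (h2 : (2 : F) ≠ 0) (A B g : Matrix (Fin 2) (Fin 2) F)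
    (hA : A.trace = 0) (hdA : A.det = 1) (hB : B.trace = 0) (hdB : B.det = 1)
    (hAB : A * B = -(B * A)) (hgA : g * A = A * g) (hgB : g * B = B * g) :
    ∃ u : F, g = u • (1 : Matrix (Fin 2) (Fin 2) F) := by
  rw [Matrix.trace_fin_two] at hA hB
  rw [Matrix.det_fin_two] at hdA hdB
  have a11 : A 1 1 = -A 0 0 := by linear_combination hA
  have b11 : B 1 1 = -B 0 0 := by linear_combination hB
  rw [a11] at hdA
  rw [b11] at hdB
  have t0 := congrFun (congrFun hAB 0) 0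
  have eA0 := congrFun (congrFun hgA 0) 0
  have eA1 := congrFun (congrFun hgA 0) 1
  have eA2 := congrFun (congrFun hgA 1) 0
  have eB0 := congrFun (congrFun hgB 0) 0
  have eB1 := congrFun (congrFun hgB 0) 1
  have eB2 := congrFun (congrFun hgB 1) 0
  simp only [Matrix.mul_apply, Fin.sum_univ_two, Matrix.neg_apply, a11] at t0 eA0 eA1 eA2
  simp only [Matrix.mul_apply, Fin.sum_univ_two, b11] at eB0 eB1 eB2
  -- `τ_A = δ a₁ + y a₃ + z a₂`
  have hyA : 2 * g 0 1 = -((g 0 0 - g 1 1) * A 0 0 + g 0 1 * A 1 0 + g 1 0 * A 0 1) * A 0 1 := by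
    linear_combination (A 0 0) * eA1 - A 0 1 * eA0 - 2 * g 0 1 * hdA
  have hzA : 2 * g 1 0 = -((g 0 0 - g 1 1) * A 0 0 + g 0 1 * A 1 0 + g 1 0 * A 0 1) * A 1 0 := by
    linear_combination (-A 0 0) * eA2 + A 1 0 * eA0 - 2 * g 1 0 * hdA
  have hdA' : 2 * (g 0 0 - g 1 1) =
      -2 * ((g 0 0 - g 1 1) * A 0 0 + g 0 1 * A 1 0 + g 1 0 * A 0 1) * A 0 0 := by
    linear_combination (-A 1 0) * eA1 + (A 0 1) * eA2 - 2 * (g 0 0 - g 1 1) * hdA
  have hyB : 2 * g 0 1 = -((g 0 0 - g 1 1) * B 0 0 + g 0 1 * B 1 0 + g 1 0 * B 0 1) * B 0 1 := by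
    linear_combination (B 0 0) * eB1 - B 0 1 * eB0 - 2 * g 0 1 * hdB
  have hzB : 2 * g 1 0 = -((g 0 0 - g 1 1) * B 0 0 + g 0 1 * B 1 0 + g 1 0 * B 0 1) * B 1 0 := by
    linear_combination (-B 0 0) * eB2 + B 1 0 * eB0 - 2 * g 1 0 * hdB
  have hdB' : 2 * (g 0 0 - g 1 1) =
      -2 * ((g 0 0 - g 1 1) * B 0 0 + g 0 1 * B 1 0 + g 1 0 * B 0 1) * B 0 0 := by
    linear_combination (-B 1 0) * eB1 + (B 0 1) * eB2 - 2 * (g 0 0 - g 1 1) * hdB
  have hτ : (g 0 0 - g 1 1) * A 0 0 + g 0 1 * A 1 0 + g 1 0 * A 0 1 = 0 := by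
    have h : 2 * (2 * ((g 0 0 - g 1 1) * A 0 0 + g 0 1 * A 1 0 + g 1 0 * A 0 1)) = 0 := by
      linear_combination (2 * A 0 0) * hdB' + 2 * A 1 0 * hyB + 2 * A 0 1 * hzB
        - 2 * ((g 0 0 - g 1 1) * B 0 0 + g 0 1 * B 1 0 + g 1 0 * B 0 1) * t0
    exact (mul_eq_zero.mp ((mul_eq_zero.mp h).resolve_left h2)).resolve_left h2
  rw [hτ] at hyA hzA hdA'
  have hy : g 0 1 = 0 := by
    have h : 2 * g 0 1 = 0 := by linear_combination hyA
    exact (mul_eq_zero.mp h).resolve_left h2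
  have hz : g 1 0 = 0 := by
    have h : 2 * g 1 0 = 0 := by linear_combination hzA
    exact (mul_eq_zero.mp h).resolve_left h2
  refine ⟨g 0 0, ?_⟩
  ext i j
  have hd : g 0 0 - g 1 1 = 0 := by
    have h : 2 * (g 0 0 - g 1 1) = 0 := by linear_combination hdA'
    exact (mul_eq_zero.mp h).resolve_left h2
  fin_cases i <;> fin_cases j <;> simp [hy, hz]
  linear_combination (-1 : F) * hd

/-- a matrix commuting up to sign with an anticommuting pair is a scalar multiple of `1`, `A`,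
`B` or `A B`. -/
theorem mat_comm_cases (h2 : (2 : F) ≠ 0) (A B g : Matrix (Fin 2) (Fin 2) F)
    (hA : A.trace = 0) (hdA : A.det = 1) (hB : B.trace = 0) (hdB : B.det = 1)
    (hAB : A * B = -(B * A))
    (hgA : g * A = A * g ∨ g * A = -(A * g)) (hgB : g * B = B * g ∨ g * B = -(B * g)) :
    ∃ u : F, g = u • (1 : Matrix (Fin 2) (Fin 2) F) ∨ g = u • A ∨ g = u • B ∨
      g = u • (A * B) := by
  have hAA := mat_sq_neg_one A hA hdA
  have hBB := mat_sq_neg_one B hB hdB
  have hBA : B * A = -(A * B) := by rw [hAB, neg_neg]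
  rcases hgA with hgA | hgA <;> rcases hgB with hgB | hgB
  · obtain ⟨u, hu⟩ := mat_comm_scalar h2 A B g hA hdA hB hdB hAB hgA hgB
    exact ⟨u, Or.inl hu⟩
  · have c1 : (g * A) * A = A * (g * A) := by
      calc (g * A) * A = (A * g) * A := by rw [hgA]
        _ = A * (g * A) := Matrix.mul_assoc _ _ _
    have c2 : (g * A) * B = B * (g * A) := by
      calc (g * A) * B = g * (A * B) := Matrix.mul_assoc _ _ _
        _ = -(g * (B * A)) := by rw [hAB, Matrix.mul_neg]
        _ = -((g * B) * A) := by rw [Matrix.mul_assoc]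
        _ = (B * g) * A := by rw [hgB, Matrix.neg_mul, neg_neg]
        _ = B * (g * A) := Matrix.mul_assoc _ _ _
    obtain ⟨u, hu⟩ := mat_comm_scalar h2 A B (g * A) hA hdA hB hdB hAB c1 c2
    refine ⟨-u, Or.inr (Or.inl ?_)⟩
    have e : g = -((g * A) * A) := by
      rw [Matrix.mul_assoc, hAA, Matrix.mul_neg, Matrix.mul_one, neg_neg]
    rw [e, hu, Matrix.smul_mul, Matrix.one_mul, neg_smul]
  · have c1 : (g * B) * A = A * (g * B) := by
      calc (g * B) * A = g * (B * A) := Matrix.mul_assoc _ _ _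
        _ = -(g * (A * B)) := by rw [hBA, Matrix.mul_neg]
        _ = -((g * A) * B) := by rw [Matrix.mul_assoc]
        _ = (A * g) * B := by rw [hgA, Matrix.neg_mul, neg_neg]
        _ = A * (g * B) := Matrix.mul_assoc _ _ _
    have c2 : (g * B) * B = B * (g * B) := by
      calc (g * B) * B = (B * g) * B := by rw [hgB]
        _ = B * (g * B) := Matrix.mul_assoc _ _ _
    obtain ⟨u, hu⟩ := mat_comm_scalar h2 A B (g * B) hA hdA hB hdB hAB c1 c2
    refine ⟨-u, Or.inr (Or.inr (Or.inl ?_))⟩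
    have e : g = -((g * B) * B) := by
      rw [Matrix.mul_assoc, hBB, Matrix.mul_neg, Matrix.mul_one, neg_neg]
    rw [e, hu, Matrix.smul_mul, Matrix.one_mul, neg_smul]
  · have c1 : (g * (A * B)) * A = A * (g * (A * B)) := by
      calc (g * (A * B)) * A = g * (A * (B * A)) := by simp only [Matrix.mul_assoc]
        _ = -(g * (A * (A * B))) := by rw [hBA, Matrix.mul_neg, Matrix.mul_neg]
        _ = -((g * A) * (A * B)) := by simp only [Matrix.mul_assoc]
        _ = (A * g) * (A * B) := by rw [hgA, Matrix.neg_mul, neg_neg]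
        _ = A * (g * (A * B)) := Matrix.mul_assoc _ _ _
    have c2 : (g * (A * B)) * B = B * (g * (A * B)) := by
      symm
      calc B * (g * (A * B)) = (B * g) * (A * B) := (Matrix.mul_assoc _ _ _).symm
        _ = -((g * B) * (A * B)) := by
            have : B * g = -(g * B) := by rw [hgB, neg_neg]
            rw [this, Matrix.neg_mul]
        _ = -(g * ((B * A) * B)) := by simp only [Matrix.mul_assoc]
        _ = g * ((A * B) * B) := by rw [hBA, Matrix.neg_mul, Matrix.mul_neg, neg_neg]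
        _ = (g * (A * B)) * B := (Matrix.mul_assoc _ _ _).symm
    obtain ⟨u, hu⟩ := mat_comm_scalar h2 A B (g * (A * B)) hA hdA hB hdB hAB c1 c2
    refine ⟨-u, Or.inr (Or.inr (Or.inr ?_))⟩
    have hABAB : (A * B) * (A * B) = -1 := by
      calc (A * B) * (A * B) = A * ((B * A) * B) := by simp only [Matrix.mul_assoc]
        _ = -(A * A * (B * B)) := by
            rw [hBA, Matrix.neg_mul, Matrix.mul_neg]; simp only [Matrix.mul_assoc]
        _ = -1 := by rw [hAA, hBB]; simp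
    have e : g = -((g * (A * B)) * (A * B)) := by
      rw [Matrix.mul_assoc, hABAB, Matrix.mul_neg, Matrix.mul_one, neg_neg]
    rw [e, hu, Matrix.smul_mul, Matrix.one_mul, neg_smul]

/-- the centraliser in `PGL₂(F)` of the Klein four-group generated by the images of an
anticommuting pair. -/
theorem klein_centralizer (h2 : (2 : F) ≠ 0) (A B : SL2) (htA : tr A = 0) (htB : tr B = 0)
    (hAB : A.1 * B.1 = -(B.1 * A.1)) (c : PGL2) (hcA : c * tP A = tP A * c)
    (hcB : c * tP B = tP B * c) : c = 1 ∨ c = tP A ∨ c = tP B ∨ c = tP (A * B) := by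
  obtain ⟨g, hg, rfl⟩ := exists_mkQ c
  have key : ∀ X : SL2, mkQ g hg * tP X = tP X * mkQ g hg →
      g * X.1 = X.1 * g ∨ g * X.1 = -(X.1 * g) := by
    intro X hX
    rw [tP_eq, mkQ_mul _ _ _ _ (by rw [Matrix.det_mul]; exact mul_ne_zero hg (sl_det_ne X)),
      mkQ_mul _ _ _ _ (by rw [Matrix.det_mul]; exact mul_ne_zero (sl_det_ne X) hg),
      mkQ_eq_iff] at hX
    obtain ⟨u, hu, hX⟩ := hX
    have hd := congrArg Matrix.det hX
    rw [Matrix.det_mul, Matrix.det_smul, Matrix.det_mul, X.2, Fintype.card_fin] at hd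
    have hu2 : u ^ 2 = 1 := by
      have h1 : g.det * (u ^ 2 - 1) = 0 := by linear_combination (-1 : F) * hd
      have := (mul_eq_zero.mp h1).resolve_left hg
      linear_combination this
    have hu3 : (u - 1) * (u + 1) = 0 := by linear_combination hu2
    rcases mul_eq_zero.mp hu3 with h1 | h1
    · left
      have : u = 1 := by linear_combination h1
      rw [hX, this, one_smul]
    · right
      have : u = -1 := by linear_combination h1
      rw [hX, this, neg_smul, one_smul, neg_neg]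
  have hA' : (A.1 : Matrix (Fin 2) (Fin 2) F).trace = 0 := htA
  have hB' : (B.1 : Matrix (Fin 2) (Fin 2) F).trace = 0 := htB
  obtain ⟨u, hu⟩ := mat_comm_cases h2 A.1 B.1 g hA' A.2 hB' B.2 hAB (key A hcA) (key B hcB)
  have hu0 : u ≠ 0 := by
    rintro rfl
    rcases hu with h | h | h | h <;> rw [h, zero_smul] at hg <;> simp at hg
  rcases hu with h | h | h | h
  · left
    rw [mkQ_eq_one_iff]
    exact ⟨u, hu0, h⟩
  · right; left
    rw [tP_eq]
    subst h
    exact mkQ_smul _ _ u hu0 _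
  · right; right; left
    rw [tP_eq]
    subst h
    exact mkQ_smul _ _ u hu0 _
  · right; right; right
    rw [tP_eq]
    subst h
    exact mkQ_smul _ _ u hu0 _

/-! ### the subfield lemma -/

/-- if conjugation by `R` sends the two elementary nilpotent matrices to matrices over `K`,
then `R` is a scalar multiple of a matrix over `K`. -/
theorem scal_memK (K : Subfield F) (R N N' : Matrix (Fin 2) (Fin 2) F) (hR : R.det ≠ 0)
    (hN : MemK K N) (hN' : MemK K N')
    (h1 : R * N = !![0, 1; 0, 0] * R) (h2 : R * N' = !![0, 0; 1, 0] * R) :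
    ∃ μ : F, μ ≠ 0 ∧ MemK K (μ • R) := by
  rw [Matrix.det_fin_two] at hR
  have e00 := congrFun (congrFun h1 0) 0
  have e01 := congrFun (congrFun h1 0) 1
  have e10 := congrFun (congrFun h1 1) 0
  have e11 := congrFun (congrFun h1 1) 1
  have f00 := congrFun (congrFun h2 0) 0
  have f01 := congrFun (congrFun h2 0) 1
  have f10 := congrFun (congrFun h2 1) 0
  have f11 := congrFun (congrFun h2 1) 1
  simp [Matrix.mul_apply, Fin.sum_univ_two] at e00 e01 e10 e11 f00 f01 f10 f11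
  -- the entries of `N` and `N'`
  have n00 : (R 0 0 * R 1 1 - R 0 1 * R 1 0) * N 0 0 = R 1 0 * R 1 1 := by
    linear_combination R 1 1 * e00 - R 0 1 * e10
  have n01 : (R 0 0 * R 1 1 - R 0 1 * R 1 0) * N 0 1 = R 1 1 ^ 2 := by
    linear_combination R 1 1 * e01 - R 0 1 * e11
  have n10 : (R 0 0 * R 1 1 - R 0 1 * R 1 0) * N 1 0 = -R 1 0 ^ 2 := by
    linear_combination R 0 0 * e10 - R 1 0 * e00
  have n11 : (R 0 0 * R 1 1 - R 0 1 * R 1 0) * N 1 1 = -(R 1 0 * R 1 1) := by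
    linear_combination R 0 0 * e11 - R 1 0 * e01
  have m00 : (R 0 0 * R 1 1 - R 0 1 * R 1 0) * N' 0 0 = -(R 0 0 * R 0 1) := by
    linear_combination R 1 1 * f00 - R 0 1 * f10
  have m01 : (R 0 0 * R 1 1 - R 0 1 * R 1 0) * N' 0 1 = -R 0 1 ^ 2 := by
    linear_combination R 1 1 * f01 - R 0 1 * f11
  have m10 : (R 0 0 * R 1 1 - R 0 1 * R 1 0) * N' 1 0 = R 0 0 ^ 2 := by
    linear_combination R 0 0 * f10 - R 1 0 * f00
  have m11 : (R 0 0 * R 1 1 - R 0 1 * R 1 0) * N' 1 1 = R 0 0 * R 0 1 := by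
    linear_combination R 0 0 * f11 - R 1 0 * f01
  have key : ∀ n v : F, (R 0 0 * R 1 1 - R 0 1 * R 1 0) * n = v → n ∈ K →
      v / (R 0 0 * R 1 1 - R 0 1 * R 1 0) ∈ K := by
    intro n v h hn
    rw [← h, mul_div_cancel_left₀ _ hR]
    exact hn
  have paa := key _ _ m10 (hN' 1 0)
  have pab := key _ _ m11 (hN' 1 1)
  have pbb : R 0 1 ^ 2 / (R 0 0 * R 1 1 - R 0 1 * R 1 0) ∈ K := by
    have := key _ _ m01 (hN' 0 1)
    rw [neg_div] at this
    simpa using K.neg_mem this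
  have pNN := memK_mul K hN hN'
  have pad : R 0 0 * R 1 1 / (R 0 0 * R 1 1 - R 0 1 * R 1 0) ∈ K := by
    have h := pNN 0 0
    have e : (N * N') 0 0 = R 0 0 * R 1 1 / (R 0 0 * R 1 1 - R 0 1 * R 1 0) := by
      rw [Matrix.mul_apply, Fin.sum_univ_two, eq_div_iff hR]
      have : (N 0 0 * N' 0 0 + N 0 1 * N' 1 0) * (R 0 0 * R 1 1 - R 0 1 * R 1 0) *
          (R 0 0 * R 1 1 - R 0 1 * R 1 0) =
          R 0 0 * R 1 1 * (R 0 0 * R 1 1 - R 0 1 * R 1 0) := by
        linear_combination ((R 0 0 * R 1 1 - R 0 1 * R 1 0) * N' 0 0) * n00 +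
          (R 1 0 * R 1 1) * m00 + ((R 0 0 * R 1 1 - R 0 1 * R 1 0) * N' 1 0) * n01 +
          R 1 1 ^ 2 * m10
      exact mul_right_cancel₀ hR this
    rwa [e] at h
  have pbd : R 0 1 * R 1 1 / (R 0 0 * R 1 1 - R 0 1 * R 1 0) ∈ K := by
    have h := pNN 0 1
    have e : (N * N') 0 1 = R 0 1 * R 1 1 / (R 0 0 * R 1 1 - R 0 1 * R 1 0) := by
      rw [Matrix.mul_apply, Fin.sum_univ_two, eq_div_iff hR]
      have : (N 0 0 * N' 0 1 + N 0 1 * N' 1 1) * (R 0 0 * R 1 1 - R 0 1 * R 1 0) *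
          (R 0 0 * R 1 1 - R 0 1 * R 1 0) =
          R 0 1 * R 1 1 * (R 0 0 * R 1 1 - R 0 1 * R 1 0) := by
        linear_combination ((R 0 0 * R 1 1 - R 0 1 * R 1 0) * N' 0 1) * n00 +
          (R 1 0 * R 1 1) * m01 + ((R 0 0 * R 1 1 - R 0 1 * R 1 0) * N' 1 1) * n01 +
          R 1 1 ^ 2 * m11
      exact mul_right_cancel₀ hR this
    rwa [e] at h
  have pac : R 0 0 * R 1 0 / (R 0 0 * R 1 1 - R 0 1 * R 1 0) ∈ K := by
    have h := pNN 1 0
    have e : (N * N') 1 0 = -(R 0 0 * R 1 0 / (R 0 0 * R 1 1 - R 0 1 * R 1 0)) := by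
      rw [Matrix.mul_apply, Fin.sum_univ_two, ← neg_div, eq_div_iff hR]
      have : (N 1 0 * N' 0 0 + N 1 1 * N' 1 0) * (R 0 0 * R 1 1 - R 0 1 * R 1 0) *
          (R 0 0 * R 1 1 - R 0 1 * R 1 0) =
          -(R 0 0 * R 1 0) * (R 0 0 * R 1 1 - R 0 1 * R 1 0) := by
        linear_combination ((R 0 0 * R 1 1 - R 0 1 * R 1 0) * N' 0 0) * n10 +
          (-R 1 0 ^ 2) * m00 + ((R 0 0 * R 1 1 - R 0 1 * R 1 0) * N' 1 0) * n11 +
          (-(R 1 0 * R 1 1)) * m10
      exact mul_right_cancel₀ hR this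
    rw [e] at h
    simpa using K.neg_mem h
  have pbc : R 0 1 * R 1 0 / (R 0 0 * R 1 1 - R 0 1 * R 1 0) ∈ K := by
    have h := pNN 1 1
    have e : (N * N') 1 1 = -(R 0 1 * R 1 0 / (R 0 0 * R 1 1 - R 0 1 * R 1 0)) := by
      rw [Matrix.mul_apply, Fin.sum_univ_two, ← neg_div, eq_div_iff hR]
      have : (N 1 0 * N' 0 1 + N 1 1 * N' 1 1) * (R 0 0 * R 1 1 - R 0 1 * R 1 0) *
          (R 0 0 * R 1 1 - R 0 1 * R 1 0) =
          -(R 0 1 * R 1 0) * (R 0 0 * R 1 1 - R 0 1 * R 1 0) := by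
        linear_combination ((R 0 0 * R 1 1 - R 0 1 * R 1 0) * N' 0 1) * n10 +
          (-R 1 0 ^ 2) * m01 + ((R 0 0 * R 1 1 - R 0 1 * R 1 0) * N' 1 1) * n11 +
          (-(R 1 0 * R 1 1)) * m11
      exact mul_right_cancel₀ hR this
    rw [e] at h
    simpa using K.neg_mem h
  by_cases ha : R 0 0 = 0
  · have hb : R 0 1 ≠ 0 := by
      intro hb
      apply hR
      rw [ha, hb]; ring
    refine ⟨R 0 1 / (R 0 0 * R 1 1 - R 0 1 * R 1 0), div_ne_zero hb hR, ?_⟩
    rw [memK_iff]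
    simp only [Matrix.smul_apply, smul_eq_mul]
    refine ⟨?_, ?_, ?_, ?_⟩
    · rw [ha, mul_zero]; exact K.zero_mem
    · rw [div_mul_eq_mul_div, ← pow_two]; exact pbb
    · rw [div_mul_eq_mul_div]; exact pbc
    · rw [div_mul_eq_mul_div]; exact pbd
  · refine ⟨R 0 0 / (R 0 0 * R 1 1 - R 0 1 * R 1 0), div_ne_zero ha hR, ?_⟩
    rw [memK_iff]
    simp only [Matrix.smul_apply, smul_eq_mul]
    refine ⟨?_, ?_, ?_, ?_⟩
    · rw [div_mul_eq_mul_div, ← pow_two]; exact paa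
    · rw [div_mul_eq_mul_div]; exact pab
    · rw [div_mul_eq_mul_div]; exact pac
    · rw [div_mul_eq_mul_div]; exact pad

/-! ### the subgroup `PGL₂(K)` of `PGL₂(F)` -/

section sub

variable {K : Type*} [Field K] (φ : K →+* F) (K0 : Subfield F)

theorem mkQ_mem_range (hφ : ∀ c : F, c ∈ K0 ↔ ∃ k : K, φ k = c)
    (Q : Matrix (Fin 2) (Fin 2) F) (hQ : Q.det ≠ 0) (μ : F) (hμ : μ ≠ 0)
    (h : MemK K0 (μ • Q)) : mkQ Q hQ ∈ (Cfsg.Agent.S0805.pglMap φ).range := by
  obtain ⟨Q', hQ'⟩ := exists_lift φ K0 hφ _ h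
  have hdet' : (μ • Q).det ≠ 0 := by
    rw [Matrix.det_smul, Fintype.card_fin]; exact mul_ne_zero (pow_ne_zero _ hμ) hQ
  have hdet : Q'.det ≠ 0 := by
    intro h0
    have h2 := det_lift φ _ Q' hQ'
    rw [h0, map_zero] at h2
    exact hdet' h2.symm
  refine ⟨Matrix.ProjGenLinGroup.mk (Matrix.GeneralLinearGroup.mkOfDetNeZero Q' hdet), ?_⟩
  rw [Cfsg.Agent.S0805.pglMap_mk, ← mkQ_smul Q hQ μ hμ hdet']
  unfold mkQ
  congr 1
  apply Units.ext
  ext i j
  rw [show (Matrix.GeneralLinearGroup.map φ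
      (Matrix.GeneralLinearGroup.mkOfDetNeZero Q' hdet)).val i j = φ (Q' i j) from
    Matrix.GeneralLinearGroup.map_apply φ i j _]
  exact hQ' i j

theorem of_mkQ_mem_range (hφ : ∀ c : F, c ∈ K0 ↔ ∃ k : K, φ k = c)
    (Q : Matrix (Fin 2) (Fin 2) F) (hQ : Q.det ≠ 0)
    (h : mkQ Q hQ ∈ (Cfsg.Agent.S0805.pglMap φ).range) : ∃ μ : F, μ ≠ 0 ∧ MemK K0 (μ • Q) := by
  obtain ⟨x, hx⟩ := h
  induction x using Matrix.ProjGenLinGroup.induction_on with | mk g =>
  rw [Cfsg.Agent.S0805.pglMap_mk] at hx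
  have hdet : ((Matrix.GeneralLinearGroup.map φ g).val).det ≠ 0 :=
    ((Matrix.isUnit_iff_isUnit_det _).mp (Matrix.GeneralLinearGroup.map φ g).isUnit).ne_zero
  have e : Matrix.ProjGenLinGroup.mk (Matrix.GeneralLinearGroup.map φ g) =
      mkQ (Matrix.GeneralLinearGroup.map φ g).val hdet := by
    unfold mkQ
    congr 1
    apply Units.ext
    rfl
  rw [e, mkQ_eq_iff] at hx
  obtain ⟨u, hu, rfl⟩ := hx
  refine ⟨u⁻¹, inv_ne_zero hu, ?_⟩
  intro i j
  rw [smul_smul, inv_mul_cancel₀ hu, one_smul,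
    show (Matrix.GeneralLinearGroup.map φ g).val i j = φ (g.val i j) from
      Matrix.GeneralLinearGroup.map_apply φ i j g]
  exact (hφ _).mpr ⟨_, rfl⟩

theorem upper_det (c : F) : (!![1, c; 0, 1] : Matrix (Fin 2) (Fin 2) F).det ≠ 0 := by
  simp [Matrix.det_fin_two]

theorem mem_of_upper (c μ : F) (hμ : μ ≠ 0) (h : MemK K0 (μ • (!![1, c; 0, 1] : Matrix (Fin 2) (Fin 2) F))) :
    c ∈ K0 := by
  have h00 := h 0 0
  have h01 := h 0 1
  simp only [Matrix.smul_apply, smul_eq_mul, Matrix.of_apply, Matrix.cons_val_zero,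
    Matrix.cons_val_one, mul_one] at h00 h01
  have := K0.mul_mem (K0.inv_mem h00) h01
  rwa [← mul_assoc, inv_mul_cancel₀ hμ, one_mul] at this

theorem range_ne_top (hφ : ∀ c : F, c ∈ K0 ↔ ∃ k : K, φ k = c) (c : F) (hc : c ∉ K0) :
    (Cfsg.Agent.S0805.pglMap φ).range ≠ ⊤ := by
  intro h
  have h1 : mkQ !![1, c; 0, 1] (upper_det c) ∈ (Cfsg.Agent.S0805.pglMap φ).range := by
    rw [h]; trivial
  obtain ⟨μ, hμ, hm⟩ := of_mkQ_mem_range φ K0 hφ _ _ h1
  exact hc (mem_of_upper K0 c μ hμ hm)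

end sub

/-- if `[F : K₀] = 2` then every element of `K₀` is a square in `F`. -/
theorem sq_of_mem_quad [Fintype F] (p : ℕ) [Fact p.Prime] [CharP F p]
    (hodd : Odd (Fintype.card F)) (K0 : Subfield F) (hF : Fintype.card F = Nat.card K0 ^ 2)
    (x : F) (hx : x ∈ K0) : ∃ δ : F, x = δ ^ 2 := by
  by_cases hx0 : x = 0
  · exact ⟨0, by rw [hx0]; ring⟩
  obtain ⟨a, ha, hK⟩ := exists_card_subfield p K0
  have h2 := two_ne_zero' hodd
  have hchar : ringChar F ≠ 2 := by
    intro h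
    apply h2
    haveI := ringChar.charP F
    have := CharP.cast_eq_zero F (ringChar F)
    rw [h] at this
    exact_mod_cast this
  have hkodd : Odd (Nat.card K0) := by
    rw [hF] at hodd
    exact odd_of_odd_pow _ 2 (by norm_num) hodd
  obtain ⟨j, hj⟩ := hkodd
  have h1 : x ^ (Nat.card K0 - 1) = 1 := by
    have h3 := pow_card_of_mem p K0 a hK x hx
    rw [← hK] at h3
    have h4 : x ^ (Nat.card K0 - 1) * x = x := by
      rw [← pow_succ, Nat.sub_add_cancel (by omega)]; exact h3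
    exact mul_right_cancel₀ hx0 (by rw [h4, one_mul])
  have h5 : Fintype.card F / 2 = (Nat.card K0 - 1) * (j + 1) := by
    rw [hF, hj]
    have e1 : (2 * j + 1) ^ 2 = 2 * (2 * j * (j + 1)) + 1 := by ring
    have e2 : 2 * j + 1 - 1 = 2 * j := by omega
    rw [e1, e2]
    omega
  have h6 : IsSquare x :=
    (FiniteField.isSquare_iff hchar hx0).mpr (by rw [h5, pow_mul, h1, one_pow])
  obtain ⟨δ, hδ⟩ := h6
  exact ⟨δ, by rw [hδ, pow_two]⟩

/-- **the subfield conclusion**: a maximal subgroup all of whose elements are represented by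
scalar multiples of matrices over a proper subfield `K₀` is `PGL₂(K₀)`, and `[F : K₀]` is an odd
prime. -/
theorem sub_concl [Fintype F] (p : ℕ) [Fact p.Prime] [CharP F p] {M : Subgroup PGL2}
    (D : MaxData M) (K0 : Subfield F) (c0 : F) (hc0 : c0 ∉ K0)
    (hM : ∀ (Q : Matrix (Fin 2) (Fin 2) F) (hQ : Q.det ≠ 0), mkQ Q hQ ∈ M →
      ∃ μ : F, μ ≠ 0 ∧ MemK K0 (μ • Q)) : Goal5 M := by
  classical
  obtain ⟨K, hKf, hKfin, m, φ, hcard, hφ⟩ := exists_small_field p K0
  have hle : M ≤ (Cfsg.Agent.S0805.pglMap φ).range := by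
    intro x hx
    obtain ⟨Q, hQ, rfl⟩ := exists_mkQ x
    obtain ⟨μ, hμ, h⟩ := hM Q hQ hx
    exact mkQ_mem_range φ K0 hφ Q hQ μ hμ h
  have hMeq : (Cfsg.Agent.S0805.pglMap φ).range = M :=
    (D.co.le_iff.mp hle).resolve_left (range_ne_top φ K0 hφ c0 hc0)
  have e : M ≃* Matrix.ProjGenLinGroup (Fin 2) K :=
    (MulEquiv.subgroupCongr hMeq.symm).trans
      (MonoidHom.ofInjective (Cfsg.Agent.S0805.pglMap_injective φ)).symm
  have hcK : Fintype.card K = Nat.card K0 := by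
    rw [← Nat.card_eq_fintype_card]
    apply Nat.card_congr
    refine Equiv.ofBijective (fun k => (⟨φ k, (hφ _).mpr ⟨k, rfl⟩⟩ : K0)) ⟨?_, ?_⟩
    · intro x y hxy
      exact φ.injective (congrArg Subtype.val hxy)
    · rintro ⟨c, hc⟩
      obtain ⟨k, hk⟩ := (hφ c).mp hc
      exact ⟨k, Subtype.ext hk⟩
  obtain ⟨a, ha, hK⟩ := exists_card_subfield p K0
  have hp1 : 1 < p := (Fact.out : p.Prime).one_lt
  have hq : Fintype.card F = p ^ (a * m) := by rw [← hcard, hcK, hK, pow_mul]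
  have hm1 : m ≠ 1 := by
    rintro rfl
    rw [pow_one, hcK] at hcard
    have hbij := (Subtype.val_injective (p := fun x : F => x ∈ K0)).bijective_of_nat_card_le
      (by rw [Nat.card_eq_fintype_card (α := F), hcard])
    obtain ⟨y, hy⟩ := hbij.2 c0
    apply hc0
    rw [← hy]; exact y.2
  have hm0 : m ≠ 0 := by
    rintro rfl
    rw [pow_zero] at hcard
    have : 1 < Fintype.card F := Fintype.one_lt_card
    omega
  have hmp : m.Prime := by
    by_contra hnp
    obtain ⟨d, hd, hd2, hdm⟩ := Nat.exists_dvd_of_not_prime2 (by omega) hnp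
    have hcard1 := card_fixF (F := F) p (a * m) (a * d) hq (Nat.mul_dvd_mul_left a hd)
      (Nat.mul_ne_zero ha (by omega))
    have hle01 : K0 ≤ fixF (F := F) p (a * d) := by
      intro x hx
      rw [mem_fixF, pow_mul]
      exact pow_iter x (p ^ a) d (pow_card_of_mem p K0 a hK x hx)
    obtain ⟨c1, hc1K, hc1⟩ : ∃ c1 : F, c1 ∈ fixF (F := F) p (a * d) ∧ c1 ∉ K0 := by
      by_contra hcon
      push Not at hcon
      have h1 : Nat.card (fixF (F := F) p (a * d)) ≤ Nat.card K0 :=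
        Nat.card_le_card_of_injective (fun x => (⟨x.1, hcon x.1 x.2⟩ : K0))
          (fun x y hxy => Subtype.ext (by have h' := congrArg Subtype.val hxy; exact h'))
      rw [hcard1, hK] at h1
      have h2 := (Nat.pow_le_pow_iff_right hp1).mp h1
      have h3 : a * 2 ≤ a * d := Nat.mul_le_mul_left a hd2
      have h4 : 0 < a := Nat.pos_of_ne_zero ha
      omega
    obtain ⟨c2, hc2⟩ : ∃ c2 : F, c2 ∉ fixF (F := F) p (a * d) := by
      by_contra hcon
      push Not at hcon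
      have h1 : Nat.card F ≤ Nat.card (fixF (F := F) p (a * d)) :=
        Nat.card_le_card_of_injective (fun x => (⟨x, hcon x⟩ : fixF (F := F) p (a * d)))
          (fun x y hxy => by have h' := congrArg Subtype.val hxy; exact h')
      rw [hcard1, Nat.card_eq_fintype_card, hq] at h1
      have h2 := (Nat.pow_le_pow_iff_right hp1).mp h1
      have h3 : a * d < a * m := Nat.mul_lt_mul_of_pos_left hdm (Nat.pos_of_ne_zero ha)
      omega
    obtain ⟨K', hK'f, hK'fin, m', φ', -, hφ'⟩ :=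
      exists_small_field p (fixF (F := F) p (a * d))
    have hle' : M ≤ (Cfsg.Agent.S0805.pglMap φ').range := by
      intro x hx
      obtain ⟨Q, hQ, rfl⟩ := exists_mkQ x
      obtain ⟨μ, hμ, h⟩ := hM Q hQ hx
      exact mkQ_mem_range φ' _ hφ' Q hQ μ hμ (fun i j => hle01 (h i j))
    have hMeq' : (Cfsg.Agent.S0805.pglMap φ').range = M :=
      (D.co.le_iff.mp hle').resolve_left (range_ne_top φ' _ hφ' c2 hc2)
    have h1 : mkQ !![1, c1; 0, 1] (upper_det c1) ∈ M := by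
      rw [← hMeq']
      apply mkQ_mem_range φ' _ hφ' _ _ 1 one_ne_zero
      rw [one_smul, memK_iff]
      simp only [Matrix.of_apply, Matrix.cons_val_zero, Matrix.cons_val_one]
      exact ⟨Subfield.one_mem _, hc1K, Subfield.zero_mem _, Subfield.one_mem _⟩
    obtain ⟨μ, hμ, hm⟩ := hM _ _ h1
    exact hc1 (mem_of_upper K0 c1 μ hμ hm)
  refine Or.inr (Or.inr (Or.inr (Or.inr
    ⟨K, hKf, hKfin, m, hmp, hmp.odd_of_ne_two ?_, hcard.symm, ⟨e⟩⟩)))
  rintro rfl
  apply D.nL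
  have hML : M ≤ (tP (F := F)).range := by
    intro x hx
    obtain ⟨Q, hQ, rfl⟩ := exists_mkQ x
    obtain ⟨μ, hμ, h⟩ := hM Q hQ hx
    have hdK : (μ • Q).det ∈ K0 := by
      rw [Matrix.det_fin_two]
      exact K0.sub_mem (K0.mul_mem (h 0 0) (h 1 1)) (K0.mul_mem (h 0 1) (h 1 0))
    have hd0 : (μ • Q).det ≠ 0 := by
      rw [Matrix.det_smul, Fintype.card_fin]; exact mul_ne_zero (pow_ne_zero _ hμ) hQ
    obtain ⟨δ, hδ⟩ := sq_of_mem_quad p D.odd K0 (by rw [← hcard, hcK]) _ hdK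
    have hδ0 : δ ≠ 0 := by
      rintro rfl
      apply hd0
      rw [hδ]; ring
    have hs : (δ⁻¹ • (μ • Q)).det = 1 := by
      rw [Matrix.det_smul, Fintype.card_fin, hδ]
      field_simp
    obtain ⟨s, hs'⟩ : ∃ s : SL2, s.1 = δ⁻¹ • (μ • Q) := ⟨⟨_, hs⟩, rfl⟩
    refine ⟨s, ?_⟩
    rw [tP_eq]
    exact ((mkQ_eq_iff Q s.1 hQ (sl_det_ne s)).mpr
      ⟨δ⁻¹ * μ, mul_ne_zero (inv_ne_zero hδ0) hμ, by rw [hs', smul_smul]⟩).symm
  rcases D.co.le_iff.mp hML with h | h
  · exfalso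
    have h1 := index_range_tP (F := F) D.two
    rw [h, Subgroup.index_top] at h1
    omega
  · rw [h]

end Cfsg.Agent.Helper5.GMax
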