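import Mathlib
import Cfsg.Agent.Helper5.GMaxB
import Cfsg.Agent.Helper20.Recog

/-!
# Maximal subgroups of `PGL₂(q)`, part C (helper5)

The Borel case and the torus-normaliser case of Dickson's theorem for a maximal subgroup of
`PGL₂(F)` not containing `PSL₂(F)`.
-/

set_option autoImplicit false
set_option linter.style.haveILetI false

namespace Cfsg.Agent.Helper5.GMax

open Cfsg.Agent.Helper41 Cfsg.Agent.Helper41.Dk Cfsg.Agent.Helper5.PMax Matrix

variable {F : Type*} [Field F]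

local notation "SL2" => Matrix.SpecialLinearGroup (Fin 2) F
local notation "PGL2" => Matrix.ProjGenLinGroup (Fin 2) F

theorem conjGL_mul_eq (Q : Matrix (Fin 2) (Fin 2) F) (hQ : Q.det ≠ 0) (s : SL2) :
    Q * (conjGL Q hQ s).1 = s.1 * Q := by
  rw [conjGL_coe, ← Matrix.mul_assoc, ← Matrix.mul_assoc,
    Matrix.mul_nonsing_inv Q (isUnit_iff_ne_zero.mpr hQ), Matrix.one_mul]

/-- conjugation by a representative of an element of `M` preserves the preimage of `M`. -/
theorem conjGL_mem_pr (M : Subgroup PGL2) (Q : Matrix (Fin 2) (Fin 2) F) (hQ : Q.det ≠ 0)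
    (hm : mkQ Q hQ ∈ M) (s : SL2) (hs : s ∈ M.comap (tP (F := F))) :
    conjGL Q hQ s ∈ M.comap (tP (F := F)) := by
  rw [Subgroup.mem_comap, ← mkQ_conj]
  exact M.mul_mem (M.mul_mem (M.inv_mem hm) hs) hm

/-! ### the Borel case -/

/-- the image in `PGL₂(F)` of the upper triangular matrices. -/
def BG : Subgroup PGL2 where
  carrier := {c | ∀ (Q : Matrix (Fin 2) (Fin 2) F) (hQ : Q.det ≠ 0), c = mkQ Q hQ → Q 1 0 = 0}
  one_mem' := by
    intro Q hQ h
    obtain ⟨u, -, rfl⟩ := (mkQ_eq_one_iff Q hQ).mp h.symm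
    simp
  mul_mem' := by
    intro c₁ c₂ h₁ h₂ Q hQ h
    obtain ⟨Q₁, hQ₁, rfl⟩ := exists_mkQ c₁
    obtain ⟨Q₂, hQ₂, rfl⟩ := exists_mkQ c₂
    have e₁ := h₁ Q₁ hQ₁ rfl
    have e₂ := h₂ Q₂ hQ₂ rfl
    rw [mkQ_mul _ _ _ _ (by rw [Matrix.det_mul]; exact mul_ne_zero hQ₁ hQ₂), mkQ_eq_iff] at h
    obtain ⟨u, -, rfl⟩ := h
    simp [Matrix.mul_apply, Fin.sum_univ_two, e₁, e₂]
  inv_mem' := by
    intro c h Q hQ hc
    obtain ⟨Q₁, hQ₁, rfl⟩ := exists_mkQ c
    have e₁ := h Q₁ hQ₁ rfl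
    have h1 : mkQ Q₁ hQ₁ * mkQ Q hQ = 1 := by rw [← hc, mul_inv_cancel]
    rw [mkQ_mul _ _ _ _ (by rw [Matrix.det_mul]; exact mul_ne_zero hQ₁ hQ), mkQ_eq_one_iff] at h1
    obtain ⟨u, -, h1⟩ := h1
    have h2 := congrFun (congrFun h1 1) 0
    simp [Matrix.mul_apply, Fin.sum_univ_two, e₁] at h2
    rcases h2 with h2 | h2
    · exfalso
      apply hQ₁
      rw [Matrix.det_fin_two, e₁, h2]; ring
    · exact h2

theorem mem_BG (c : PGL2) : c ∈ (BG : Subgroup PGL2) ↔
    ∀ (Q : Matrix (Fin 2) (Fin 2) F) (hQ : Q.det ≠ 0), c = mkQ Q hQ → Q 1 0 = 0 := Iff.rfl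

theorem mkQ_mem_BG (Q : Matrix (Fin 2) (Fin 2) F) (hQ : Q.det ≠ 0) :
    mkQ Q hQ ∈ (BG : Subgroup PGL2) ↔ Q 1 0 = 0 := by
  constructor
  · intro h
    exact h Q hQ rfl
  · intro h R hR hc
    obtain ⟨u, -, rfl⟩ := (mkQ_eq_iff Q R hQ hR).mp hc
    simp [h]

theorem case_B0 [Fintype F] {M : Subgroup PGL2} (D : MaxData M)
    (hB : M.comap (tP (F := F)) ≤ Bor) : Goal5 M := by
  classical
  by_cases hsub : M ≤ (BG : Subgroup PGL2)
  · left
    have hne : (BG : Subgroup PGL2) ≠ ⊤ := by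
      intro h
      have hd : (!![0, 1; 1, 0] : Matrix (Fin 2) (Fin 2) F).det ≠ 0 := by
        simp [Matrix.det_fin_two]
      have h1 : mkQ !![0, 1; 1, 0] hd ∈ (BG : Subgroup PGL2) := by rw [h]; trivial
      rw [mkQ_mem_BG] at h1
      simp at h1
    have hMeq : (BG : Subgroup PGL2) = M := (D.co.le_iff.mp hsub).resolve_left hne
    have hpr : M.comap (tP (F := F)) = Bor := by
      apply le_antisymm hB
      intro b hb
      rw [Subgroup.mem_comap, ← hMeq, tP_eq, mkQ_mem_BG]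
      exact hb
    rw [← D.card_pr, hpr, card_Bor]
  · exfalso
    obtain ⟨x, hxM, hx⟩ := SetLike.not_le_iff_exists.mp hsub
    rw [mem_BG] at hx
    push Not at hx
    obtain ⟨Q, hQ, rfl, hQ10⟩ := hx
    obtain ⟨t, ht⟩ : ∃ t : F, t = Q 0 0 / Q 1 0 := ⟨_, rfl⟩
    -- the shape of the elements of the preimage
    have hshape : ∀ s ∈ M.comap (tP (F := F)), s.1 1 0 = 0 ∧
        s.1 0 1 = t * (s.1 1 1 - s.1 0 0) := by
      intro s hs
      have h10 : s.1 1 0 = 0 := hB hs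
      have h10' : (conjGL Q hQ s).1 1 0 = 0 := hB (conjGL_mem_pr M Q hQ hxM s hs)
      have hmul := conjGL_mul_eq Q hQ s
      have e00 := congrFun (congrFun hmul 0) 0
      have e10 := congrFun (congrFun hmul 1) 0
      simp only [Matrix.mul_apply, Fin.sum_univ_two, h10, h10', mul_zero, add_zero, zero_mul,
        zero_add] at e00 e10
      refine ⟨h10, ?_⟩
      have e1 : (conjGL Q hQ s).1 0 0 = s.1 1 1 := by
        have h : Q 1 0 * ((conjGL Q hQ s).1 0 0 - s.1 1 1) = 0 := by linear_combination e10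
        have := (mul_eq_zero.mp h).resolve_left hQ10
        linear_combination this
      rw [e1] at e00
      rw [ht]
      field_simp
      linear_combination (-1 : F) * e00
    obtain ⟨w, hw⟩ : ∃ w : SL2, w = mkSL t (-1 - t ^ 2) 1 (-t) (by ring) := ⟨_, rfl⟩
    have hwM : tP w ∈ M := by
      apply D.mem_of_normalizes
      intro s hs
      obtain ⟨h10, h01⟩ := hshape s hs
      have e : w * s * w⁻¹ = s⁻¹ := by
        rw [mul_inv_eq_iff_eq_mul]
        have hd := sl2_det s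
        rw [h10] at hd
        apply sl_ext
        · simp only [mul_e00, inv_e00, inv_e01, hw, mk_e00, mk_e01, mk_e10, h10, h01]; ring
        · simp only [mul_e01, inv_e00, inv_e01, hw, mk_e00, mk_e01, mk_e11, h10, h01]; ring
        · simp only [mul_e10, inv_e10, inv_e11, hw, mk_e00, mk_e10, mk_e11, h10, h01]; ring
        · simp only [mul_e11, inv_e10, inv_e11, hw, mk_e01, mk_e10, mk_e11, h10, h01]; ring
      rw [← map_inv, ← map_mul, ← map_mul, e, map_inv]
      exact M.inv_mem hs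
    have h1 : w.1 1 0 = 0 := hB hwM
    rw [hw, mk_e10] at h1
    exact one_ne_zero h1

theorem case_B [Fintype F] {M : Subgroup PGL2} (D : MaxData M) (v : Fin 2 → F) (hv : v ≠ 0)
    (hfix : ∀ g ∈ M.comap (tP (F := F)), ∃ c : F, g.1 *ᵥ v = c • v) : Goal5 M := by
  obtain ⟨Q0, hQ0⟩ := exists_conj_borel v hv
  apply goal5_cj (tP Q0)⁻¹
  apply case_B0 (D.cj _)
  intro s hs
  rw [Subgroup.mem_comap, mem_cj, inv_inv, ← map_inv, ← map_mul, ← map_mul] at hs
  have h1 := hQ0 _ (hfix _ hs)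
  have e : Q0⁻¹ * (Q0 * s * Q0⁻¹) * Q0 = s := by group
  rwa [e] at h1

end Cfsg.Agent.Helper5.GMax
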