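import Mathlib
import Cfsg.Agent.Helper5.GMaxC

/-!
# Maximal subgroups of `PGL₂(q)`, part D (helper5)

The torus-normaliser case of Dickson's theorem for a maximal subgroup of `PGL₂(F)` not
containing `PSL₂(F)`: such a subgroup is dihedral of order `2(q ∓ 1)`.
-/

set_option autoImplicit false
set_option linter.style.haveILetI false

namespace Cfsg.Agent.Helper5.GMax

open Cfsg.Agent.Helper41 Cfsg.Agent.Helper41.Dk Cfsg.Agent.Helper5.PMax Matrix

/-- recognition of a dihedral subgroup by its order. -/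
theorem dihedral_of_card {G : Type*} [Group G] (H : Subgroup G) [Finite H] (n : ℕ) [NeZero n]
    (u v : G) (huH : u ∈ H) (hvH : v ∈ H) (hu : orderOf u = n) (hv : v * v = 1)
    (huv : v * u * v⁻¹ = u⁻¹) (hvu : v ∉ Subgroup.zpowers u) (hcard : Nat.card H = 2 * n) :
    Nonempty (H ≃* DihedralGroup n) := by
  have hu' : u ^ n = 1 := by rw [← hu]; exact pow_orderOf_eq_one u
  obtain ⟨e⟩ := Cfsg.Agent.Helper20.nonempty_mulEquiv_dihedral_of
    (Cfsg.Agent.Helper20.dihedralHom n u v hu' hv huv).range n u v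
    ⟨DihedralGroup.r 1, Cfsg.Agent.Helper20.zp_one hu'⟩
    ⟨DihedralGroup.sr 0, by
      show v * Cfsg.Agent.Helper20.zp u 0 = v
      rw [Cfsg.Agent.Helper20.zp_zero, mul_one]⟩ hu hv huv hvu
    (by
      rintro _ ⟨(i | i), rfl⟩
      · exact ⟨i.val, Or.inl rfl⟩
      · exact ⟨i.val, Or.inr rfl⟩)
  have hle : (Cfsg.Agent.Helper20.dihedralHom n u v hu' hv huv).range ≤ H := by
    rintro _ ⟨(i | i), rfl⟩
    · exact pow_mem huH _
    · exact mul_mem hvH (pow_mem huH _)
  have hc : Nat.card (Cfsg.Agent.Helper20.dihedralHom n u v hu' hv huv).range = 2 * n := by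
    rw [Nat.card_congr e.toEquiv, DihedralGroup.nat_card]
  have heq : (Cfsg.Agent.Helper20.dihedralHom n u v hu' hv huv).range = H :=
    Subgroup.eq_of_le_of_card_ge hle (by rw [hc, hcard])
  exact ⟨(MulEquiv.subgroupCongr heq).symm.trans e⟩

variable {F : Type*} [Field F]

local notation "SL2" => Matrix.SpecialLinearGroup (Fin 2) F
local notation "PGL2" => Matrix.ProjGenLinGroup (Fin 2) F

theorem mkQ_pow (Q : Matrix (Fin 2) (Fin 2) F) (hQ : Q.det ≠ 0) (k : ℕ) (h : (Q ^ k).det ≠ 0) :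
    (mkQ Q hQ) ^ k = mkQ (Q ^ k) h := by
  induction k with
  | zero =>
    rw [pow_zero]
    have e : Q ^ 0 = 1 := pow_zero Q
    have h1 : (1 : Matrix (Fin 2) (Fin 2) F).det ≠ 0 := by simp
    rw [← mkQ_one h1]
    congr 1
  | succ k ih =>
    have hk : (Q ^ k).det ≠ 0 := by rw [Matrix.det_pow]; exact pow_ne_zero k hQ
    rw [pow_succ, ih hk, mkQ_mul _ _ _ _ (by rw [Matrix.det_mul]; exact mul_ne_zero hk hQ)]
    congr 1

theorem sq_mem_cen (x h : SL2) (hh : h ∈ NT x) : h * h ∈ cen x := by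
  rw [mem_cen]
  rcases hh with h1 | h1
  · have hc : h * x = x * h := by
      calc h * x = h * x * h⁻¹ * h := by group
        _ = x * h := by rw [h1]
    show h * h * x = x * (h * h)
    rw [mul_assoc, hc, ← mul_assoc, hc, mul_assoc]
  · have hc : h * x = x⁻¹ * h := by
      calc h * x = h * x * h⁻¹ * h := by group
        _ = x⁻¹ * h := by rw [h1]
    have hc' : h * x⁻¹ = x * h := by
      have h2 : h * x⁻¹ * h⁻¹ = x := by
        have h3 : (h * x * h⁻¹)⁻¹ = x := by rw [h1, inv_inv]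
        calc h * x⁻¹ * h⁻¹ = (h * x * h⁻¹)⁻¹ := by group
          _ = x := h3
      calc h * x⁻¹ = h * x⁻¹ * h⁻¹ * h := by group
        _ = x * h := by rw [h2]
    show h * h * x = x * (h * h)
    rw [mul_assoc, hc, ← mul_assoc, hc', mul_assoc]

theorem sq_mem_center (x h : SL2) (hx : x ∉ Subgroup.center SL2) (ht : tr x ^ 2 ≠ 4)
    (hh : h ∈ NT x) (hc : h ∉ cen x) : h * h ∈ Subgroup.center SL2 := by
  by_contra hn
  have h1 : h * x * h⁻¹ = x⁻¹ := conj_of_mem_NT hh hc
  have h2 : Commute (h * h) x := mem_cen.mp (sq_mem_cen x h hh)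
  have h3 : h * (h * h) * h⁻¹ = (h * h)⁻¹ := inv_of_comm x (h * h) h hx h2 h1
  have h4 : (h * h) * (h * h) = 1 := by
    have e : h * (h * h) * h⁻¹ = h * h := by group
    rw [e] at h3
    exact mul_eq_one_iff_eq_inv.mpr h3
  exact tr_ne_of_comm x (h * h) hx ht h2 hn (tr_sq_of_mul_self (h * h) h4)

/-- an element with the trace of `y` and the image of `y^{±1}` in `PGL₂` is `y^{±1}`. -/
theorem conj_of_tP_eq (y y' : SL2) (hy : y ∉ Subgroup.center SL2) (hty : tr y ^ 2 ≠ 4)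
    (htr : tr y' = tr y) (h : tP y' = tP y ∨ tP y' = (tP y)⁻¹) : y' = y ∨ y' = y⁻¹ := by
  apply torus_conj y y' hy hty _ htr
  rcases h with h | h
  · rw [tP_eq_tP_iff] at h
    have hz := Subgroup.mem_center_iff.mp h y'
    rw [mul_inv_cancel_left] at hz
    show y' * y = y * y'
    calc y' * y = y' * (y'⁻¹ * y * y') := by rw [← hz]
      _ = y * y' := by group
  · rw [← map_inv, tP_eq_tP_iff] at h
    have hz := Subgroup.mem_center_iff.mp h y'
    rw [mul_inv_cancel_left] at hz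
    have h1 : y' * y⁻¹ = y⁻¹ * y' := by
      calc y' * y⁻¹ = y' * (y'⁻¹ * y⁻¹ * y') := by rw [← hz]
        _ = y⁻¹ * y' := by group
    show y' * y = y * y'
    calc y' * y = y * (y⁻¹ * y') * y := by group
      _ = y * (y' * y⁻¹) * y := by rw [h1]
      _ = y * y' := by group

theorem tP_mem_NT_iff (y s : SL2) (hy : y ∉ Subgroup.center SL2) (hty : tr y ^ 2 ≠ 4) :
    tP s ∈ NT (tP y) ↔ s ∈ NT y := by
  rw [mem_NT, mem_NT, ← map_inv, ← map_mul, ← map_mul, ← map_inv]
  constructor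
  · intro h
    rw [map_inv] at h
    exact conj_of_tP_eq y _ hy hty (tr_conj s y) h
  · rintro (h | h)
    · left; rw [h]
    · right; rw [h]

theorem mkQ_inv_mem_NT_iff (y : SL2) (hy : y ∉ Subgroup.center SL2) (hty : tr y ^ 2 ≠ 4)
    (Q : Matrix (Fin 2) (Fin 2) F) (hQ : Q.det ≠ 0) :
    (mkQ Q hQ)⁻¹ ∈ NT (tP y) ↔ (conjGL Q hQ y = y ∨ conjGL Q hQ y = y⁻¹) := by
  rw [mem_NT, inv_inv, mkQ_conj]
  constructor
  · intro h
    exact conj_of_tP_eq y _ hy hty (Cfsg.Agent.Helper5.PMax.tr_conjGL Q hQ y) h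
  · rintro (h | h)
    · left; rw [h]
    · right; rw [h, map_inv]

/-- the element `1 + T⁻¹` of `GL₂` has the same order in `PGL₂` as `T` in `SL₂`. -/
theorem order_lemma (h2 : (2 : F) ≠ 0) (T0 : SL2) (U : Matrix (Fin 2) (Fin 2) F) (hU : U.det ≠ 0)
    (hUdef : U = 1 + (T0⁻¹).1) :
    U.adjugate = U * T0.1 ∧ Commute U T0.1 ∧ orderOf (mkQ U hU) = orderOf T0 := by
  have hd := sl2_det T0
  have hU' : U = !![1 + T0.1 1 1, -T0.1 0 1; -T0.1 1 0, 1 + T0.1 0 0] := by
    rw [hUdef, Matrix.SpecialLinearGroup.coe_inv, Matrix.adjugate_fin_two]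
    ext i j
    fin_cases i <;> fin_cases j <;> simp
  have hadj : U.adjugate = U * T0.1 := by
    rw [Matrix.adjugate_fin_two]
    ext i j
    fin_cases i <;> fin_cases j <;>
      simp [hU', Matrix.mul_apply, Fin.sum_univ_two] <;>
      first | ring1 | linear_combination (-1 : F) * hd
  have hcomm : Commute U T0.1 := by
    show U * T0.1 = T0.1 * U
    ext i j
    fin_cases i <;> fin_cases j <;>
      simp [hU', Matrix.mul_apply, Fin.sum_univ_two] <;> ring
  refine ⟨hadj, hcomm, ?_⟩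
  rw [orderOf_eq_orderOf_iff]
  intro k
  have hUk : (U ^ k).det ≠ 0 := by rw [Matrix.det_pow]; exact pow_ne_zero k hU
  rw [mkQ_pow U hU k hUk, mkQ_eq_one_iff]
  constructor
  · rintro ⟨c, hc, hk⟩
    have h1 : U.adjugate ^ k = c • (1 : Matrix (Fin 2) (Fin 2) F) := by
      rw [← Matrix.adjugate_pow, hk, Matrix.adjugate_fin_two]
      ext i j
      fin_cases i <;> fin_cases j <;> simp
    rw [hadj, hcomm.mul_pow, hk] at h1
    have h3 : T0.1 ^ k = 1 := by
      have h4 := congrArg (fun X : Matrix (Fin 2) (Fin 2) F => c⁻¹ • X) h1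
      simp only [Matrix.smul_mul, Matrix.one_mul, smul_smul, inv_mul_cancel₀ hc, one_smul] at h4
      exact h4
    apply Subtype.ext
    rw [Matrix.SpecialLinearGroup.coe_pow, h3]
    rfl
  · intro hk
    have hA : T0.1 ^ k = 1 := by
      have h1 := congrArg Subtype.val hk
      rw [Matrix.SpecialLinearGroup.coe_pow] at h1
      exact h1
    have h1 : (U ^ k).adjugate = U ^ k := by
      rw [Matrix.adjugate_pow, hadj, hcomm.mul_pow, hA, mul_one]
    rw [Matrix.adjugate_fin_two] at h1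
    have e01 := congrFun (congrFun h1 0) 1
    have e10 := congrFun (congrFun h1 1) 0
    have e11 := congrFun (congrFun h1 1) 1
    simp only [Matrix.of_apply, Matrix.cons_val', Matrix.cons_val_zero, Matrix.cons_val_one,
      Matrix.cons_val_fin_one] at e01 e10 e11
    have z01 : (U ^ k) 0 1 = 0 := by
      have : (2 : F) * (U ^ k) 0 1 = 0 := by linear_combination (-1 : F) * e01
      exact (mul_eq_zero.mp this).resolve_left h2
    have z10 : (U ^ k) 1 0 = 0 := by
      have : (2 : F) * (U ^ k) 1 0 = 0 := by linear_combination (-1 : F) * e10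
      exact (mul_eq_zero.mp this).resolve_left h2
    refine ⟨(U ^ k) 0 0, ?_, ?_⟩
    · intro h0
      apply hUk
      rw [Matrix.det_fin_two, h0, z01]; ring
    · ext i j
      fin_cases i <;> fin_cases j <;> simp [z01, z10, e11]

theorem mkQ_mul_eq_of (Q R Q' R' : Matrix (Fin 2) (Fin 2) F) (hQ : Q.det ≠ 0) (hR : R.det ≠ 0)
    (hQ' : Q'.det ≠ 0) (hR' : R'.det ≠ 0) (h : Q * R = Q' * R') :
    mkQ Q hQ * mkQ R hR = mkQ Q' hQ' * mkQ R' hR' := by
  rw [mkQ_mul _ _ _ _ (by rw [Matrix.det_mul]; exact mul_ne_zero hQ hR),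
    mkQ_mul _ _ _ _ (by rw [Matrix.det_mul]; exact mul_ne_zero hQ' hR')]
  congr 1

theorem mkQ_mul_eq_one_of (Q R : Matrix (Fin 2) (Fin 2) F) (hQ : Q.det ≠ 0) (hR : R.det ≠ 0)
    (c : F) (hc : c ≠ 0) (h : Q * R = c • (1 : Matrix (Fin 2) (Fin 2) F)) :
    mkQ Q hQ * mkQ R hR = 1 := by
  rw [mkQ_mul _ _ _ _ (by rw [Matrix.det_mul]; exact mul_ne_zero hQ hR), mkQ_eq_one_iff]
  exact ⟨c, hc, h⟩

section caseT

variable [Fintype F]

theorem case_T_small (p : ℕ) [Fact p.Prime] [CharP F p] {M : Subgroup PGL2}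
    (D : MaxData M) (x : SL2) (hxc : x ∉ Subgroup.center SL2) (ht : tr x ^ 2 ≠ 4)
    (hle : M.comap (tP (F := F)) ≤ NT x)
    (hall : ∀ h ∈ M.comap (tP (F := F)), h * h ∈ Subgroup.center SL2) : False := by
  classical
  haveI : Fact (Nat.Prime 2) := ⟨Nat.prime_two⟩
  have h4 : ∀ h ∈ M.comap (tP (F := F)), h ^ 4 = 1 := by
    intro h hh
    have h1 := center_sq (h * h) (hall h hh)
    calc h ^ 4 = h ^ 2 * h ^ 2 := by rw [← pow_add]
      _ = (h * h) * (h * h) := by rw [pow_two]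
      _ = 1 := h1
  have hx2 : x * x ≠ 1 := fun h => ht (tr_sq_of_mul_self x h)
  obtain ⟨hcyc, -⟩ := torus_cyclic p hxc ht
  have hNT : Nat.card (NT x) ≤ 2 * Nat.card (cen x) := by
    by_cases hex : ∃ w ∈ NT x, w ∉ cen x
    · obtain ⟨w, hw, hwc⟩ := hex
      rw [card_NT_of_inv x w (conj_of_mem_NT hw hwc) hx2]
    · push Not at hex
      have : NT x = cen x := le_antisymm hex (cen_le_NT x)
      rw [this]; omega
  have hr : (cen x).relIndex (NT x) ≤ 2 := by
    have h1 := relIndex_mul_card_of_le (cen_le_NT x)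
    have h2 : 0 < Nat.card (cen x) := Nat.card_pos
    by_contra hcon
    push Not at hcon
    have : 3 * Nat.card (cen x) ≤ (cen x).relIndex (NT x) * Nat.card (cen x) :=
      Nat.mul_le_mul_right _ hcon
    omega
  have hr0 : (cen x).relIndex (NT x) ≠ 0 := by
    intro h0
    have h1 := relIndex_mul_card_of_le (cen_le_NT x)
    rw [h0, zero_mul] at h1
    have : 0 < Nat.card (NT x) := Nat.card_pos
    omega
  have hr' : (cen x).relIndex (M.comap (tP (F := F))) ≤ 2 :=
    le_trans (Subgroup.relIndex_le_of_le_right hle hr0) hr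
  have hinf := relIndex_mul_card_of_le
    (inf_le_left : M.comap (tP (F := F)) ⊓ cen x ≤ M.comap (tP (F := F)))
  rw [Subgroup.inf_relIndex_left] at hinf
  haveI : IsCyclic (cen x) := hcyc
  haveI : Fintype (cen x) := Fintype.ofFinite _
  have h5 := IsCyclic.card_pow_eq_one_le (α := cen x) (n := 4) (by norm_num)
  have h6 : Nat.card (M.comap (tP (F := F)) ⊓ cen x : Subgroup SL2) ≤ 4 := by
    refine le_trans ?_ h5
    rw [← Fintype.card_subtype, ← Nat.card_eq_fintype_card]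
    apply Nat.card_le_card_of_injective
      (fun g : (M.comap (tP (F := F)) ⊓ cen x : Subgroup SL2) =>
        (⟨⟨g.1, g.2.2⟩, Subtype.ext (h4 g.1 g.2.1)⟩ : {a : cen x // a ^ 4 = 1}))
    intro g g' hgg
    apply Subtype.ext
    have := congrArg (fun a : {a : cen x // a ^ 4 = 1} => a.1.1) hgg
    exact this
  have h8 : Nat.card M ≤ 8 := by
    rw [← D.card_pr, ← hinf]
    calc _ ≤ 2 * 4 := Nat.mul_le_mul hr' h6
      _ = 8 := by norm_num
  have hP : IsPGroup 2 (M.comap (tP (F := F))) := by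
    intro g
    refine ⟨2, ?_⟩
    apply Subtype.ext
    rw [Subgroup.coe_pow]
    exact h4 g.1 g.2
  obtain ⟨n, hn⟩ := IsPGroup.iff_card.mp hP
  rw [D.card_pr] at hn
  exact D.not_small_two (IsPGroup.of_card hn) h8

theorem case_T_big (p : ℕ) [Fact p.Prime] [CharP F p] {M : Subgroup PGL2}
    (D : MaxData M) (x : SL2) (hxc : x ∉ Subgroup.center SL2) (ht : tr x ^ 2 ≠ 4)
    (hle : M.comap (tP (F := F)) ≤ NT x) (h : SL2) (hhM : h ∈ M.comap (tP (F := F)))
    (hy' : h * h ∉ Subgroup.center SL2) : Goal5 M := by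
  classical
  obtain ⟨y, hydef⟩ : ∃ y : SL2, y = h * h := ⟨_, rfl⟩
  have hy : y ∉ Subgroup.center SL2 := by rw [hydef]; exact hy'
  have hycx : y ∈ cen x := by rw [hydef]; exact sq_mem_cen x h (hle hhM)
  have hty : tr y ^ 2 ≠ 4 := tr_ne_of_comm x y hxc ht (mem_cen.mp hycx) hy
  have hconj : ∀ (Q : Matrix (Fin 2) (Fin 2) F) (hQ : Q.det ≠ 0), mkQ Q hQ ∈ M →
      conjGL Q hQ y = y ∨ conjGL Q hQ y = y⁻¹ := by
    intro Q hQ hm
    have h1 : conjGL Q hQ h ∈ NT x := hle (conjGL_mem_pr M Q hQ hm h hhM)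
    have h2 : conjGL Q hQ y ∈ cen x := by
      rw [hydef, map_mul]; exact sq_mem_cen x _ h1
    have h3 : Commute (conjGL Q hQ y) y := sl2_CA.cen_comm hxc h2 hycx
    exact torus_conj y (conjGL Q hQ y) hy hty h3 (Cfsg.Agent.Helper5.PMax.tr_conjGL Q hQ y)
  have hMN : M ≤ NT (tP y) := by
    intro m hm
    obtain ⟨Q, hQ, hmQ⟩ := exists_mkQ m⁻¹
    have hm' : mkQ Q hQ ∈ M := by rw [← hmQ]; exact M.inv_mem hm
    have e : m = (mkQ Q hQ)⁻¹ := by rw [← hmQ, inv_inv]
    rw [e, mkQ_inv_mem_NT_iff y hy hty]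
    exact hconj Q hQ hm'
  have hy2 : y * y ≠ 1 := fun h => hty (tr_sq_of_mul_self y h)
  obtain ⟨w, hw⟩ := Cfsg.Agent.Helper40.exists_inverts D.odd y
    (by
      intro hc
      exact hy ((center_iff_entries y).mpr ⟨hc.2.1, hc.1, hc.2.2⟩))
    (by
      have : Cfsg.Agent.Helper40.tr2 y = tr y := by
        rw [tr_eq]; rfl
      rw [this]; exact hty)
  have hw' : w * y * w⁻¹ = y⁻¹ := hw
  have hcN := card_NT_of_inv y w hw' hy2
  have hcc := card_cen_cases p y hy hty
  have hq5 : 5 ≤ Fintype.card F := by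
    have := D.h3; obtain ⟨j, hj⟩ := D.odd; omega
  have hNne : NT (tP y) ≠ ⊤ := by
    intro htop
    have hNT : NT y = ⊤ := by
      rw [eq_top_iff]
      intro s _
      rw [← tP_mem_NT_iff y s hy hty, htop]; trivial
    rw [hNT, Subgroup.card_top, Cfsg.Agent.Helper5.card_SL2] at hcN
    have hqq : Fintype.card F ^ 2 - 1 = (Fintype.card F - 1) * (Fintype.card F + 1) := by
      obtain ⟨m, hm⟩ : ∃ m, Fintype.card F = m + 1 := ⟨Fintype.card F - 1, by omega⟩
      rw [hm]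
      have : (m + 1) ^ 2 = m * (m + 1 + 1) + 1 := by ring
      rw [this]; simp
    rw [hqq] at hcN
    have h3 : 2 * Nat.card (cen y) ≤ 2 * (Fintype.card F + 1) := by
      rcases hcc with h | h <;> rw [h] <;> omega
    have h4 : 4 * (Fintype.card F + 1) ≤ (Fintype.card F - 1) * (Fintype.card F + 1) :=
      Nat.mul_le_mul_right _ (by omega)
    have h6 : 5 * ((Fintype.card F - 1) * (Fintype.card F + 1)) ≤
        Fintype.card F * ((Fintype.card F - 1) * (Fintype.card F + 1)) :=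
      Nat.mul_le_mul_right _ hq5
    omega
  have hMeq : NT (tP y) = M := (D.co.le_iff.mp hMN).resolve_left hNne
  have hpr : M.comap (tP (F := F)) = NT y := by
    ext s
    rw [Subgroup.mem_comap, ← hMeq, tP_mem_NT_iff y s hy hty]
  have hcardM : Nat.card M = 2 * Nat.card (cen y) := by
    rw [← D.card_pr, hpr, hcN]
  -- the generator of the torus
  obtain ⟨hcyc, -⟩ := torus_cyclic p hy hty
  obtain ⟨g, hg⟩ := hcyc.exists_generator
  obtain ⟨T0, hT0⟩ : ∃ T0 : SL2, T0 = g.1 := ⟨_, rfl⟩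
  have hT0c : Commute T0 y := by rw [hT0]; exact mem_cen.mp g.2
  have hordT : orderOf T0 = Nat.card (cen y) := by
    rw [hT0, Subgroup.orderOf_coe, orderOf_eq_card_of_forall_mem_zpowers hg]
  have hT0nc : T0 ∉ Subgroup.center SL2 := by
    intro hc
    apply hy
    obtain ⟨k, hk⟩ := Subgroup.mem_zpowers_iff.mp (hg ⟨y, mem_cen.mpr (Commute.refl y)⟩)
    have hk' : T0 ^ k = y := by
      have h1 := congrArg Subtype.val hk
      rw [Subgroup.coe_zpow] at h1
      rw [hT0]; exact h1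
    rw [← hk']
    exact Subgroup.zpow_mem _ hc k
  have htT : tr T0 ^ 2 ≠ 4 := tr_ne_of_comm y T0 hy hty hT0c hT0nc
  obtain ⟨U, hUdef⟩ : ∃ U : Matrix (Fin 2) (Fin 2) F, U = 1 + (T0⁻¹).1 := ⟨_, rfl⟩
  have hUdet : U.det ≠ 0 := by
    have hd := sl2_det T0
    have hU' : U = !![1 + T0.1 1 1, -T0.1 0 1; -T0.1 1 0, 1 + T0.1 0 0] := by
      rw [hUdef, Matrix.SpecialLinearGroup.coe_inv, Matrix.adjugate_fin_two]
      ext i j
      fin_cases i <;> fin_cases j <;> simp
    rw [hU', Matrix.det_fin_two_of]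
    intro h0
    apply htT
    rw [tr_eq]
    have h1 : T0.1 0 0 + T0.1 1 1 = -2 := by linear_combination h0 - hd
    rw [h1]; norm_num
  obtain ⟨hadj, hcomm, hord⟩ := order_lemma D.two T0 U hUdet hUdef
  obtain ⟨u, hu⟩ : ∃ u : PGL2, u = mkQ U hUdet := ⟨_, rfl⟩
  obtain ⟨v, hv⟩ : ∃ v : PGL2, v = tP w := ⟨_, rfl⟩
  have hwN : w ∈ NT y := Or.inr hw'
  have hwc : w ∉ cen y := by
    intro hc
    have h1 := (mem_cen.mp hc).eq
    apply hy2
    have h2 : w * y * w⁻¹ = y := by rw [h1]; group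
    rw [h2] at hw'
    exact mul_eq_one_iff_eq_inv.mpr hw'
  have hvM : v ∈ M := by
    rw [hv, ← hMeq, tP_mem_NT_iff y w hy hty]; exact hwN
  have hvv : v * v = 1 := by
    rw [hv, ← map_mul, tP_eq_one_iff]
    exact sq_mem_center y w hy hty hwN hwc
  have hUy : U * y.1 = y.1 * U := by
    have h1 : T0⁻¹ * y = y * T0⁻¹ := (hT0c.inv_left).eq
    have h2 := congrArg Subtype.val h1
    rw [Matrix.SpecialLinearGroup.coe_mul, Matrix.SpecialLinearGroup.coe_mul] at h2
    rw [hUdef, Matrix.add_mul, Matrix.mul_add, Matrix.one_mul, Matrix.mul_one, h2]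
  have huM : u ∈ M := by
    rw [hu, ← hMeq, mem_NT]
    left
    rw [mul_inv_eq_iff_eq_mul, tP_eq]
    exact mkQ_mul_eq_of _ _ _ _ _ _ _ _ hUy
  have hwT : w * T0 * w⁻¹ = T0⁻¹ := inv_of_comm y T0 w hy hT0c hw'
  have hwT' : w * T0⁻¹ = T0 * w := by
    have h1 : (w * T0 * w⁻¹)⁻¹ = T0 := by rw [hwT, inv_inv]
    calc w * T0⁻¹ = (w * T0 * w⁻¹)⁻¹ * w := by group
      _ = T0 * w := by rw [h1]
  have hV : (U * T0.1).det ≠ 0 := by rw [Matrix.det_mul, T0.2, mul_one]; exact hUdet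
  have hwU : w.1 * U = (U * T0.1) * w.1 := by
    have h2 := congrArg Subtype.val hwT'
    rw [Matrix.SpecialLinearGroup.coe_mul, Matrix.SpecialLinearGroup.coe_mul] at h2
    have h3 : U * T0.1 = T0.1 + 1 := by
      have h4 : T0⁻¹ * T0 = 1 := inv_mul_cancel T0
      have h5 := congrArg Subtype.val h4
      rw [Matrix.SpecialLinearGroup.coe_mul, Matrix.SpecialLinearGroup.coe_one] at h5
      rw [hUdef, Matrix.add_mul, Matrix.one_mul, h5]
    rw [h3, hUdef, Matrix.mul_add, Matrix.add_mul, Matrix.mul_one, Matrix.one_mul, h2, add_comm]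
  have huv : v * u * v⁻¹ = u⁻¹ := by
    have h1 : v * u = mkQ (U * T0.1) hV * v := by
      rw [hv, hu, tP_eq]
      exact mkQ_mul_eq_of _ _ _ _ _ _ _ _ hwU
    have h2 : mkQ (U * T0.1) hV * u = 1 := by
      rw [hu]
      apply mkQ_mul_eq_one_of _ _ _ _ U.det hUdet
      rw [← hadj, Matrix.adjugate_mul]
    rw [h1, mul_inv_cancel_right]
    exact eq_inv_of_mul_eq_one_left h2
  have hordu : orderOf u = Nat.card (cen y) := by rw [hu, hord, hordT]
  have hn4 : 4 ≤ Nat.card (cen y) := by rcases hcc with h | h <;> rw [h] <;> omega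
  have hvu : v ∉ Subgroup.zpowers u := by
    intro hmem
    obtain ⟨k, hk⟩ := Subgroup.mem_zpowers_iff.mp hmem
    have h1 : v * u * v⁻¹ = u := by
      rw [← hk]
      group
    rw [huv] at h1
    have h2 : u ^ 2 = 1 := by
      rw [pow_two]
      exact mul_eq_one_iff_eq_inv.mpr h1.symm
    have h3 := orderOf_dvd_of_pow_eq_one h2
    have h4 := Nat.le_of_dvd (by norm_num) h3
    omega
  haveI : NeZero (Nat.card (cen y)) := ⟨by omega⟩
  obtain ⟨e⟩ := dihedral_of_card M (Nat.card (cen y)) u v huM hvM hordu hvv huv hvu hcardM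
  rcases hcc with hc | hc
  · right; left
    refine ⟨?_, ?_⟩
    · intro h5
      apply D.card_ne_eight
      rw [hcardM, hc, h5]
    · rw [hc] at e
      exact ⟨e⟩
  · right; right; left
    rw [hc] at e
    exact ⟨e⟩

theorem case_T (p : ℕ) [Fact p.Prime] [CharP F p] {M : Subgroup PGL2}
    (D : MaxData M) (x : SL2) (hxc : x ∉ Subgroup.center SL2) (ht : tr x ^ 2 ≠ 4)
    (hle : M.comap (tP (F := F)) ≤ NT x) : Goal5 M := by
  by_cases hall : ∀ h ∈ M.comap (tP (F := F)), h * h ∈ Subgroup.center SL2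
  · exact (case_T_small p D x hxc ht hle hall).elim
  · push Not at hall
    obtain ⟨h, hhM, hy⟩ := hall
    exact case_T_big p D x hxc ht hle h hhM hy

end caseT

end Cfsg.Agent.Helper5.GMax
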