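import Mathlib
import Cfsg.Agent.Helper5.GMaxD
import Cfsg.Agent.Helper5.PMaxG

/-!
# Maximal subgroups of `PGL₂(q)`, part E (helper5)

The subfield case of Dickson's theorem for a maximal subgroup of `PGL₂(F)` not containing
`PSL₂(F)`.
-/

set_option autoImplicit false
set_option linter.style.haveILetI false

namespace Cfsg.Agent.Helper5.GMax

open Cfsg.Agent.Helper41 Cfsg.Agent.Helper41.Dk Cfsg.Agent.Helper5.PMax Matrix

variable {F : Type*} [Field F]

local notation "SL2" => Matrix.SpecialLinearGroup (Fin 2) F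
local notation "PGL2" => Matrix.ProjGenLinGroup (Fin 2) F

/-- a maximal subgroup whose preimage contains `SL₂(K₀)` and whose unipotent-trace elements are
defined over `K₀` is a subfield subgroup. -/
theorem case_S0 [Fintype F] (p : ℕ) [Fact p.Prime] [CharP F p] {M : Subgroup PGL2}
    (D : MaxData M) (K0 : Subfield F)
    (hSK : ∀ g : SL2, MemK K0 g.1 → g ∈ M.comap (tP (F := F)))
    (htr : ∀ g ∈ M.comap (tP (F := F)), tr g = 2 → MemK K0 g.1) : Goal5 M := by
  classical
  by_cases hK : ∀ c : F, c ∈ K0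
  · exfalso
    apply D.nL
    rintro _ ⟨g, rfl⟩
    exact hSK g (fun i j => hK _)
  · push Not at hK
    obtain ⟨c0, hc0⟩ := hK
    apply sub_concl p D K0 c0 hc0
    intro R hR hm
    have hU : MemK K0 (Ux (1 : F)).1 := by
      rw [memK_iff]
      refine ⟨?_, ?_, ?_, ?_⟩ <;> simp [Ux]
    have hL : MemK K0 (Lx (1 : F)).1 := by
      rw [memK_iff]
      refine ⟨?_, ?_, ?_, ?_⟩ <;> simp [Lx]
    have tU : tr (Ux (1 : F)) = 2 := by
      rw [tr_eq]; simp [Ux]; norm_num
    have tL : tr (Lx (1 : F)) = 2 := by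
      rw [tr_eq]; simp [Lx]; norm_num
    have h1 := htr _ (conjGL_mem_pr M R hR hm _ (hSK _ hU))
      (by rw [Cfsg.Agent.Helper5.PMax.tr_conjGL]; exact tU)
    have h2 := htr _ (conjGL_mem_pr M R hR hm _ (hSK _ hL))
      (by rw [Cfsg.Agent.Helper5.PMax.tr_conjGL]; exact tL)
    have hone : MemK K0 (1 : Matrix (Fin 2) (Fin 2) F) := by
      rw [memK_iff]
      refine ⟨?_, ?_, ?_, ?_⟩ <;> simp
    refine scal_memK K0 R ((conjGL R hR (Ux 1)).1 - 1) ((conjGL R hR (Lx 1)).1 - 1) hR
      ?_ ?_ ?_ ?_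
    · intro i j
      rw [Matrix.sub_apply]
      exact K0.sub_mem (h1 i j) (hone i j)
    · intro i j
      rw [Matrix.sub_apply]
      exact K0.sub_mem (h2 i j) (hone i j)
    · rw [Matrix.mul_sub, conjGL_mul_eq, Matrix.mul_one]
      have e : (Ux (1 : F)).1 = 1 + !![0, 1; 0, 0] := by
        ext i j
        fin_cases i <;> fin_cases j <;> simp [Ux]
      rw [e, Matrix.add_mul, Matrix.one_mul, add_sub_cancel_left]
    · rw [Matrix.mul_sub, conjGL_mul_eq, Matrix.mul_one]
      have e : (Lx (1 : F)).1 = 1 + !![0, 0; 1, 0] := by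
        ext i j
        fin_cases i <;> fin_cases j <;> simp [Lx]
      rw [e, Matrix.add_mul, Matrix.one_mul, add_sub_cancel_left]

theorem case_S [Fintype F] (p : ℕ) [Fact p.Prime] [CharP F p] {M : Subgroup PGL2}
    (D : MaxData M) (Q : Matrix (Fin 2) (Fin 2) F) (hQ : Q.det ≠ 0) (K0 : Subfield F)
    (h : (∀ g : SL2, g ∈ ((conjGL Q hQ).comp (M.comap (tP (F := F))).subtype).range ↔
        MemK K0 g.1) ∨
      (∃ lam : F, lam ∉ K0 ∧ lam ^ 2 ∈ K0 ∧
        ∀ g : SL2, g ∈ ((conjGL Q hQ).comp (M.comap (tP (F := F))).subtype).range ↔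
          (MemK K0 g.1 ∨ MemK K0 (lam • g.1)))) :
    Goal5 M := by
  apply goal5_cj (mkQ Q hQ)⁻¹
  have D' := D.cj (mkQ Q hQ)⁻¹
  have hrange : ∀ g : SL2,
      g ∈ ((conjGL Q hQ).comp (M.comap (tP (F := F))).subtype).range ↔
      g ∈ (cj M (mkQ Q hQ)⁻¹).comap (tP (F := F)) := by
    intro g
    constructor
    · rintro ⟨s, rfl⟩
      exact (mem_pr_cj M Q hQ s.1).mpr s.2
    · intro hg
      obtain ⟨s, hs, rfl⟩ := exists_of_mem_pr_cj M Q hQ g hg
      exact ⟨⟨s, hs⟩, rfl⟩
  rcases h with h | ⟨lam, hlam, hlam2, h⟩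
  · apply case_S0 p D' K0
    · intro g hg
      exact (hrange g).mp ((h g).mpr hg)
    · intro g hg _
      exact (h g).mp ((hrange g).mpr hg)
  · apply case_S0 p D' K0
    · intro g hg
      exact (hrange g).mp ((h g).mpr (Or.inl hg))
    · intro g hg htr
      rcases (h g).mp ((hrange g).mpr hg) with h1 | h1
      · exact h1
      · exfalso
        apply hlam
        have e00 := h1 0 0
        have e11 := h1 1 1
        rw [Matrix.smul_apply, smul_eq_mul] at e00 e11
        have h2 : lam * 2 ∈ K0 := by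
          have h3 := K0.add_mem e00 e11
          rw [← mul_add, ← tr_eq, htr] at h3
          exact h3
        have h3 := K0.mul_mem h2 (K0.inv_mem (two_mem_sub K0))
        rw [mul_assoc, mul_inv_cancel₀ D.two, mul_one] at h3
        exact h3

end Cfsg.Agent.Helper5.GMax
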