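import Mathlib
import Cfsg.Agent.Helper5.GMaxE
import Cfsg.Agent.Helper71.ZRec

/-!
# Maximal subgroups of `PGL₂(q)`, part F (helper5)

Tools for the exceptional cases of Dickson's theorem: the four-group spanned by the images of
a quaternion pair, its normaliser, and the reduction to a subfield by traces.
-/

set_option autoImplicit false
set_option linter.style.haveILetI false

namespace Cfsg.Agent.Helper5.GMax

open Cfsg.Agent.Helper41 Cfsg.Agent.Helper41.Dk Cfsg.Agent.Helper5.PMax Matrix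
open Cfsg.Agent.Helper40.PSL2Klein

theorem klein_sub_facts {G : Type*} [Group G] (M V : Subgroup G) (hVM : V ≤ M)
    (hN : M ≤ Subgroup.normalizer (V : Set G)) (hC : Subgroup.centralizer (V : Set G) ≤ V)
    (hc : Nat.card V = 4) :
    (V.subgroupOf M).Normal ∧ Nat.card (V.subgroupOf M) = 4 ∧
      Subgroup.centralizer ((V.subgroupOf M : Subgroup M) : Set M) ≤ V.subgroupOf M := by
  refine ⟨(Subgroup.normal_subgroupOf_iff_le_normalizer hVM).mpr hN, ?_, ?_⟩
  · rw [Nat.card_congr (Subgroup.subgroupOfEquivOfLe hVM).toEquiv, hc]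
  · intro c hc'
    rw [Subgroup.mem_subgroupOf]
    apply hC
    rw [Subgroup.mem_centralizer_iff]
    intro v hv
    have h1 := (Subgroup.mem_centralizer_iff.mp hc') ⟨v, hVM hv⟩ (Subgroup.mem_subgroupOf.mpr hv)
    exact congrArg Subtype.val h1

variable {F : Type*} [Field F]

local notation "SL2" => Matrix.SpecialLinearGroup (Fin 2) F
local notation "PGL2" => Matrix.ProjGenLinGroup (Fin 2) F

theorem tr_mul_zero (h2 : (2 : F) ≠ 0) (A B : SL2) (hAB : A.1 * B.1 = -(B.1 * A.1)) :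
    tr (A * B) = 0 := by
  have h1 : (A.1 * B.1).trace = -(A.1 * B.1).trace := by
    conv_lhs => rw [hAB]
    rw [Matrix.trace_neg, Matrix.trace_mul_comm]
  have h3 : (2 : F) * (A.1 * B.1).trace = 0 := by linear_combination h1
  have h4 := (mul_eq_zero.mp h3).resolve_left h2
  show (A * B).1.trace = 0
  rw [Matrix.SpecialLinearGroup.coe_mul]; exact h4

theorem kpair_tP (h2 : (2 : F) ≠ 0) (A B : SL2) (htA : tr A = 0) (htB : tr B = 0)
    (hAB : A.1 * B.1 = -(B.1 * A.1)) : KPair (tP A) (tP B) := by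
  have hnc : ∀ X : SL2, tr X = 0 → tP X ≠ 1 := by
    intro X hX h1
    rw [tP_eq_one_iff] at h1
    rcases tr_of_center X h1 with h | h <;> rw [hX] at h
    · exact h2 h.symm
    · have : (2 : F) = 0 := by linear_combination h
      exact h2 this
  have hsq : ∀ X : SL2, tr X = 0 → tP X * tP X = 1 := by
    intro X hX
    rw [← map_mul, tP_eq_one_iff, ← pow_two]
    exact center_of_tr_zero X hX
  have hcomm : tP A * tP B = tP B * tP A := by
    rw [← map_mul, ← map_mul, tP_eq_tP_iff, mem_center_iff_pm]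
    right
    rw [Matrix.SpecialLinearGroup.coe_mul, Matrix.SpecialLinearGroup.coe_inv,
      Matrix.SpecialLinearGroup.coe_mul, Matrix.SpecialLinearGroup.coe_mul]
    have e : B.1 * A.1 = -(A.1 * B.1) := by rw [hAB, neg_neg]
    rw [e, Matrix.mul_neg, Matrix.adjugate_mul, ← Matrix.SpecialLinearGroup.coe_mul, (A * B).2,
      one_smul]
  refine ⟨hnc A htA, hnc B htB, ?_, hsq A htA, hsq B htB, hcomm⟩
  intro heq
  have h1 : tP (A * B) = 1 := by
    rw [map_mul, ← heq]; exact hsq A htA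
  exact hnc (A * B) (tr_mul_zero h2 A B hAB) h1

theorem tP_of_quot {T : Type*} [Group T] (X : Subgroup SL2)
    (e : (↥X ⧸ (Subgroup.center SL2).subgroupOf X) ≃* T) (s s' : X)
    (h : e (QuotientGroup.mk s) = e (QuotientGroup.mk s')) : tP (s : SL2) = tP (s' : SL2) := by
  have h1 := e.injective h
  rw [QuotientGroup.eq, Subgroup.mem_subgroupOf] at h1
  rw [tP_eq_tP_iff]
  exact h1

/-- a matrix conjugating a standard quaternion pair into matrices over `K` is a scalar multiple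
of a matrix over `K`. -/
theorem scal_of_conj (K : Subfield F) (h2 : (2 : F) ≠ 0) (α β : F) (hα : α ∈ K) (hβ : β ∈ K)
    (hαβ : α ^ 2 + β ^ 2 = -1) (J B : SL2) (hJ : J.1 = !![0, -1; 1, 0])
    (hB : B.1 = !![α, β; β, -α]) (R : Matrix (Fin 2) (Fin 2) F) (hR : R.det ≠ 0)
    (h1 : MemK K (conjGL R hR J).1) (h2' : MemK K (conjGL R hR B).1) :
    ∃ μ : F, μ ≠ 0 ∧ MemK K (μ • R) := by
  have k2 : (2 : F)⁻¹ ∈ K := K.inv_mem (two_mem_sub K)
  have e1 : R * (conjGL R hR J).1 = J.1 * R := conjGL_mul_eq R hR J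
  have e2 : R * (conjGL R hR B).1 = B.1 * R := conjGL_mul_eq R hR B
  have e3 : R * ((conjGL R hR J).1 * (conjGL R hR B).1) = J.1 * B.1 * R := by
    rw [← Matrix.mul_assoc, e1, Matrix.mul_assoc, e2, Matrix.mul_assoc]
  have hW1 : -(β • B.1 + α • (J.1 * B.1)) - J.1 = (2 : F) • !![0, 1; 0, 0] := by
    rw [hJ, hB]
    ext i j
    fin_cases i <;> fin_cases j <;> simp <;>
      first | ring1 | linear_combination (-1 : F) * hαβ
  have hW2 : -(β • B.1 + α • (J.1 * B.1)) + J.1 = (2 : F) • !![0, 0; 1, 0] := by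
    rw [hJ, hB]
    ext i j
    fin_cases i <;> fin_cases j <;> simp <;>
      first | ring1 | linear_combination (-1 : F) * hαβ
  have h3 := memK_mul K h1 h2'
  refine scal_memK K R
    ((2 : F)⁻¹ • (-(β • (conjGL R hR B).1 + α • ((conjGL R hR J).1 * (conjGL R hR B).1))
      - (conjGL R hR J).1))
    ((2 : F)⁻¹ • (-(β • (conjGL R hR B).1 + α • ((conjGL R hR J).1 * (conjGL R hR B).1))
      + (conjGL R hR J).1)) hR ?_ ?_ ?_ ?_
  · intro i j
    simp only [Matrix.smul_apply, Matrix.sub_apply, Matrix.neg_apply, Matrix.add_apply,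
      smul_eq_mul]
    exact K.mul_mem k2 (K.sub_mem (K.neg_mem (K.add_mem (K.mul_mem hβ (h2' i j))
      (K.mul_mem hα (h3 i j)))) (h1 i j))
  · intro i j
    simp only [Matrix.smul_apply, Matrix.neg_apply, Matrix.add_apply, smul_eq_mul]
    exact K.mul_mem k2 (K.add_mem (K.neg_mem (K.add_mem (K.mul_mem hβ (h2' i j))
      (K.mul_mem hα (h3 i j)))) (h1 i j))
  · have e4 : R * ((2 : F)⁻¹ • (-(β • (conjGL R hR B).1 +
        α • ((conjGL R hR J).1 * (conjGL R hR B).1)) - (conjGL R hR J).1)) =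
        (2 : F)⁻¹ • ((-(β • B.1 + α • (J.1 * B.1)) - J.1) * R) := by
      simp only [Matrix.mul_smul, Matrix.mul_sub, Matrix.mul_neg, Matrix.mul_add, e1, e2, e3,
        Matrix.sub_mul, Matrix.neg_mul, Matrix.add_mul, Matrix.smul_mul]
    rw [e4, hW1, Matrix.smul_mul, smul_smul, inv_mul_cancel₀ h2, one_smul]
  · have e4 : R * ((2 : F)⁻¹ • (-(β • (conjGL R hR B).1 +
        α • ((conjGL R hR J).1 * (conjGL R hR B).1)) + (conjGL R hR J).1)) =
        (2 : F)⁻¹ • ((-(β • B.1 + α • (J.1 * B.1)) + J.1) * R) := by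
      simp only [Matrix.mul_smul, Matrix.mul_neg, Matrix.mul_add, e1, e2, e3,
        Matrix.neg_mul, Matrix.add_mul, Matrix.smul_mul]
    rw [e4, hW2, Matrix.smul_mul, smul_smul, inv_mul_cancel₀ h2, one_smul]

section klein

variable [Fintype F]

/-- a maximal subgroup whose preimage has all its traces in a proper subfield `K` and contains a
quaternion pair is a subfield subgroup. -/
theorem trace_sub (p : ℕ) [Fact p.Prime] [CharP F p] {M : Subgroup PGL2} (D : MaxData M)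
    (K : Subfield F) (c0 : F) (hc0 : c0 ∉ K) (A B : SL2) (hA : A ∈ M.comap (tP (F := F)))
    (hB : B ∈ M.comap (tP (F := F))) (htA : tr A = 0) (htB : tr B = 0)
    (hAB : A.1 * B.1 = -(B.1 * A.1)) (HT : ∀ h ∈ M.comap (tP (F := F)), tr h ∈ K) :
    Goal5 M := by
  have h2 := D.two
  obtain ⟨a, b, hab⟩ := ZMod.sq_add_sq p (-1)
  have hαβ : ((ZMod.castHom (dvd_refl p) F) a) ^ 2 + ((ZMod.castHom (dvd_refl p) F) b) ^ 2
      = -1 := by
    rw [← map_pow, ← map_pow, ← map_add, hab, map_neg, map_one]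
  obtain ⟨Q, hQ, hJ, hB0⟩ := exists_conj_std h2 A B htA htB hAB _ _ hαβ
  apply goal5_cj (mkQ Q hQ)⁻¹
  have D' := D.cj (mkQ Q hQ)⁻¹
  have hA' : conjGL Q hQ A ∈ (cj M (mkQ Q hQ)⁻¹).comap (tP (F := F)) :=
    (mem_pr_cj M Q hQ A).mpr hA
  have hB' : conjGL Q hQ B ∈ (cj M (mkQ Q hQ)⁻¹).comap (tP (F := F)) :=
    (mem_pr_cj M Q hQ B).mpr hB
  have HT' : ∀ h ∈ (cj M (mkQ Q hQ)⁻¹).comap (tP (F := F)), tr h ∈ K := by
    intro h hh
    obtain ⟨s, hs, rfl⟩ := exists_of_mem_pr_cj M Q hQ h hh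
    rw [Cfsg.Agent.Helper5.PMax.tr_conjGL]; exact HT s hs
  apply sub_concl p D' K c0 hc0
  intro R hR hm
  have key : ∀ s ∈ (cj M (mkQ Q hQ)⁻¹).comap (tP (F := F)), MemK K s.1 := by
    intro s hs
    have h3 := memK_of_traces K h2 _ _ 1 (cast_mem_subfield p K a) (cast_mem_subfield p K b) hαβ
      (conjGL Q hQ A) (conjGL Q hQ B) s hJ hB0
      (by rw [one_mul]; exact HT' s hs) (by rw [one_mul]; exact HT' _ (mul_mem hs hA'))
      (by rw [one_mul]; exact HT' _ (mul_mem hs hB'))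
      (by rw [one_mul]; exact HT' _ (mul_mem hs (mul_mem hA' hB')))
    rwa [one_smul] at h3
  exact scal_of_conj K h2 _ _ (cast_mem_subfield p K a) (cast_mem_subfield p K b) hαβ _ _ hJ hB0
    R hR (key _ (conjGL_mem_pr _ R hR hm _ hA')) (key _ (conjGL_mem_pr _ R hR hm _ hB'))

theorem klein_cent (h2 : (2 : F) ≠ 0) (A B : SL2) (htA : tr A = 0) (htB : tr B = 0)
    (hAB : A.1 * B.1 = -(B.1 * A.1)) (hV : KPair (tP A) (tP B)) :
    Subgroup.centralizer ((kGroup (tP A) (tP B) hV : Subgroup PGL2) : Set PGL2) ≤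
      kGroup (tP A) (tP B) hV := by
  intro c hc
  rw [Subgroup.mem_centralizer_iff] at hc
  have hcA := hc (tP A) ((mem_kGroup _ _ hV _).mpr (Or.inr (Or.inl rfl)))
  have hcB := hc (tP B) ((mem_kGroup _ _ hV _).mpr (Or.inr (Or.inr (Or.inl rfl))))
  rcases klein_centralizer h2 A B htA htB hAB c hcA.symm hcB.symm with h | h | h | h
  · rw [h]; exact one_mem _
  · rw [h]; exact (mem_kGroup _ _ hV _).mpr (Or.inr (Or.inl rfl))
  · rw [h]; exact (mem_kGroup _ _ hV _).mpr (Or.inr (Or.inr (Or.inl rfl)))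
  · rw [h, map_mul]; exact (mem_kGroup _ _ hV _).mpr (Or.inr (Or.inr (Or.inr rfl)))

theorem klein_norm {M : Subgroup PGL2} (A B : SL2) (hV : KPair (tP A) (tP B))
    (hN : ∀ (R : Matrix (Fin 2) (Fin 2) F) (hR : R.det ≠ 0), mkQ R hR ∈ M →
      tP (conjGL R hR A) ∈ kGroup (tP A) (tP B) hV ∧
      tP (conjGL R hR B) ∈ kGroup (tP A) (tP B) hV) :
    M ≤ Subgroup.normalizer ((kGroup (tP A) (tP B) hV : Subgroup PGL2) : Set PGL2) := by
  intro m hm
  apply Cfsg.Agent.Helper5.mem_normalizer_of_map_le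
  rintro _ ⟨v, hv, rfl⟩
  obtain ⟨R, hR, hmR⟩ := exists_mkQ m⁻¹
  have hm' : mkQ R hR ∈ M := by rw [← hmR]; exact M.inv_mem hm
  have e : ∀ s : SL2, m * tP s * m⁻¹ = tP (conjGL R hR s) := by
    intro s
    rw [← mkQ_conj, ← hmR, inv_inv]
  obtain ⟨h1, h2⟩ := hN R hR hm'
  show m * v * m⁻¹ ∈ _
  rcases (mem_kGroup _ _ hV v).mp hv with rfl | rfl | rfl | rfl
  · rw [mul_one, mul_inv_cancel]; exact one_mem _
  · rw [e]; exact h1
  · rw [e]; exact h2
  · have e' : m * (tP A * tP B) * m⁻¹ = (m * tP A * m⁻¹) * (m * tP B * m⁻¹) := by group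
    rw [e', e, e]; exact mul_mem h1 h2

theorem klein_normalizer_eq {M : Subgroup PGL2} (D : MaxData M) (A B : SL2) (htA : tr A = 0)
    (htB : tr B = 0) (hAB : A.1 * B.1 = -(B.1 * A.1)) (hV : KPair (tP A) (tP B))
    (hN : M ≤ Subgroup.normalizer ((kGroup (tP A) (tP B) hV : Subgroup PGL2) : Set PGL2)) :
    Subgroup.normalizer ((kGroup (tP A) (tP B) hV : Subgroup PGL2) : Set PGL2) = M := by
  refine (D.co.le_iff.mp hN).resolve_left ?_
  intro htop
  haveI : (kGroup (tP A) (tP B) hV).Normal := Subgroup.normalizer_eq_top_iff.mp htop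
  have h1 := Cfsg.Agent.Helper71.ZRec.card_dvd (kGroup (tP A) (tP B) hV) (kGroup_card _ _ hV)
    (klein_cent D.two A B htA htB hAB hV)
  rw [Cfsg.Agent.Helper5.card_PGL2_eq] at h1
  have h3 := D.card_G_ge
  have h4 := Nat.le_of_dvd (by norm_num) h1
  omega

end klein

end Cfsg.Agent.Helper5.GMax
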