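import Mathlib
import Cfsg.Agent.Helper5.GMaxF

/-!
# Maximal subgroups of `PGL₂(q)`, part G (helper5)

The cases `A₄` and `S₄` of Dickson's theorem for a maximal subgroup of `PGL₂(F)` not containing
`PSL₂(F)`.
-/

set_option autoImplicit false
set_option linter.style.haveILetI false

namespace Cfsg.Agent.Helper5.GMax

open Cfsg.Agent.Helper41 Cfsg.Agent.Helper41.Dk Cfsg.Agent.Helper5.PMax Matrix
open Cfsg.Agent.Helper40.PSL2Klein

set_option maxRecDepth 100000 in
theorem a4_sq_fact : ∀ g : alternatingGroup (Fin 4), g ^ 2 = 1 →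
    g = 1 ∨ g = a4A ∨ g = a4B ∨ g = a4A * a4B := by
  unfold a4A a4B alt
  decide

set_option maxRecDepth 100000 in
theorem s4_sq_fact : ∀ h : Equiv.Perm (Fin 4), h ^ 4 = 1 →
    h ^ 2 = 1 ∨ h ^ 2 = kA ∨ h ^ 2 = kB ∨ h ^ 2 = kA * kB := by
  unfold kA kB
  decide

theorem s4_roots : ∃ c₁ c₂ : Equiv.Perm (Fin 4), c₁ ^ 2 = kA ∧ c₂ ^ 2 = kB ∧ c₁ ^ 4 = 1 ∧
    c₂ ^ 4 = 1 := by
  refine ⟨Equiv.swap 0 3 * Equiv.swap 0 1 * Equiv.swap 0 2,
    Equiv.swap 0 3 * Equiv.swap 0 2 * Equiv.swap 0 1, ?_⟩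
  unfold kA kB
  decide

variable {F : Type*} [Field F]

local notation "SL2" => Matrix.SpecialLinearGroup (Fin 2) F
local notation "PGL2" => Matrix.ProjGenLinGroup (Fin 2) F

theorem tP_mem_klein {T : Type*} [Group T] (X : Subgroup SL2)
    (e : (↥X ⧸ (Subgroup.center SL2).subgroupOf X) ≃* T) (A B : X)
    (hV : KPair (tP (A : SL2)) (tP (B : SL2))) (s : X)
    (h : e (QuotientGroup.mk s) = 1 ∨ e (QuotientGroup.mk s) = e (QuotientGroup.mk A) ∨
      e (QuotientGroup.mk s) = e (QuotientGroup.mk B) ∨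
      e (QuotientGroup.mk s) = e (QuotientGroup.mk A) * e (QuotientGroup.mk B)) :
    tP (s : SL2) ∈ kGroup (tP (A : SL2)) (tP (B : SL2)) hV := by
  rw [mem_kGroup]
  rcases h with h | h | h | h
  · left
    have h1 : e (QuotientGroup.mk s) = e (QuotientGroup.mk (1 : X)) := by
      rw [h, QuotientGroup.mk_one, map_one]
    have h2 := tP_of_quot X e s 1 h1
    rw [h2, Subgroup.coe_one, map_one]
  · right; left; exact tP_of_quot X e s A h
  · right; right; left; exact tP_of_quot X e s B h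
  · right; right; right
    have h1 : e (QuotientGroup.mk s) = e (QuotientGroup.mk (A * B)) := by
      rw [h, QuotientGroup.mk_mul, map_mul]
    have h2 := tP_of_quot X e s (A * B) h1
    rw [h2, Subgroup.coe_mul, map_mul]

section cases

variable [Fintype F]

theorem card_of_index {M : Subgroup PGL2} (D : MaxData M) (n : ℕ)
    (hidx : ((Subgroup.center SL2).subgroupOf (M.comap (tP (F := F)))).index = n) :
    Nat.card M = 2 * n := by
  rw [← D.card_pr]
  have h1 := ((Subgroup.center SL2).subgroupOf (M.comap (tP (F := F)))).card_mul_index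
  rw [hidx, Nat.card_congr (Subgroup.subgroupOfEquivOfLe (MaxData.center_le_pr M)).toEquiv,
    Cfsg.Agent.Helper5.card_center_SL2 D.two] at h1
  exact h1.symm

theorem klein_le {M : Subgroup PGL2} (A B : M.comap (tP (F := F)))
    (hV : KPair (tP (A : SL2)) (tP (B : SL2))) :
    kGroup (tP (A : SL2)) (tP (B : SL2)) hV ≤ M := by
  intro v hv
  rcases (mem_kGroup _ _ hV v).mp hv with rfl | rfl | rfl | rfl
  · exact M.one_mem
  · exact A.2
  · exact B.2
  · exact M.mul_mem A.2 B.2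

theorem case_S4 {M : Subgroup PGL2} (D : MaxData M)
    (hidx : ((Subgroup.center SL2).subgroupOf (M.comap (tP (F := F)))).index = 24)
    (e : (↥(M.comap (tP (F := F))) ⧸ (Subgroup.center SL2).subgroupOf (M.comap (tP (F := F)))) ≃*
      Equiv.Perm (Fin 4)) : False := by
  classical
  have h2 := D.two
  obtain ⟨f1, f2, f3, f4, f5, f6, -, -⟩ := s4_facts
  obtain ⟨A, B, hA, hB, htA, htB, hAB⟩ :=
    exists_lifts (M.comap (tP (F := F))) e kA kB f1 f2 f3 f4 f5 f6
  have hM48 : Nat.card M = 48 := card_of_index D 24 hidx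
  have hV := kpair_tP h2 A.1 B.1 htA htB hAB
  obtain ⟨c₁, c₂, hc1, hc2, hc14, hc24⟩ := s4_roots
  obtain ⟨C₁, hC1⟩ := QuotientGroup.mk_surjective (e.symm c₁)
  obtain ⟨C₂, hC2⟩ := QuotientGroup.mk_surjective (e.symm c₂)
  have hC1' : e (QuotientGroup.mk C₁) = c₁ := by rw [hC1]; simp
  have hC2' : e (QuotientGroup.mk C₂) = c₂ := by rw [hC2]; simp
  have hN : ∀ (R : Matrix (Fin 2) (Fin 2) F) (hR : R.det ≠ 0), mkQ R hR ∈ M →
      tP (conjGL R hR A.1) ∈ kGroup (tP A.1) (tP B.1) hV ∧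
      tP (conjGL R hR B.1) ∈ kGroup (tP A.1) (tP B.1) hV := by
    intro R hR hm
    have key : ∀ (C C' : M.comap (tP (F := F))) (c : Equiv.Perm (Fin 4)),
        e (QuotientGroup.mk C') = c → c ^ 4 = 1 → e (QuotientGroup.mk C) = c ^ 2 →
        tP (conjGL R hR C.1) ∈ kGroup (tP A.1) (tP B.1) hV := by
      intro C C' c hC' hc4 hC
      have hs : conjGL R hR C'.1 ∈ M.comap (tP (F := F)) :=
        conjGL_mem_pr M R hR hm C'.1 C'.2
      have hcc : (conjGL R hR C'.1) ^ 4 ∈ Subgroup.center SL2 := by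
        rw [← map_pow, conjGL_mem_center]
        exact quot_pow_center (M.comap (tP (F := F))) e C' 4 (by rw [hC', hc4])
      have h1 := quot_pow_of_center (M.comap (tP (F := F))) e ⟨_, hs⟩ 4 hcc
      have h3 := s4_sq_fact _ h1
      rw [← hA, ← hB, ← map_pow, ← QuotientGroup.mk_pow] at h3
      have h4 := tP_mem_klein (M.comap (tP (F := F))) e A B hV (⟨_, hs⟩ ^ 2) h3
      have h5 : tP C.1 = tP (C'.1 ^ 2) := by
        have h6 := tP_of_quot (M.comap (tP (F := F))) e C (C' ^ 2)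
          (by rw [hC, QuotientGroup.mk_pow, map_pow, hC'])
        rw [h6, Subgroup.coe_pow]
      rw [← mkQ_conj, h5, mkQ_conj, map_pow]
      exact h4
    exact ⟨key A C₁ c₁ hC1' hc14 (by rw [hA, hc1]), key B C₂ c₂ hC2' hc24 (by rw [hB, hc2])⟩
  have hnorm := klein_norm A.1 B.1 hV hN
  obtain ⟨hVn, hVc, hVC⟩ := klein_sub_facts M _ (klein_le A B hV) hnorm
    (klein_cent h2 A.1 B.1 htA htB hAB hV) (kGroup_card _ _ hV)
  haveI := hVn
  have h24 := Cfsg.Agent.Helper71.ZRec.card_dvd _ hVc hVC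
  rw [hM48] at h24
  norm_num at h24

theorem case_A4 (p : ℕ) [Fact p.Prime] [CharP F p] {M : Subgroup PGL2} (D : MaxData M)
    (hidx : ((Subgroup.center SL2).subgroupOf (M.comap (tP (F := F)))).index = 12)
    (e : (↥(M.comap (tP (F := F))) ⧸ (Subgroup.center SL2).subgroupOf (M.comap (tP (F := F)))) ≃*
      alternatingGroup (Fin 4)) : Goal5 M := by
  classical
  have h2 := D.two
  obtain ⟨f1, f2, f3, f4, f5, f6⟩ := a4_facts
  obtain ⟨A, B, hA, hB, htA, htB, hAB⟩ :=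
    exists_lifts (M.comap (tP (F := F))) e a4A a4B f1 f2 f3 f4 f5 f6
  have HT : ∀ h ∈ M.comap (tP (F := F)), tr h ∈ (⊥ : Subfield F) := by
    intro h hh
    by_cases hc : h ∈ Subgroup.center SL2
    · exact tr_center_mem _ h hc
    · rcases a4_pow_fact (e (QuotientGroup.mk ⟨h, hh⟩)) with g2 | g3
      · rw [tr_of_sq h hc (quot_pow_center (M.comap (tP (F := F))) e ⟨h, hh⟩ 2 g2)]
        exact Subfield.zero_mem _
      · rcases tr_of_cube h hc (quot_pow_center (M.comap (tP (F := F))) e ⟨h, hh⟩ 3 g3)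
          with t | t <;> rw [t]
        · exact Subfield.one_mem _
        · exact Subfield.neg_mem _ (Subfield.one_mem _)
  by_cases hbot : ∀ c : F, c ∈ (⊥ : Subfield F)
  swap
  · push Not at hbot
    obtain ⟨c0, hc0⟩ := hbot
    exact trace_sub p D ⊥ c0 hc0 A.1 B.1 A.2 B.2 htA htB hAB HT
  have hqp : Fintype.card F = p := by
    have h1 : (⊥ : Subfield F) = ⊤ := eq_top_iff.mpr (fun c _ => hbot c)
    have h3 := Subfield.card_bot F p
    rw [h1, Nat.card_congr (Subfield.topEquiv (K := F)).toEquiv, Nat.card_eq_fintype_card] at h3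
    exact h3
  have hM24 : Nat.card M = 24 := card_of_index D 12 hidx
  have hV := kpair_tP h2 A.1 B.1 htA htB hAB
  have hN : ∀ (R : Matrix (Fin 2) (Fin 2) F) (hR : R.det ≠ 0), mkQ R hR ∈ M →
      tP (conjGL R hR A.1) ∈ kGroup (tP A.1) (tP B.1) hV ∧
      tP (conjGL R hR B.1) ∈ kGroup (tP A.1) (tP B.1) hV := by
    intro R hR hm
    have key : ∀ C : M.comap (tP (F := F)), tr C.1 = 0 →
        tP (conjGL R hR C.1) ∈ kGroup (tP A.1) (tP B.1) hV := by
      intro C hC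
      have hs : conjGL R hR C.1 ∈ M.comap (tP (F := F)) := conjGL_mem_pr M R hR hm C.1 C.2
      have hc : (conjGL R hR C.1) ^ 2 ∈ Subgroup.center SL2 := by
        rw [← map_pow, conjGL_mem_center]
        exact center_of_tr_zero C.1 hC
      have h1 := quot_pow_of_center (M.comap (tP (F := F))) e ⟨_, hs⟩ 2 hc
      have h3 := a4_sq_fact _ h1
      rw [← hA, ← hB] at h3
      exact tP_mem_klein (M.comap (tP (F := F))) e A B hV ⟨_, hs⟩ h3
    exact ⟨key A htA, key B htB⟩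
  have hnorm := klein_norm A.1 B.1 hV hN
  obtain ⟨hVn, hVc, hVC⟩ := klein_sub_facts M _ (klein_le A B hV) hnorm
    (klein_cent h2 A.1 B.1 htA htB hAB hV) (kGroup_card _ _ hV)
  haveI := hVn
  have hS4 : Nonempty (M ≃* Equiv.Perm (Fin 4)) :=
    (Cfsg.Agent.Helper71.ZRec.equiv_of_klein_normal _ hVc hVC (Or.inr hM24)).2 hM24
  have hNeq := klein_normalizer_eq D A.1 B.1 htA htB hAB hV hnorm
  right; right; right; left
  refine ⟨by rw [hqp]; exact Fact.out, ?_, hS4⟩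
  by_contra hq8
  have hsq : IsSquare (2 : F) := FiniteField.isSquare_two_iff.mpr (by omega)
  obtain ⟨δ, hδ⟩ := hsq
  have hδ0 : δ ≠ 0 := by
    rintro rfl
    apply h2
    rw [hδ]; ring
  have hAA : A.1.1 * A.1.1 = -1 := mat_sq_neg_one A.1.1 htA A.1.2
  have hdet : (1 + A.1.1).det = 2 := by
    have hd := sl2_det A.1
    have ht := htA
    rw [tr_eq] at ht
    have e1 : (1 + A.1.1) = !![1 + A.1.1 0 0, A.1.1 0 1; A.1.1 1 0, 1 + A.1.1 1 1] := by
      ext i j
      fin_cases i <;> fin_cases j <;> simp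
    rw [e1, Matrix.det_fin_two_of]
    linear_combination hd + ht
  have hU : (1 + A.1.1).det ≠ 0 := by rw [hdet]; exact h2
  have hsdet : (δ⁻¹ • (1 + A.1.1)).det = 1 := by
    rw [Matrix.det_smul, Fintype.card_fin, hdet, hδ]
    field_simp
  obtain ⟨s, hs⟩ : ∃ s : SL2, s.1 = δ⁻¹ • (1 + A.1.1) := ⟨⟨_, hsdet⟩, rfl⟩
  have hss : s * s = A.1 := by
    apply Subtype.ext
    rw [Matrix.SpecialLinearGroup.coe_mul, hs, Matrix.smul_mul, Matrix.mul_smul, smul_smul]
    have e1 : (1 + A.1.1) * (1 + A.1.1) = (2 : F) • A.1.1 := by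
      rw [Matrix.add_mul, Matrix.mul_add, Matrix.mul_add, hAA, Matrix.one_mul, Matrix.mul_one,
        Matrix.one_mul, two_smul]
      abel
    rw [e1, smul_smul, hδ]
    have e2 : δ⁻¹ * δ⁻¹ * (δ * δ) = 1 := by field_simp
    rw [e2, one_smul]
  have hsu : tP s = mkQ (1 + A.1.1) hU := by
    rw [tP_eq]
    symm
    rw [mkQ_eq_iff]
    exact ⟨δ⁻¹, inv_ne_zero hδ0, hs⟩
  have huN : mkQ (1 + A.1.1) hU ∈
      Subgroup.normalizer ((kGroup (tP A.1) (tP B.1) hV : Subgroup PGL2) : Set PGL2) := by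
    apply Cfsg.Agent.Helper5.mem_normalizer_of_map_le
    rintro _ ⟨v, hv, rfl⟩
    show mkQ (1 + A.1.1) hU * v * (mkQ (1 + A.1.1) hU)⁻¹ ∈ _
    have eA : mkQ (1 + A.1.1) hU * tP A.1 * (mkQ (1 + A.1.1) hU)⁻¹ = tP A.1 := by
      rw [mul_inv_eq_iff_eq_mul, tP_eq]
      apply mkQ_mul_eq_of
      rw [Matrix.add_mul, Matrix.mul_add, Matrix.one_mul, Matrix.mul_one]
    have eB : mkQ (1 + A.1.1) hU * tP B.1 * (mkQ (1 + A.1.1) hU)⁻¹ = tP (A.1 * B.1) := by
      rw [mul_inv_eq_iff_eq_mul, tP_eq, tP_eq]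
      apply mkQ_mul_eq_of
      rw [Matrix.SpecialLinearGroup.coe_mul, Matrix.add_mul, Matrix.mul_add, Matrix.one_mul,
        Matrix.mul_one]
      have e3 : A.1.1 * B.1.1 * A.1.1 = B.1.1 := by
        rw [Matrix.mul_assoc, show B.1.1 * A.1.1 = -(A.1.1 * B.1.1) by rw [hAB, neg_neg],
          Matrix.mul_neg, ← Matrix.mul_assoc, hAA]
        simp
      rw [e3, add_comm]
    have hkA : tP A.1 ∈ kGroup (tP A.1) (tP B.1) hV :=
      (mem_kGroup _ _ hV _).mpr (Or.inr (Or.inl rfl))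
    have hkAB : tP (A.1 * B.1) ∈ kGroup (tP A.1) (tP B.1) hV := by
      rw [map_mul]; exact (mem_kGroup _ _ hV _).mpr (Or.inr (Or.inr (Or.inr rfl)))
    rcases (mem_kGroup _ _ hV v).mp hv with rfl | rfl | rfl | rfl
    · rw [mul_one, mul_inv_cancel]; exact one_mem _
    · rw [eA]; exact hkA
    · rw [eB]; exact hkAB
    · have e' : ∀ m a b : PGL2, m * (a * b) * m⁻¹ = (m * a * m⁻¹) * (m * b * m⁻¹) := by
        intro m a b; group
      rw [e', eA, eB]
      exact mul_mem hkA hkAB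
  rw [hNeq] at huN
  have hsM : s ∈ M.comap (tP (F := F)) := by
    rw [Subgroup.mem_comap, hsu]; exact huN
  have hg2 : (e (QuotientGroup.mk ⟨s, hsM⟩)) ^ 2 = a4A := by
    rw [← map_pow, ← QuotientGroup.mk_pow, ← hA]
    congr 2
    apply Subtype.ext
    rw [Subgroup.coe_pow, pow_two]; exact hss
  rcases a4_pow_fact (e (QuotientGroup.mk ⟨s, hsM⟩)) with g2 | g3
  · rw [g2] at hg2; exact f1 hg2.symm
  · have h4 : (e (QuotientGroup.mk ⟨s, hsM⟩)) ^ 4 = 1 := by
      have h6 : (e (QuotientGroup.mk ⟨s, hsM⟩)) ^ 4 = ((e (QuotientGroup.mk ⟨s, hsM⟩)) ^ 2) ^ 2 := by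
        rw [← pow_mul]
      rw [h6, hg2]; exact f4
    have h1 : e (QuotientGroup.mk ⟨s, hsM⟩) = 1 := by
      have h5 : (e (QuotientGroup.mk ⟨s, hsM⟩)) ^ 4 =
          (e (QuotientGroup.mk ⟨s, hsM⟩)) ^ 3 * e (QuotientGroup.mk ⟨s, hsM⟩) := pow_succ _ 3
      rw [h4, g3, one_mul] at h5
      exact h5.symm
    rw [h1, one_pow] at hg2
    exact f1 hg2.symm

end cases

end Cfsg.Agent.Helper5.GMax
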