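import Mathlib
import Cfsg.Agent.Helper5.GMaxG

/-!
# Maximal subgroups of `PGL₂(q)`, part H (helper5)

The case `A₅` of Dickson's theorem for a maximal subgroup of `PGL₂(F)` not containing `PSL₂(F)`:
in characteristic `5` it is a subfield subgroup, otherwise it cannot occur, because an element of
`PGL₂(F)` normalising a copy of `A₅` in `PSL₂(F)` induces an inner automorphism.
-/

set_option autoImplicit false
set_option linter.style.haveILetI false

namespace Cfsg.Agent.Helper5.GMax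

open Cfsg.Agent.Helper41 Cfsg.Agent.Helper41.Dk Cfsg.Agent.Helper5.PMax Matrix
open Cfsg.Agent.Helper40.PSL2Klein

/-- a `5`-cycle in `A₅`. -/
def a5Y : alternatingGroup (Fin 5) :=
  alt (Equiv.swap 0 1 * Equiv.swap 1 2 * Equiv.swap 2 3 * Equiv.swap 3 4) (by decide)

set_option maxRecDepth 100000 in
theorem a5Y_facts : a5Y ^ 5 = 1 ∧ a5Y ≠ 1 ∧ (a5Y * a5A) ^ 3 = 1 ∧
    a5B = a5Y ^ 2 * a5A * (a5Y⁻¹) ^ 2 * a5A * a5Y ^ 2 := by
  unfold a5Y a5A a5B alt
  decide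

set_option maxRecDepth 1000000 in
theorem a5_pow_fact : ∀ g : alternatingGroup (Fin 5), g ^ 2 = 1 ∨ g ^ 3 = 1 ∨ g ^ 5 = 1 := by
  decide

set_option maxRecDepth 1000000 in
theorem a5_conj5 : ∀ g : alternatingGroup (Fin 5), g ^ 5 = 1 → g ≠ 1 →
    ∃ σ : alternatingGroup (Fin 5), σ * g * σ⁻¹ = a5Y ∨ σ * g * σ⁻¹ = a5Y ^ 2 := by
  unfold a5Y alt
  decide

set_option maxRecDepth 1000000 in
theorem a5_rigid_t : ∀ t : alternatingGroup (Fin 5), t ^ 2 = 1 → t ≠ 1 → (a5Y * t) ^ 3 = 1 →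
    ∃ j : Fin 5, t = a5Y ^ (j : ℕ) * a5A * (a5Y ^ (j : ℕ))⁻¹ := by
  unfold a5Y a5A alt
  decide

/-- an endomorphism of `A₅` not sending a `5`-cycle into the other class of `5`-cycles is inner
on the four-group. -/
theorem a5_rigid (ψ : alternatingGroup (Fin 5) →* alternatingGroup (Fin 5))
    (h1 : ψ a5Y ≠ 1) (h2 : ψ a5A ≠ 1)
    (h3 : ∀ σ : alternatingGroup (Fin 5), σ * ψ a5Y * σ⁻¹ ≠ a5Y ^ 2) :
    ∃ ρ : alternatingGroup (Fin 5), ρ * ψ a5A * ρ⁻¹ = a5A ∧ ρ * ψ a5B * ρ⁻¹ = a5B := by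
  obtain ⟨y5, y1, yA3, yB⟩ := a5Y_facts
  obtain ⟨-, -, -, hA2, -, -, -, -⟩ := a5_facts
  have hg5 : ψ a5Y ^ 5 = 1 := by rw [← map_pow, y5, map_one]
  obtain ⟨σ, hσ | hσ⟩ := a5_conj5 (ψ a5Y) hg5 h1
  swap
  · exact absurd hσ (h3 σ)
  have ht2 : (σ * ψ a5A * σ⁻¹) ^ 2 = 1 := by
    rw [conj_pow, ← map_pow, hA2, map_one, mul_one, mul_inv_cancel]
  have ht1 : σ * ψ a5A * σ⁻¹ ≠ 1 := by
    intro h
    apply h2
    have e1 : ψ a5A = σ⁻¹ * (σ * ψ a5A * σ⁻¹) * σ := by group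
    rw [e1, h]; group
  have ht3 : (a5Y * (σ * ψ a5A * σ⁻¹)) ^ 3 = 1 := by
    have e1 : a5Y * (σ * ψ a5A * σ⁻¹) = σ * ψ (a5Y * a5A) * σ⁻¹ := by
      have e2 : σ * (ψ a5Y * ψ a5A) * σ⁻¹ = (σ * ψ a5Y * σ⁻¹) * (σ * ψ a5A * σ⁻¹) := by group
      rw [map_mul, e2, hσ]
    rw [e1, conj_pow, ← map_pow, yA3, map_one, mul_one, mul_inv_cancel]
  obtain ⟨j, hj⟩ := a5_rigid_t _ ht2 ht1 ht3
  obtain ⟨ρ, hρ⟩ : ∃ ρ : alternatingGroup (Fin 5), ρ = (a5Y ^ (j : ℕ))⁻¹ * σ := ⟨_, rfl⟩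
  have hχY : ρ * ψ a5Y * ρ⁻¹ = a5Y := by
    have e1 : ρ * ψ a5Y * ρ⁻¹ = (a5Y ^ (j : ℕ))⁻¹ * (σ * ψ a5Y * σ⁻¹) * a5Y ^ (j : ℕ) := by
      rw [hρ]; group
    rw [e1, hσ]; group
  have hχA : ρ * ψ a5A * ρ⁻¹ = a5A := by
    have e1 : ρ * ψ a5A * ρ⁻¹ = (a5Y ^ (j : ℕ))⁻¹ * (σ * ψ a5A * σ⁻¹) * a5Y ^ (j : ℕ) := by
      rw [hρ]; group
    rw [e1, hj]; group
  refine ⟨ρ, hχA, ?_⟩
  have hχ : ∀ x, ((MulAut.conj ρ).toMonoidHom.comp ψ) x = ρ * ψ x * ρ⁻¹ := fun x => rfl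
  rw [← hχ]
  conv_lhs => rw [yB]
  simp only [map_mul, map_pow, map_inv]
  rw [hχ, hχ, hχY, hχA]
  exact yB.symm

variable {F : Type*} [Field F]

local notation "SL2" => Matrix.SpecialLinearGroup (Fin 2) F
local notation "PGL2" => Matrix.ProjGenLinGroup (Fin 2) F

section cases

variable [Fintype F]

theorem case_A5_ne {M : Subgroup PGL2} (D : MaxData M) (h5 : (5 : F) ≠ 0)
    (e : (↥(M.comap (tP (F := F))) ⧸ (Subgroup.center SL2).subgroupOf (M.comap (tP (F := F)))) ≃*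
      alternatingGroup (Fin 5)) : False := by
  classical
  have h2 := D.two
  have h4 : (4 : F) ≠ 0 := by
    have e4 : (4 : F) = 2 * 2 := by norm_num
    rw [e4]; exact mul_ne_zero h2 h2
  obtain ⟨f1, f2, f3, f4, f5, f6, -, -⟩ := a5_facts
  obtain ⟨A, B, hA, hB, htA, htB, hAB⟩ :=
    exists_lifts (M.comap (tP (F := F))) e a5A a5B f1 f2 f3 f4 f5 f6
  obtain ⟨y5, y1, yA3, yB⟩ := a5Y_facts
  -- the element of order 5
  obtain ⟨Y₁, hY₁⟩ := QuotientGroup.mk_surjective (e.symm a5Y)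
  have hY₁' : e (QuotientGroup.mk Y₁) = a5Y := by rw [hY₁]; simp
  obtain ⟨Y, hYdef⟩ : ∃ Y : M.comap (tP (F := F)), Y = Y₁ ^ 6 := ⟨_, rfl⟩
  have hY : e (QuotientGroup.mk Y) = a5Y := by
    rw [hYdef, QuotientGroup.mk_pow, map_pow, hY₁', pow_succ, y5, one_mul]
  have hY5 : Y.1 ^ 5 = 1 := by
    have hc := quot_pow_center (M.comap (tP (F := F))) e Y₁ 5 (by rw [hY₁', y5])
    have hz := center_sq _ hc
    rw [hYdef, Subgroup.coe_pow, ← pow_mul]
    calc Y₁.1 ^ (6 * 5) = (Y₁.1 ^ 5 * Y₁.1 ^ 5) ^ 3 := by rw [← pow_add, ← pow_mul]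
      _ = 1 := by rw [hz, one_pow]
  have hYnc : Y.1 ∉ Subgroup.center SL2 := by
    intro hc
    apply y1
    rw [← hY]; exact quot_one_of_center _ e Y hc
  -- an element of `M` outside `PSL₂`
  obtain ⟨m, hmM, hmL⟩ : ∃ m ∈ M, m ∉ (tP (F := F)).range := by
    by_contra hcon
    push Not at hcon
    have h1 : M ≤ (tP (F := F)).range := hcon
    have h3 := D.sup_eq_top
    rw [sup_eq_right.mpr h1] at h3
    have h6 := index_range_tP (F := F) h2
    rw [h3, Subgroup.index_top] at h6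
    norm_num at h6
  obtain ⟨R, hR, rfl⟩ := exists_mkQ m
  -- the induced endomorphism of `A₅`
  let f' : M.comap (tP (F := F)) →* M.comap (tP (F := F)) :=
    ((conjGL R hR).comp (M.comap (tP (F := F))).subtype).codRestrict (M.comap (tP (F := F)))
      (fun s => conjGL_mem_pr M R hR hmM s.1 s.2)
  have hf' : ∀ s : M.comap (tP (F := F)), (f' s).1 = conjGL R hR s.1 := fun s => rfl
  have hZ : (Subgroup.center SL2).subgroupOf (M.comap (tP (F := F))) ≤
      ((Subgroup.center SL2).subgroupOf (M.comap (tP (F := F)))).comap f' := by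
    intro s hs
    rw [Subgroup.mem_comap, Subgroup.mem_subgroupOf, hf', conjGL_mem_center]
    exact Subgroup.mem_subgroupOf.mp hs
  let ψ : alternatingGroup (Fin 5) →* alternatingGroup (Fin 5) :=
    e.toMonoidHom.comp ((QuotientGroup.map _ _ f' hZ).comp e.symm.toMonoidHom)
  have hψ : ∀ s : M.comap (tP (F := F)),
      ψ (e (QuotientGroup.mk s)) = e (QuotientGroup.mk (f' s)) := by
    intro s
    show e (QuotientGroup.map _ _ f' hZ (e.symm (e (QuotientGroup.mk s)))) = _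
    rw [MulEquiv.symm_apply_apply, QuotientGroup.map_mk]
  have hnc : ∀ s : M.comap (tP (F := F)), e (QuotientGroup.mk s) ≠ 1 →
      ψ (e (QuotientGroup.mk s)) ≠ 1 := by
    intro s hs h1
    apply hs
    rw [hψ] at h1
    have h3 := quot_pow_center (M.comap (tP (F := F))) e (f' s) 1 (by rw [pow_one]; exact h1)
    rw [pow_one, hf', conjGL_mem_center] at h3
    exact quot_one_of_center _ e s h3
  have h3 : ∀ σ : alternatingGroup (Fin 5), σ * ψ a5Y * σ⁻¹ ≠ a5Y ^ 2 := by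
    intro σ hσ
    obtain ⟨S, hS⟩ := QuotientGroup.mk_surjective (e.symm σ)
    have hS' : e (QuotientGroup.mk S) = σ := by rw [hS]; simp
    have h6 : e (QuotientGroup.mk (S * f' Y * S⁻¹)) = e (QuotientGroup.mk (Y ^ 2)) := by
      rw [QuotientGroup.mk_mul, QuotientGroup.mk_mul, QuotientGroup.mk_inv, map_mul, map_mul,
        map_inv, hS', ← hψ, hY, hσ, QuotientGroup.mk_pow, map_pow, hY]
    have h7 := tP_of_quot _ e _ _ h6
    rw [tP_eq_tP_iff] at h7
    obtain ⟨W, hW⟩ : ∃ W : SL2, W = S.1 * conjGL R hR Y.1 * S.1⁻¹ := ⟨_, rfl⟩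
    obtain ⟨z, hzdef⟩ : ∃ z : SL2, z = W⁻¹ * Y.1 ^ 2 := ⟨_, rfl⟩
    have hzc : z ∈ Subgroup.center SL2 := by
      rw [hzdef, hW]; exact h7
    have hW5 : W ^ 5 = 1 := by
      rw [hW, conj_pow, ← map_pow, hY5, map_one, mul_one, mul_inv_cancel]
    have hzz : z * z = 1 := center_sq _ hzc
    have hcomm : Commute W z := Subgroup.mem_center_iff.mp hzc W
    have hYW : Y.1 ^ 2 = W * z := by rw [hzdef]; group
    have hz5 : z ^ 5 = 1 := by
      have h8 : (Y.1 ^ 2) ^ 5 = 1 := by rw [← pow_mul, mul_comm, pow_mul, hY5, one_pow]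
      rw [hYW, hcomm.mul_pow, hW5, one_mul] at h8
      exact h8
    have hz1 : z = 1 := by
      have e1 : z ^ 5 = (z * z) ^ 2 * z := by rw [← pow_two, ← pow_mul, ← pow_succ]
      rw [e1, hzz, one_pow, one_mul] at hz5
      exact hz5
    have hWY : W = Y.1 ^ 2 := by rw [hYW, hz1, mul_one]
    have ht1 : tr W = tr Y.1 := by
      rw [hW, tr_conj, Cfsg.Agent.Helper5.PMax.tr_conjGL]
    have ht2 : tr (Y.1 ^ 2) = tr Y.1 * tr Y.1 - 2 := by
      have hsq := sl2_sq Y.1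
      show (Y.1 ^ 2).1.trace = _
      rw [Matrix.SpecialLinearGroup.coe_pow, pow_two, hsq, Matrix.trace_sub, Matrix.trace_smul,
        Matrix.trace_one, Fintype.card_fin, smul_eq_mul]
      norm_num
    rw [hWY, ht2] at ht1
    rcases tr_of_fifth Y.1 hYnc (by rw [hY5]; exact one_mem _) with h8 | h8
    · have e1 : (4 : F) * (2 * tr Y.1 + 1) = 0 := by linear_combination h8 - 4 * ht1
      have e2 := (mul_eq_zero.mp e1).resolve_left h4
      rw [e2] at h8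
      apply h5
      rw [← h8]; ring
    · have e1 : (4 : F) = 0 := by linear_combination h8 - 4 * ht1
      exact h4 e1
  obtain ⟨ρ, hρA, hρB⟩ := a5_rigid ψ (by rw [← hY]; exact hnc Y (by rw [hY]; exact y1))
    (by rw [← hA]; exact hnc A (by rw [hA]; exact f1)) h3
  obtain ⟨S, hS⟩ := QuotientGroup.mk_surjective (e.symm ρ)
  have hS' : e (QuotientGroup.mk S) = ρ := by rw [hS]; simp
  have key : ∀ C : M.comap (tP (F := F)),
      ρ * ψ (e (QuotientGroup.mk C)) * ρ⁻¹ = e (QuotientGroup.mk C) →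
      (tP S.1 * (mkQ R hR)⁻¹) * tP C.1 = tP C.1 * (tP S.1 * (mkQ R hR)⁻¹) := by
    intro C hC
    have h6 : e (QuotientGroup.mk (S * f' C * S⁻¹)) = e (QuotientGroup.mk C) := by
      rw [QuotientGroup.mk_mul, QuotientGroup.mk_mul, QuotientGroup.mk_inv, map_mul, map_mul,
        map_inv, hS', ← hψ, hC]
    have h7 := tP_of_quot _ e _ _ h6
    have h8 : tP S.1 * ((mkQ R hR)⁻¹ * tP C.1 * mkQ R hR) * (tP S.1)⁻¹ = tP C.1 := by
      rw [mkQ_conj, ← map_inv, ← map_mul, ← map_mul]; exact h7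
    calc tP S.1 * (mkQ R hR)⁻¹ * tP C.1
        = (tP S.1 * ((mkQ R hR)⁻¹ * tP C.1 * mkQ R hR) * (tP S.1)⁻¹) *
          (tP S.1 * (mkQ R hR)⁻¹) := by group
      _ = tP C.1 * (tP S.1 * (mkQ R hR)⁻¹) := by rw [h8]
  have hcA := key A (by rw [hA]; exact hρA)
  have hcB := key B (by rw [hB]; exact hρB)
  apply hmL
  have hc : tP S.1 * (mkQ R hR)⁻¹ ∈ (tP (F := F)).range := by
    rcases klein_centralizer h2 A.1 B.1 htA htB hAB _ hcA hcB with h | h | h | h <;> rw [h]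
    · exact one_mem _
    · exact ⟨_, rfl⟩
    · exact ⟨_, rfl⟩
    · exact ⟨_, rfl⟩
  have e1 : mkQ R hR = (tP S.1 * (mkQ R hR)⁻¹)⁻¹ * tP S.1 := by group
  rw [e1]
  exact mul_mem (inv_mem hc) ⟨_, rfl⟩

theorem case_A5 (p : ℕ) [Fact p.Prime] [CharP F p] {M : Subgroup PGL2} (D : MaxData M)
    (hidx : ((Subgroup.center SL2).subgroupOf (M.comap (tP (F := F)))).index = 60)
    (e : (↥(M.comap (tP (F := F))) ⧸ (Subgroup.center SL2).subgroupOf (M.comap (tP (F := F)))) ≃*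
      alternatingGroup (Fin 5)) : Goal5 M := by
  classical
  by_cases h5 : (5 : F) = 0
  swap
  · exact (case_A5_ne D h5 e).elim
  have h2 := D.two
  obtain ⟨f1, f2, f3, f4, f5, f6, -, -⟩ := a5_facts
  obtain ⟨A, B, hA, hB, htA, htB, hAB⟩ :=
    exists_lifts (M.comap (tP (F := F))) e a5A a5B f1 f2 f3 f4 f5 f6
  have k2 : (2 : F)⁻¹ ∈ (⊥ : Subfield F) := Subfield.inv_mem _ (two_mem_sub _)
  have HT : ∀ h ∈ M.comap (tP (F := F)), tr h ∈ (⊥ : Subfield F) := by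
    intro h hh
    by_cases hc : h ∈ Subgroup.center SL2
    · exact tr_center_mem _ h hc
    · rcases a5_pow_fact (e (QuotientGroup.mk ⟨h, hh⟩)) with g2 | g3 | g5
      · rw [tr_of_sq h hc (quot_pow_center (M.comap (tP (F := F))) e ⟨h, hh⟩ 2 g2)]
        exact Subfield.zero_mem _
      · rcases tr_of_cube h hc (quot_pow_center (M.comap (tP (F := F))) e ⟨h, hh⟩ 3 g3)
          with t | t <;> rw [t]
        · exact Subfield.one_mem _
        · exact Subfield.neg_mem _ (Subfield.one_mem _)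
      · rcases tr_of_fifth h hc (quot_pow_center (M.comap (tP (F := F))) e ⟨h, hh⟩ 5 g5)
          with t | t
        · rw [h5] at t
          have t' : 2 * tr h + 1 = 0 := (pow_eq_zero_iff (n := 2) (by norm_num)).mp t
          have e1 : tr h = -(2 : F)⁻¹ := by
            field_simp
            linear_combination t'
          rw [e1]; exact Subfield.neg_mem _ k2
        · rw [h5] at t
          have t' : 2 * tr h - 1 = 0 := (pow_eq_zero_iff (n := 2) (by norm_num)).mp t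
          have e1 : tr h = (2 : F)⁻¹ := by
            field_simp
            linear_combination t'
          rw [e1]; exact k2
  by_cases hbot : ∀ c : F, c ∈ (⊥ : Subfield F)
  swap
  · push Not at hbot
    obtain ⟨c0, hc0⟩ := hbot
    exact trace_sub p D ⊥ c0 hc0 A.1 B.1 A.2 B.2 htA htB hAB HT
  exfalso
  have hp5 : p = 5 := by
    have h1 : ((5 : ℕ) : F) = 0 := by exact_mod_cast h5
    have h3 := (CharP.cast_eq_zero_iff F p 5).mp h1
    exact (Nat.prime_dvd_prime_iff_eq Fact.out Nat.prime_five).mp h3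
  have hqp : Fintype.card F = p := by
    have h1 : (⊥ : Subfield F) = ⊤ := eq_top_iff.mpr (fun c _ => hbot c)
    have h3 := Subfield.card_bot F p
    rw [h1, Nat.card_congr (Subfield.topEquiv (K := F)).toEquiv, Nat.card_eq_fintype_card] at h3
    exact h3
  have hM : Nat.card M = 120 := card_of_index D 60 hidx
  apply D.co.1
  apply Subgroup.eq_top_of_card_eq
  rw [hM, Cfsg.Agent.Helper5.card_PGL2_eq, hqp, hp5]
  norm_num

end cases

end Cfsg.Agent.Helper5.GMax
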