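import Mathlib
import Cfsg.Agent.Helper60.NCDefs

/-!
# helper5: piece NILFIX of CALL S4135 (helper60): in an `r`-group `P`, a subgroup `H ≤ P` normalised by
`P` and not inside `Z₀` has an element outside `Z₀` all of whose commutators with `P` lie in `Z₀`
-/

set_option autoImplicit false
open Subgroup

namespace Cfsg.Agent.Helper5.NCNILFIX
open Cfsg.Agent.Helper60.NC
open scoped commutatorElement

variable {G : Type*} [Group G] [Finite G] {r : ℕ} [Fact r.Prime] {N : Subgroup G} {m : ℕ}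

/-- NILFIX -/
theorem nilfix (P : Subgroup G) (hP : IsPGroup r P) (H Z₀ : Subgroup G) (hHP : H ≤ P)
    (hnorm : ∀ t ∈ P, ∀ h ∈ H, t⁻¹ * h * t ∈ H) (hH : ¬ H ≤ Z₀) :
    ∃ h ∈ H, h ∉ Z₀ ∧ ∀ t ∈ P, h⁻¹ * t⁻¹ * h * t ∈ Z₀ := by
  classical
  have hnil : Group.IsNilpotent P := hP.isNilpotent
  obtain ⟨n, hn⟩ := (Subgroup.isNilpotent_iff_lowerCentralSeries P).mp hnil
  have hex : ∃ i, H ⊓ P.lowerCentralSeries i ≤ Z₀ :=
    ⟨n, by rw [hn]; exact inf_le_right.trans bot_le⟩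
  have hspec : H ⊓ P.lowerCentralSeries (Nat.find hex) ≤ Z₀ := Nat.find_spec hex
  have hpos : Nat.find hex ≠ 0 := by
    intro h0
    apply hH
    rw [h0] at hspec
    intro x hx
    apply hspec
    refine ⟨hx, ?_⟩
    rw [Subgroup.lowerCentralSeries_zero]
    exact hHP hx
  obtain ⟨j, hj⟩ := Nat.exists_eq_succ_of_ne_zero hpos
  have hjn : ¬ H ⊓ P.lowerCentralSeries j ≤ Z₀ :=
    Nat.find_min hex (by omega)
  rw [hj] at hspec
  obtain ⟨h, hh, hhZ⟩ := SetLike.not_le_iff_exists.mp hjn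
  refine ⟨h, hh.1, hhZ, fun t ht => ?_⟩
  apply hspec
  refine ⟨?_, ?_⟩
  · have h1 := hnorm t ht h hh.1
    have h2 := H.mul_mem (H.inv_mem hh.1) h1
    have e : h⁻¹ * (t⁻¹ * h * t) = h⁻¹ * t⁻¹ * h * t := by group
    rw [e] at h2
    exact h2
  · have h3 : ⁅h⁻¹, t⁻¹⁆ ∈ ⁅P.lowerCentralSeries j, P⁆ :=
      Subgroup.commutator_mem_commutator (inv_mem hh.2) (inv_mem ht)
    rw [commutatorElement_def, inv_inv, inv_inv] at h3
    exact h3

end Cfsg.Agent.Helper5.NCNILFIX
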