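import Cfsg.Agent.Helper5.DkMax
import Cfsg.Agent.Helper5.QuatRecog
import Cfsg.Agent.Helper5.SL2Sylow
import Cfsg.Agent.Helper41.DkMax

set_option autoImplicit false
set_option linter.unusedSimpArgs false
set_option linter.unusedSectionVars false

/-!
# A `p`-element of `SL₂(q)` acting on an invariant `p'`-subgroup: general lemmas
-/

namespace Cfsg.Agent.Helper5

open Matrix Cfsg.Agent.Helper41 Cfsg.Agent.Helper41.Dk

section grp
variable {G : Type*} [Group G]

/-- if `a` commutes with `g = a r a⁻¹ r⁻¹` and `a³ = 1` then `g³ = 1`. -/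
theorem comm_cube_of_comm (a r : G) (ha : a ^ 3 = 1)
    (h : Commute a (a * r * a⁻¹ * r⁻¹)) : (a * r * a⁻¹ * r⁻¹) ^ 3 = 1 := by
  obtain ⟨g, hg⟩ : ∃ g : G, g = a * r * a⁻¹ * r⁻¹ := ⟨_, rfl⟩
  rw [← hg] at h ⊢
  have h1 : a * r * a⁻¹ = g * r := by rw [hg]; group
  have hc : ∀ x : G, a * (g * x) * a⁻¹ = g * (a * x * a⁻¹) := by
    intro x
    have : a * g = g * a := h.eq
    calc a * (g * x) * a⁻¹ = (a * g) * x * a⁻¹ := by group
      _ = (g * a) * x * a⁻¹ := by rw [this]
      _ = g * (a * x * a⁻¹) := by group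
  have ha' : a * a * a = 1 := by rw [← ha, pow_succ, pow_two]
  have h3 : a * (a * (a * r * a⁻¹) * a⁻¹) * a⁻¹ = r := by
    have : a * (a * (a * r * a⁻¹) * a⁻¹) * a⁻¹ = (a * a * a) * r * (a * a * a)⁻¹ := by group
    rw [this, ha']; group
  rw [h1, hc, h1, hc, hc, h1] at h3
  have h4 : g * g * g = 1 := by
    have : g * (g * (g * r)) = (g * g * g) * r := by group
    rw [this] at h3
    exact mul_eq_right.mp h3
  rw [pow_succ, pow_two]; exact h4

theorem cube_mod_aux : ∀ n : ℕ, n ∣ 8 → ∀ k : ℕ, k * k * k ≡ 1 [MOD n] → k ≡ 1 [MOD n] := by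
  intro n hn k hk
  have hle : n ≤ 8 := Nat.le_of_dvd (by norm_num) hn
  have h1 : ((k : ZMod n)) ^ 3 = 1 := by
    have := (ZMod.natCast_eq_natCast_iff (k * k * k) 1 n).2 hk
    push_cast at this
    rw [← this]; ring
  have h2 : ∀ x : ZMod n, x ^ 3 = 1 → x = 1 := by
    rcases (by decide : ∀ m ≤ 8, m ∣ 8 → m = 1 ∨ m = 2 ∨ m = 4 ∨ m = 8) n hle hn with
      rfl | rfl | rfl | rfl <;> decide
  have h3 := h2 _ h1
  exact (ZMod.natCast_eq_natCast_iff k 1 n).1 (by push_cast; exact h3)

/-- an element of order 3 normalising a cyclic group of order dividing 8 centralises it. -/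
theorem comm_of_conj_mem_zpowers (a g : G) (ha : a ^ 3 = 1) (hg : g ^ 8 = 1)
    (h : a * g * a⁻¹ ∈ Subgroup.zpowers g) : a * g * a⁻¹ = g := by
  have hfin : IsOfFinOrder g := isOfFinOrder_iff_pow_eq_one.2 ⟨8, by norm_num, hg⟩
  rw [← hfin.mem_powers_iff_mem_zpowers, Submonoid.mem_powers_iff] at h
  obtain ⟨k, hk⟩ := h
  have hc : ∀ n : ℕ, a * g ^ n * a⁻¹ = (g ^ k) ^ n := by
    intro n
    rw [hk, conj_pow]
  have ha' : a * a * a = 1 := by rw [← ha, pow_succ, pow_two]
  have h3 : a * (a * (a * g * a⁻¹) * a⁻¹) * a⁻¹ = g := by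
    have : a * (a * (a * g * a⁻¹) * a⁻¹) * a⁻¹ = (a * a * a) * g * (a * a * a)⁻¹ := by group
    rw [this, ha']; group
  rw [← hk, hc, ← pow_mul, hc, ← pow_mul] at h3
  have h4 : g ^ (k * k * k) = g ^ 1 := by rw [pow_one, Nat.mul_assoc]; exact h3
  rw [pow_eq_pow_iff_modEq] at h4
  have h5 := cube_mod_aux (orderOf g) (orderOf_dvd_of_pow_eq_one hg) k h4
  rw [← hk]
  have h6 : g ^ k = g ^ 1 := pow_eq_pow_iff_modEq.2 h5
  rw [h6, pow_one]

/-- In `N ⟨a⟩` with `a` a `p`-element normalising `N`, elements of order prime to `p` lie in `N`. -/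
theorem mem_of_coprime_of_normalizer (p : ℕ) (N : Subgroup G) (a : G) (k : ℕ)
    (ha : a ^ (p ^ k) = 1) (haN : a ∈ Subgroup.normalizer (N : Set G)) (u : G)
    (hu : u ∈ N ⊔ Subgroup.zpowers a) (hcop : (orderOf u).Coprime p) : u ∈ N := by
  obtain ⟨H, hH⟩ : ∃ H : Subgroup G, H = N ⊔ Subgroup.zpowers a := ⟨_, rfl⟩
  rw [← hH] at hu
  have hNH : N ≤ H := hH ▸ le_sup_left
  have haH : a ∈ H := hH ▸ (le_sup_right : Subgroup.zpowers a ≤ _) (Subgroup.mem_zpowers a)
  have hnorm : H ≤ Subgroup.normalizer (N : Set G) := by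
    rw [hH]
    exact sup_le Subgroup.le_normalizer (by
      rw [Subgroup.zpowers_le]; exact haN)
  have hN' : (N.subgroupOf H).Normal := (Subgroup.normal_subgroupOf_iff_le_normalizer hNH).2 hnorm
  let a' : H := ⟨a, haH⟩
  let u' : H := ⟨u, hu⟩
  let π := QuotientGroup.mk' (N.subgroupOf H)
  have hS : (Subgroup.zpowers (π a')).comap π = ⊤ := by
    rw [eq_top_iff]
    intro x _
    have hx : x.1 ∈ ((Subgroup.zpowers (π a')).comap π).map H.subtype := by
      have hle : H ≤ ((Subgroup.zpowers (π a')).comap π).map H.subtype := by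
        refine hH.le.trans (sup_le ?_ ?_)
        · intro n hn
          refine ⟨⟨n, hNH hn⟩, ?_, rfl⟩
          rw [SetLike.mem_coe, Subgroup.mem_comap]
          have : π ⟨n, hNH hn⟩ = 1 := by
            rw [QuotientGroup.mk'_apply, QuotientGroup.eq_one_iff, Subgroup.mem_subgroupOf]
            exact hn
          rw [this]; exact one_mem _
        · rw [Subgroup.zpowers_le]
          exact ⟨a', by
            rw [SetLike.mem_coe, Subgroup.mem_comap]; exact Subgroup.mem_zpowers _, rfl⟩
      exact hle x.2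
    obtain ⟨y, hy, hyx⟩ := hx
    have : y = x := Subtype.ext hyx
    rw [← this]; exact hy
  have hu1 : π u' ∈ Subgroup.zpowers (π a') := by
    have : u' ∈ (Subgroup.zpowers (π a')).comap π := by rw [hS]; trivial
    exact this
  have ha1 : (π a') ^ (p ^ k) = 1 := by
    rw [← map_pow]
    have : a' ^ (p ^ k) = 1 := Subtype.ext (by
      rw [Subgroup.coe_pow]; exact ha)
    rw [this, map_one]
  have hu2 : (π u') ^ (p ^ k) = 1 := by
    obtain ⟨j, hj⟩ := Subgroup.mem_zpowers_iff.1 hu1
    rw [← hj, ← zpow_natCast, ← _root_.zpow_mul, mul_comm, _root_.zpow_mul, zpow_natCast, ha1,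
      _root_.one_zpow]
  have hu3 : (π u') ^ (orderOf u) = 1 := by
    rw [← map_pow]
    have : u' ^ (orderOf u) = 1 := Subtype.ext (by
      rw [Subgroup.coe_pow]; exact pow_orderOf_eq_one u)
    rw [this, map_one]
  have h1 : orderOf (π u') ∣ Nat.gcd (orderOf u) (p ^ k) :=
    Nat.dvd_gcd (orderOf_dvd_of_pow_eq_one hu3) (orderOf_dvd_of_pow_eq_one hu2)
  rw [Nat.Coprime.pow_right k hcop, Nat.dvd_one, orderOf_eq_one_iff] at h1
  have h2 : u' ∈ N.subgroupOf H := (QuotientGroup.eq_one_iff u').1 h1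
  exact Subgroup.mem_subgroupOf.1 h2

theorem eq_one_of_pow_coprime (x : G) (m n : ℕ) (hm : x ^ m = 1) (hn : x ^ n = 1)
    (h : Nat.Coprime m n) : x = 1 := by
  have h1 : orderOf x ∣ Nat.gcd m n :=
    Nat.dvd_gcd (orderOf_dvd_of_pow_eq_one hm) (orderOf_dvd_of_pow_eq_one hn)
  rw [h.gcd_eq_one, Nat.dvd_one, orderOf_eq_one_iff] at h1
  exact h1

theorem prime_dvd_of_pow_eq_one (p : ℕ) [Fact p.Prime] (a : G) (k n : ℕ)
    (h1 : a ^ (p ^ k) = 1) (h2 : a ^ n = 1) (ha : a ≠ 1) : p ∣ n := by
  by_contra h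
  have hc : Nat.Coprime (p ^ k) n :=
    Nat.Coprime.pow_left k ((Nat.Prime.coprime_iff_not_dvd Fact.out).2 h)
  exact ha (eq_one_of_pow_coprime a _ _ h1 h2 hc)

end grp

section sl
variable {F : Type*} [Field F]

local notation "SL2" => Matrix.SpecialLinearGroup (Fin 2) F

/-- an element of `SL₂(F)` with square one is `±1` (char ≠ 2). -/
theorem sl2_sq_eq_one (h2 : (2 : F) ≠ 0) (y : SL2) (h : y * y = 1) : y = 1 ∨ y.1 = -1 := by
  have hm : y.1 * y.1 = 1 := by
    have := congrArg Subtype.val h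
    simpa using this
  have e00 := congrFun (congrFun hm 0) 0
  have e01 := congrFun (congrFun hm 0) 1
  have e10 := congrFun (congrFun hm 1) 0
  have e11 := congrFun (congrFun hm 1) 1
  simp only [Matrix.mul_apply, Fin.sum_univ_two, Matrix.one_apply_eq, ne_eq, zero_ne_one,
    not_false_eq_true, Matrix.one_apply_ne, one_ne_zero] at e00 e01 e10 e11
  have hd := sl2_det y
  have ht : (y.1 0 0 + y.1 1 1) ^ 2 = 4 := by linear_combination e00 + e11 + 2 * hd
  have ht0 : y.1 0 0 + y.1 1 1 ≠ 0 := by
    intro h0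
    rw [h0] at ht
    have h4 : (2 : F) * 2 = 0 := by linear_combination -ht
    rcases mul_eq_zero.mp h4 with h | h <;> exact h2 h
  have h01 : y.1 0 1 = 0 := by
    have : y.1 0 1 * (y.1 0 0 + y.1 1 1) = 0 := by linear_combination e01
    rcases mul_eq_zero.mp this with h | h
    · exact h
    · exact absurd h ht0
  have h10 : y.1 1 0 = 0 := by
    have : y.1 1 0 * (y.1 0 0 + y.1 1 1) = 0 := by linear_combination e10
    rcases mul_eq_zero.mp this with h | h
    · exact h
    · exact absurd h ht0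
  have h00 : (y.1 0 0 - 1) * (y.1 0 0 + 1) = 0 := by
    linear_combination e00 - y.1 1 0 * h01
  rcases mul_eq_zero.mp h00 with h | h
  · left
    have h1 : y.1 0 0 = 1 := sub_eq_zero.mp h
    have h11 : y.1 1 1 = 1 := by
      rw [h1, h01] at hd
      linear_combination hd
    apply Subtype.ext
    ext i j
    fin_cases i <;> fin_cases j <;> simp [h1, h01, h10, h11]
  · right
    have h1 : y.1 0 0 = -1 := by linear_combination h
    have h11 : y.1 1 1 = -1 := by
      rw [h1, h01] at hd
      linear_combination -hd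
    ext i j
    fin_cases i <;> fin_cases j <;> simp [h1, h01, h10, h11]

theorem mkSL_diag_pow (s t : F) (h : s * t - 0 * 0 = 1) (n : ℕ) :
    ((mkSL s 0 0 t h) ^ n).1 = !![s ^ n, 0; 0, t ^ n] := by
  induction n with
  | zero => simp [Matrix.one_fin_two]
  | succ n ih =>
    rw [pow_succ, Matrix.SpecialLinearGroup.coe_mul, ih, mkSL_coe]
    simp [Matrix.mul_fin_two, pow_succ]

theorem card_ne_char_sub_one [Fintype F] (p : ℕ) [Fact p.Prime] [CharP F p] :
    (Fintype.card F - 1).Coprime p := by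
  obtain ⟨n, -, hn⟩ := FiniteField.card F p
  have hp : p.Prime := Fact.out
  rw [Nat.coprime_comm, Nat.Prime.coprime_iff_not_dvd hp]
  intro h
  have h1 : p ∣ Fintype.card F := by
    rw [hn]
    exact dvd_pow_self p n.pos.ne'
  have h2 : 1 ≤ Fintype.card F := Fintype.card_pos
  have h3 : p ∣ 1 := by
    have := Nat.dvd_sub h1 h
    rwa [Nat.sub_sub_self h2] at this
  exact hp.one_lt.ne' (Nat.dvd_one.1 h3)

/-- the Dickson analysis: a `p`-element acting non-trivially on an invariant `p'`-subgroup of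
`SL₂(q)`, `q` odd, forces `p = 3` and `|R Z ⟨a⟩| = 24`. -/
theorem pact_dickson [Fintype F] (p : ℕ) [Fact p.Prime] [CharP F p] (hp : p ≠ 2)
    (a : SL2) (k : ℕ) (hak : a ^ (p ^ k) = 1) (R : Subgroup SL2)
    (hR : (Nat.card R).Coprime p) (haR : a ∈ Subgroup.normalizer (R : Set SL2))
    (r : SL2) (hrR : r ∈ R) (hra : a * r ≠ r * a) :
    p = 3 ∧ Nat.card ↥(R ⊔ Subgroup.center SL2 ⊔ Subgroup.zpowers a) = 24 := by
  classical
  have hpp : p.Prime := Fact.out
  have h2 : (2 : F) ≠ 0 := by
    intro h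
    have h' : ((2 : ℕ) : F) = 0 := by exact_mod_cast h
    rw [CharP.cast_eq_zero_iff F p] at h'
    exact hp ((Nat.prime_dvd_prime_iff_eq hpp Nat.prime_two).1 h')
  have htra : tr a = 2 := trace_eq_two_of_pow_eq_one p a k hak
  have ha1 : a ≠ 1 := by
    rintro rfl
    exact hra (by simp)
  have hconj : ∀ x ∈ R, a * x * a⁻¹ ∈ R := fun x hx => (Subgroup.mem_normalizer_iff.1 haR x).1 hx
  obtain ⟨N, hN⟩ : ∃ N : Subgroup SL2, N = R ⊔ Subgroup.center SL2 := ⟨_, rfl⟩
  obtain ⟨H, hH⟩ : ∃ H : Subgroup SL2, H = N ⊔ Subgroup.zpowers a := ⟨_, rfl⟩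
  rw [← hN, ← hH]
  have hRN : R ≤ N := hN ▸ le_sup_left
  have hZN : Subgroup.center SL2 ≤ N := hN ▸ le_sup_right
  have hNH : N ≤ H := hH ▸ le_sup_left
  have haH : a ∈ H := hH ▸ (le_sup_right : Subgroup.zpowers a ≤ _) (Subgroup.mem_zpowers a)
  have hZH : Subgroup.center SL2 ≤ H := hZN.trans hNH
  have hrH : r ∈ H := hNH (hRN hrR)
  have hcardZ : Nat.card (Subgroup.center SL2) = 2 := card_center_SL2 h2
  have hzsq : ∀ z ∈ Subgroup.center SL2, z ^ 2 = 1 := by
    intro z hz
    have h1 : (⟨z, hz⟩ : Subgroup.center SL2) ^ Nat.card (Subgroup.center SL2) = 1 :=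
      pow_card_eq_one'
    rw [hcardZ] at h1
    exact congrArg Subtype.val h1
  -- `a` normalises `N`
  have hbN : ∀ b : SL2, b ∈ Subgroup.normalizer (R : Set SL2) → ∀ n ∈ N, b * n * b⁻¹ ∈ N := by
    intro b hb
    have hle : N ≤ N.comap (MulAut.conj b).toMonoidHom := by
      rw [hN]
      apply sup_le
      · intro x hx
        rw [Subgroup.mem_comap]
        show b * x * b⁻¹ ∈ R ⊔ Subgroup.center SL2
        exact (le_sup_left : R ≤ _) ((Subgroup.mem_normalizer_iff.1 hb x).1 hx)
      · intro z hz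
        rw [Subgroup.mem_comap]
        show b * z * b⁻¹ ∈ R ⊔ Subgroup.center SL2
        have : b * z * b⁻¹ = z := by
          rw [(Subgroup.mem_center_iff.1 hz b), mul_inv_cancel_right]
        rw [this]
        exact (le_sup_right : Subgroup.center SL2 ≤ _) hz
    intro n hn
    exact hle hn
  have haN : a ∈ Subgroup.normalizer (N : Set SL2) := by
    rw [Subgroup.mem_normalizer_iff]
    intro h
    constructor
    · exact hbN a haR h
    · intro hh
      have := hbN a⁻¹ (inv_mem haR) _ hh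
      have e : a⁻¹ * (a * h * a⁻¹) * a⁻¹⁻¹ = h := by group
      rwa [e] at this
  have hmemN : ∀ u ∈ H, (orderOf u).Coprime p → u ∈ N := by
    intro u hu hcop
    exact mem_of_coprime_of_normalizer p N a k hak haN u (hH ▸ hu) hcop
  have hNpow : ∀ w ∈ N, w ^ (2 * Nat.card R) = 1 := by
    intro w hw
    have hw' : w ∈ ((R ⊔ Subgroup.center SL2 : Subgroup SL2) : Set SL2) := hN ▸ hw
    rw [Subgroup.mul_normal] at hw'
    obtain ⟨x, hx, z, hz, rfl⟩ := Set.mem_mul.1 hw'
    have hcomm : Commute x z := (Subgroup.mem_center_iff.1 hz x)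
    rw [hcomm.mul_pow]
    have h1 : x ^ (2 * Nat.card R) = 1 := by
      have : (⟨x, hx⟩ : R) ^ Nat.card R = 1 := pow_card_eq_one'
      have h' : x ^ Nat.card R = 1 := congrArg Subtype.val this
      rw [mul_comm, pow_mul, h', one_pow]
    have h2' : z ^ (2 * Nat.card R) = 1 := by
      rw [pow_mul, hzsq z hz, one_pow]
    rw [h1, h2', mul_one]
  have hcop2 : (2 * Nat.card R).Coprime p := by
    apply Nat.Coprime.mul_left _ hR
    rw [Nat.coprime_comm, Nat.Prime.coprime_iff_not_dvd hpp]
    intro h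
    exact hp ((Nat.prime_dvd_prime_iff_eq hpp Nat.prime_two).1 h)
  have hprodN : ∀ u v : SL2, u ∈ H → v ∈ H → ∀ m₁ m₂ : ℕ, u ^ m₁ = 1 → v ^ m₂ = 1 →
      m₁.Coprime p → m₂.Coprime p → (u * v) ^ (2 * Nat.card R) = 1 := by
    intro u v hu hv m₁ m₂ h1 h2' c1 c2
    have hu' := hmemN u hu (Nat.Coprime.coprime_dvd_left (orderOf_dvd_of_pow_eq_one h1) c1)
    have hv' := hmemN v hv (Nat.Coprime.coprime_dvd_left (orderOf_dvd_of_pow_eq_one h2') c2)
    exact hNpow _ (mul_mem hu' hv')
  have hpH : ∀ n : ℕ, Nat.card H = n → p ∣ n := by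
    intro n hn
    have h1 : (⟨a, haH⟩ : H) ^ Nat.card H = 1 := pow_card_eq_one'
    have h2' : a ^ n = 1 := by
      rw [← hn]
      exact congrArg Subtype.val h1
    exact prime_dvd_of_pow_eq_one p a k n hak h2' ha1
  have hquot : ∀ {X : Type} [Group X] (e : (↥H ⧸ (Subgroup.center SL2).subgroupOf H) ≃* X)
      (u₀ v₀ : X), u₀ ^ 2 = 1 → v₀ ^ 2 = 1 → orderOf (u₀ * v₀) = p → False := by
    intro X _ e u₀ v₀ hu0 hv0 ho
    obtain ⟨u, hu⟩ := QuotientGroup.mk'_surjective ((Subgroup.center SL2).subgroupOf H)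
      (e.symm u₀)
    obtain ⟨v, hv⟩ := QuotientGroup.mk'_surjective ((Subgroup.center SL2).subgroupOf H)
      (e.symm v₀)
    have hlift : ∀ (w : H) (w₀ : X), QuotientGroup.mk' ((Subgroup.center SL2).subgroupOf H) w
        = e.symm w₀ → w₀ ^ 2 = 1 → w.1 ^ 4 = 1 := by
      intro w w₀ hw hw0
      have h1 : QuotientGroup.mk' ((Subgroup.center SL2).subgroupOf H) (w ^ 2) = 1 := by
        rw [map_pow, hw, ← map_pow, hw0, map_one]
      have h2' : w ^ 2 ∈ (Subgroup.center SL2).subgroupOf H :=
        (QuotientGroup.eq_one_iff _).1 h1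
      have h3 := hzsq _ (Subgroup.mem_subgroupOf.1 h2')
      rw [Subgroup.coe_pow, ← pow_mul] at h3
      exact h3
    have c4 : (4 : ℕ).Coprime p := by
      rw [Nat.coprime_comm, Nat.Prime.coprime_iff_not_dvd hpp]
      intro h
      have h' : p ∣ 2 ^ 2 := by norm_num; exact h
      exact hp ((Nat.prime_dvd_prime_iff_eq hpp Nat.prime_two).1 (hpp.dvd_of_dvd_pow h'))
    have h5 := hprodN u.1 v.1 u.2 v.2 4 4 (hlift u u₀ hu hu0) (hlift v v₀ hv hv0) c4 c4
    have h6 : (u * v) ^ (2 * Nat.card R) = 1 := Subtype.ext (by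
      rw [Subgroup.coe_pow, Subgroup.coe_mul]; exact h5)
    have h7 : (u₀ * v₀) ^ (2 * Nat.card R) = 1 := by
      have := congrArg (fun w => e (QuotientGroup.mk' ((Subgroup.center SL2).subgroupOf H) w)) h6
      simp only [map_pow, map_mul, map_one, hu, hv, MulEquiv.apply_symm_apply] at this
      exact this
    have h8 : p ∣ 2 * Nat.card R := by
      rw [← ho]; exact orderOf_dvd_of_pow_eq_one h7
    exact (Nat.Prime.coprime_iff_not_dvd hpp).1 hcop2.symm h8
  have hcardH := card_of_index H hZH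
  rw [hcardZ] at hcardH
  have hD := dickson_subgroup p H hZH
  rcases hD with ⟨v, hv, hfix⟩ | ⟨x, hxZ, ht, hx⟩ | ⟨hidx, -⟩ | ⟨hidx, ⟨e⟩⟩ | ⟨hidx, ⟨e⟩⟩ |
    ⟨Q, hQ, K0, hS⟩
  · -- Borel
    exfalso
    have h1 := comm_pow_of_fix p v hv a r (hfix ⟨a, haH⟩) (hfix ⟨r, hrH⟩)
    have hg : a * r * a⁻¹ * r⁻¹ ∈ R := mul_mem (hconj r hrR) (inv_mem hrR)
    have h3 : (a * r * a⁻¹ * r⁻¹) ^ Nat.card R = 1 := by
      have : (⟨_, hg⟩ : R) ^ Nat.card R = 1 := pow_card_eq_one'
      exact congrArg Subtype.val this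
    have h4 := eq_one_of_pow_coprime _ _ _ h3 h1 hR
    apply hra
    have : a * r = (a * r * a⁻¹ * r⁻¹) * (r * a) := by group
    rw [this, h4, one_mul]
  · -- torus normaliser
    exfalso
    obtain ⟨A, hA⟩ : ∃ A : H, A = ⟨a, haH⟩ := ⟨_, rfl⟩
    have hc : Commute A x := by
      rcases hx A with h | h
      · have : A * x = x * A := by
          calc A * x = (A * x * A⁻¹) * A := by group
            _ = x * A := by rw [h]
        exact this
      · have h1 : A * x = x⁻¹ * A := by rw [← h]; group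
        have h2' : A * x⁻¹ = x * A := by
          have h3 : A * x⁻¹ * A⁻¹ = x := by
            have : A * x⁻¹ * A⁻¹ = (A * x * A⁻¹)⁻¹ := by group
            rw [this, h, inv_inv]
          calc A * x⁻¹ = (A * x⁻¹ * A⁻¹) * A := by group
            _ = x * A := by rw [h3]
        have h3 : (A * A) * x = x * (A * A) := by
          calc (A * A) * x = A * (A * x) := by group
            _ = A * (x⁻¹ * A) := by rw [h1]
            _ = (A * x⁻¹) * A := by group
            _ = (x * A) * A := by rw [h2']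
            _ = x * (A * A) := by group
        have h4 : Commute (A * A) x := h3
        have hodd : Odd (p ^ k) := (hpp.odd_of_ne_two hp).pow
        obtain ⟨m, hm⟩ := hodd
        have h5 : (A * A) ^ (m + 1) = A := by
          rw [← pow_two, ← pow_mul]
          have : 2 * (m + 1) = p ^ k + 1 := by omega
          rw [this, pow_succ]
          have : A ^ (p ^ k) = 1 := Subtype.ext (by
            rw [hA, Subgroup.coe_pow]; exact hak)
          rw [this, one_mul]
        rw [← h5]
        exact h4.pow_left _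
    have hc' : Commute a x.1 := by
      have := congrArg Subtype.val hc.eq
      rw [hA] at this
      exact this
    have hxc : x.1 ∉ Subgroup.center SL2 := fun h => hxZ (Subgroup.mem_subgroupOf.2 h)
    have hac : a ∉ Subgroup.center SL2 := by
      intro h
      exact hra (Subgroup.mem_center_iff.1 h r).symm
    have := tr_ne_of_comm x.1 a hxc ht hc' hac
    rw [htra] at this
    exact this (by norm_num)
  · -- A₄
    rw [hidx] at hcardH
    refine ⟨?_, hcardH⟩
    have h1 : p ∣ 2 ^ 3 * 3 := hpH _ hcardH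
    rcases (Nat.Prime.dvd_mul hpp).1 h1 with h | h
    · exact absurd ((Nat.prime_dvd_prime_iff_eq hpp Nat.prime_two).1 (hpp.dvd_of_dvd_pow h)) hp
    · exact (Nat.prime_dvd_prime_iff_eq hpp Nat.prime_three).1 h
  · -- S₄
    exfalso
    rw [hidx] at hcardH
    have h1 : p ∣ 2 ^ 4 * 3 := hpH _ hcardH
    have hp3 : p = 3 := by
      rcases (Nat.Prime.dvd_mul hpp).1 h1 with h | h
      · exact absurd ((Nat.prime_dvd_prime_iff_eq hpp Nat.prime_two).1 (hpp.dvd_of_dvd_pow h)) hp
      · exact (Nat.prime_dvd_prime_iff_eq hpp Nat.prime_three).1 h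
    refine hquot e (Equiv.swap (0 : Fin 4) 1) (Equiv.swap (1 : Fin 4) 2) (by decide) (by decide) ?_
    rw [hp3]
    exact orderOf_eq_prime (by decide) (by decide)
  · -- A₅
    exfalso
    rw [hidx] at hcardH
    have h1 : p ∣ 2 ^ 3 * 3 * 5 := hpH _ hcardH
    have hp35 : p = 3 ∨ p = 5 := by
      rcases (Nat.Prime.dvd_mul hpp).1 h1 with h | h
      · rcases (Nat.Prime.dvd_mul hpp).1 h with h | h
        · exact absurd ((Nat.prime_dvd_prime_iff_eq hpp Nat.prime_two).1
            (hpp.dvd_of_dvd_pow h)) hp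
        · exact Or.inl ((Nat.prime_dvd_prime_iff_eq hpp Nat.prime_three).1 h)
      · exact Or.inr ((Nat.prime_dvd_prime_iff_eq hpp Nat.prime_five).1 h)
    rcases hp35 with hp3 | hp5
    · refine hquot e (altMk (n := 5) (Equiv.swap 0 1 * Equiv.swap 2 3) (by decide))
        (altMk (n := 5) (Equiv.swap 0 1 * Equiv.swap 2 4) (by decide))
        (Subtype.ext (by decide)) (Subtype.ext (by decide)) ?_
      rw [hp3]
      exact orderOf_eq_prime (Subtype.ext (by decide)) (fun h => absurd (congrArg Subtype.val h)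
        (by decide))
    · refine hquot e (altMk (n := 5) (Equiv.swap 0 1 * Equiv.swap 2 3) (by decide))
        (altMk (n := 5) (Equiv.swap 1 2 * Equiv.swap 3 4) (by decide))
        (Subtype.ext (by decide)) (Subtype.ext (by decide)) ?_
      rw [hp5]
      have : Fact (Nat.Prime 5) := ⟨Nat.prime_five⟩
      exact orderOf_eq_prime (Subtype.ext (by decide)) (fun h => absurd (congrArg Subtype.val h)
        (by decide))
  · -- subfield
    obtain ⟨ι2, hι2⟩ : ∃ ι2 : ↥H →* SL2, ι2 = (conjGL Q hQ).comp H.subtype := ⟨_, rfl⟩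
    rw [← hι2] at hS
    have hinj : Function.Injective ι2 := by
      rw [hι2]
      exact (conjGL_injective Q hQ).comp Subtype.val_injective
    have hSK : ∀ g : SL2, MemK K0 g.1 → g ∈ ι2.range := by
      intro g hg
      rcases hS with h | ⟨lam, -, -, h⟩
      · exact (h g).2 hg
      · exact (h g).2 (Or.inl hg)
    have hprod : ∀ g₁ g₂ : SL2, g₁ ∈ ι2.range → g₂ ∈ ι2.range → ∀ m₁ m₂ : ℕ, g₁ ^ m₁ = 1 →
        g₂ ^ m₂ = 1 → m₁.Coprime p → m₂.Coprime p → (g₁ * g₂) ^ (2 * Nat.card R) = 1 := by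
      rintro g₁ g₂ ⟨u, rfl⟩ ⟨v, rfl⟩ m₁ m₂ h1 h2' c1 c2
      have hu : u.1 ^ m₁ = 1 := by
        have : u ^ m₁ = 1 := hinj (by rw [map_pow, h1, map_one])
        rw [← Subgroup.coe_pow, this]; rfl
      have hv : v.1 ^ m₂ = 1 := by
        have : v ^ m₂ = 1 := hinj (by rw [map_pow, h2', map_one])
        rw [← Subgroup.coe_pow, this]; rfl
      have h5 := hprodN u.1 v.1 u.2 v.2 m₁ m₂ hu hv c1 c2
      have h6 : (u * v) ^ (2 * Nat.card R) = 1 := Subtype.ext (by
        rw [Subgroup.coe_pow, Subgroup.coe_mul]; exact h5)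
      rw [← map_mul, ← map_pow, h6, map_one]
    by_cases hbig : ∃ s ∈ K0, s ≠ 0 ∧ s ^ 2 ≠ 1
    · exfalso
      obtain ⟨s, hsK, hs0, hs1⟩ := hbig
      obtain ⟨d, hd⟩ : ∃ d : SL2, d = mkSL s 0 0 s⁻¹ (by
        rw [mul_inv_cancel₀ hs0]; ring) := ⟨_, rfl⟩
      have hdK : d ∈ ι2.range := by
        apply hSK
        rw [hd, memK_iff, mk_e00, mk_e01, mk_e10, mk_e11]
        exact ⟨hsK, K0.zero_mem, K0.zero_mem, K0.inv_mem hsK⟩
      have hUK : Ux (1 : F) ∈ ι2.range := hSK _ (Ux_mem_SK K0 K0.one_mem)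
      have hdq : d ^ (Fintype.card F - 1) = 1 := by
        apply Subtype.ext
        rw [hd, mkSL_diag_pow, inv_pow, FiniteField.pow_card_sub_one_eq_one s hs0]
        simp [Matrix.one_fin_two]
      have hd'q : (Ux (1 : F) * d⁻¹ * (Ux (1 : F))⁻¹) ^ (Fintype.card F - 1) = 1 := by
        rw [conj_pow, inv_pow, hdq, inv_one, mul_one, mul_inv_cancel]
      have hq := card_ne_char_sub_one (F := F) p
      have h5 := hprod d (Ux (1 : F) * d⁻¹ * (Ux (1 : F))⁻¹) hdK
        (mul_mem (mul_mem hUK (inv_mem hdK)) (inv_mem hUK)) _ _ hdq hd'q hq hq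
      have e1 : d * (Ux (1 : F) * d⁻¹ * (Ux (1 : F))⁻¹) = d * Ux (1 : F) * d⁻¹ * (Ux (1 : F))⁻¹ := by
        group
      rw [e1] at h5
      have hfd : ∃ c : F, d.1 *ᵥ ![1, 0] = c • ![1, 0] := by
        refine ⟨s, ?_⟩
        rw [hd, mkSL_coe]
        ext i
        fin_cases i <;> simp [Matrix.mulVec, dotProduct, Fin.sum_univ_two]
      have hfU : ∃ c : F, (Ux (1 : F)).1 *ᵥ ![1, 0] = c • ![1, 0] := by
        refine ⟨1, ?_⟩
        rw [Ux, mkSL_coe]
        ext i
        fin_cases i <;> simp [Matrix.mulVec, dotProduct, Fin.sum_univ_two]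
      have hv0 : (![1, 0] : Fin 2 → F) ≠ 0 := by
        intro h
        have := congrFun h 0
        simp at this
      have h6 := comm_pow_of_fix p ![1, 0] hv0 d (Ux (1 : F)) hfd hfU
      have h7 := eq_one_of_pow_coprime _ _ _ h5 h6 hcop2
      have h8 : d * Ux (1 : F) = Ux (1 : F) * d := by
        have : d * Ux (1 : F) = (d * Ux (1 : F) * d⁻¹ * (Ux (1 : F))⁻¹) * (Ux (1 : F) * d) := by
          group
        rw [this, h7, one_mul]
      have h9 := congrArg (fun g : SL2 => g.1 0 1) h8
      simp only [Matrix.SpecialLinearGroup.coe_mul, hd, mkSL_coe, Ux, Matrix.mul_apply,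
        Fin.sum_univ_two] at h9
      simp at h9
      apply hs1
      field_simp at h9
      linear_combination h9
    · push Not at hbig
      have hK3 : ∀ s ∈ K0, s = 0 ∨ s = 1 ∨ s = -1 := by
        intro s hs
        by_cases h0 : s = 0
        · exact Or.inl h0
        · right
          have h1 := hbig s hs h0
          have : (s - 1) * (s + 1) = 0 := by linear_combination h1
          rcases mul_eq_zero.mp this with h | h
          · exact Or.inl (sub_eq_zero.mp h)
          · exact Or.inr (by linear_combination h)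
      have h3F : (3 : F) = 0 := by
        have h1 := hbig 2 (by
          have : (2 : F) = 1 + 1 := by norm_num
          rw [this]; exact K0.add_mem K0.one_mem K0.one_mem) h2
        linear_combination h1
      have hp3 : p = 3 := by
        have h' : ((3 : ℕ) : F) = 0 := by exact_mod_cast h3F
        rw [CharP.cast_eq_zero_iff F p] at h'
        exact (Nat.prime_dvd_prime_iff_eq hpp Nat.prime_three).1 h'
      have hcardK : Nat.card K0 = 3 := by
        have hset : (K0 : Set F) = {0, 1, -1} := by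
          ext s
          simp only [SetLike.mem_coe, Set.mem_insert_iff, Set.mem_singleton_iff]
          constructor
          · exact hK3 s
          · rintro (rfl | rfl | rfl)
            · exact K0.zero_mem
            · exact K0.one_mem
            · exact K0.neg_mem K0.one_mem
        have h1 : Nat.card K0 = Set.ncard (K0 : Set F) := rfl
        rw [h1, hset]
        have hne1 : (1 : F) ≠ -1 := by
          intro h
          apply h2
          linear_combination h
        rw [Set.ncard_insert_of_notMem, Set.ncard_pair hne1]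
        · simp only [Set.mem_insert_iff, Set.mem_singleton_iff, not_or]
          exact ⟨zero_ne_one, by
            intro h
            have : (1 : F) = 0 := by linear_combination h
            exact one_ne_zero this⟩
      rcases hS with h1 | ⟨lam, hlam, hlam2, hr⟩
      · refine ⟨hp3, ?_⟩
        have hrange : ι2.range = SK K0 := by
          ext g
          rw [h1 g, mem_SK]
        have hc1 := card_range_conj H Q hQ
        rw [← hι2, hrange, card_SK, hcardK] at hc1
        rw [← hc1]
        norm_num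
      · exfalso
        have hl2 : lam ^ 2 = -1 := by
          rcases hK3 _ hlam2 with h | h | h
          · exfalso
            apply hlam
            rw [pow_eq_zero_iff two_ne_zero |>.mp h]
            exact K0.zero_mem
          · exfalso
            apply hlam
            have : (lam - 1) * (lam + 1) = 0 := by linear_combination h
            rcases mul_eq_zero.mp this with h' | h'
            · rw [sub_eq_zero.mp h']; exact K0.one_mem
            · have : lam = -1 := by linear_combination h'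
              rw [this]; exact K0.neg_mem K0.one_mem
          · exact h
        obtain ⟨u, hu⟩ : ∃ u : SL2, u = mkSL lam 0 0 (-lam) (by linear_combination -hl2) :=
          ⟨_, rfl⟩
        obtain ⟨v, hv⟩ : ∃ v : SL2, v = mkSL lam lam 0 (-lam) (by linear_combination -hl2) :=
          ⟨_, rfl⟩
        have hm1 : (-1 : F) ∈ K0 := K0.neg_mem K0.one_mem
        have huK : u ∈ ι2.range := by
          apply (hr u).2
          right
          rw [memK_iff, hu]
          simp only [Matrix.smul_apply, mk_e00, mk_e01, mk_e10, mk_e11, smul_eq_mul, mul_zero]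
          refine ⟨?_, K0.zero_mem, K0.zero_mem, ?_⟩
          · have : lam * lam = -1 := by linear_combination hl2
            rw [this]; exact hm1
          · have : lam * -lam = 1 := by linear_combination -hl2
            rw [this]; exact K0.one_mem
        have hvK : v ∈ ι2.range := by
          apply (hr v).2
          right
          rw [memK_iff, hv]
          simp only [Matrix.smul_apply, mk_e00, mk_e01, mk_e10, mk_e11, smul_eq_mul, mul_zero]
          have e1 : lam * lam = -1 := by linear_combination hl2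
          have e2 : lam * -lam = 1 := by linear_combination -hl2
          rw [e1, e2]
          exact ⟨hm1, hm1, K0.zero_mem, K0.one_mem⟩
        have hu4 : u ^ 4 = 1 := by
          apply Subtype.ext
          have : u ^ 4 = (u * u) * (u * u) := by
            rw [show (4 : ℕ) = 2 + 2 from rfl, pow_add, pow_two]
          rw [this, hu]
          simp only [Matrix.SpecialLinearGroup.coe_mul, mkSL_coe, Matrix.mul_fin_two,
            Matrix.SpecialLinearGroup.coe_one, Matrix.one_fin_two]
          ext i j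
          fin_cases i <;> fin_cases j <;> simp <;> linear_combination (lam ^ 2 - 1) * hl2
        have hv4 : v ^ 4 = 1 := by
          apply Subtype.ext
          have : v ^ 4 = (v * v) * (v * v) := by
            rw [show (4 : ℕ) = 2 + 2 from rfl, pow_add, pow_two]
          rw [this, hv]
          simp only [Matrix.SpecialLinearGroup.coe_mul, mkSL_coe, Matrix.mul_fin_two,
            Matrix.SpecialLinearGroup.coe_one, Matrix.one_fin_two]
          ext i j
          fin_cases i <;> fin_cases j <;> simp <;> first | linear_combination (lam ^ 2 - 1) * hl2 | ring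
        have c4 : (4 : ℕ).Coprime p := by rw [hp3]; decide
        have h5 := hprod u v huK hvK 4 4 hu4 hv4 c4 c4
        have huv : (u * v).1 = !![-1, -1; 0, -1] := by
          rw [hu, hv]
          simp only [Matrix.SpecialLinearGroup.coe_mul, mkSL_coe, Matrix.mul_fin_two]
          ext i j
          fin_cases i <;> fin_cases j <;> simp <;> linear_combination hl2
        have h6 : (u * v) ^ 6 = 1 := by
          apply Subtype.ext
          have : (u * v) ^ 6 = ((u * v) * (u * v)) * ((u * v) * (u * v)) * ((u * v) * (u * v)) := by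
            rw [show (6 : ℕ) = 2 + 2 + 2 from rfl, pow_add, pow_add, pow_two]
          rw [this]
          simp only [Matrix.SpecialLinearGroup.coe_mul, huv, Matrix.mul_fin_two,
            Matrix.SpecialLinearGroup.coe_one, Matrix.one_fin_two]
          ext i j
          fin_cases i <;> fin_cases j <;> simp <;> linear_combination (2 : F) * h3F
        have h7 : orderOf (u * v) ∣ Nat.gcd (2 * Nat.card R) (2 * 3) :=
          Nat.dvd_gcd (orderOf_dvd_of_pow_eq_one h5) (orderOf_dvd_of_pow_eq_one h6)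
        have hR3 : Nat.gcd (Nat.card R) 3 = 1 := by
          have := hR
          rw [hp3] at this
          exact this
        rw [Nat.gcd_mul_left, hR3] at h7
        have h8 : (u * v) ^ 2 = 1 := orderOf_dvd_iff_pow_eq_one.1 h7
        have h9 := congrArg (fun g : SL2 => g.1 0 1) h8
        have e2 : (u * v) ^ 2 = (u * v) * (u * v) := pow_two _
        rw [e2] at h9
        simp only [Matrix.SpecialLinearGroup.coe_mul, huv, Matrix.mul_fin_two] at h9
        simp at h9
        apply h2
        linear_combination h9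

theorem div8_cases : ∀ m ≤ 8, m ∣ 8 → m = 1 ∨ m = 2 ∨ m = 4 ∨ m = 8 := by decide

theorem uSL_pow' (t : F) (n : ℕ) : uSL t ^ n = uSL (n * t) := by
  induction n with
  | zero => simp [uSL_zero]
  | succ n ih =>
    rw [pow_succ, ih, uSL_mul]
    congr 1
    push_cast; ring

theorem lSL_mul' (s t : F) : lSL s * lSL t = lSL (s + t) := by
  apply Subtype.ext
  simp [lSL_coe, Matrix.mul_fin_two, add_comm]

theorem lSL_pow' (t : F) (n : ℕ) : lSL t ^ n = lSL (n * t) := by
  induction n with
  | zero =>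
    apply Subtype.ext
    simp [lSL_coe, Matrix.one_fin_two]
  | succ n ih =>
    rw [pow_succ, ih, lSL_mul']
    congr 1
    push_cast; ring

/-- the endgame: in characteristic 3, inside a group of order 24. -/
theorem pact_end [Fintype F] [CharP F 3] (h2 : (2 : F) ≠ 0)
    (a : SL2) (ha3 : a ^ 3 = 1) (R H₁ : Subgroup SL2) (hH₁ : Nat.card H₁ = 24)
    (hRH : R ≤ H₁) (haH : a ∈ H₁) (hR : (Nat.card R).Coprime 3)
    (haR : a ∈ Subgroup.normalizer (R : Set SL2)) (r : SL2) (hrR : r ∈ R)
    (hra : a * r ≠ r * a) :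
    Nonempty (↥R ≃* QuaternionGroup 2) ∧
      Nonempty (↥(R ⊔ Subgroup.zpowers a) ≃* Matrix.SpecialLinearGroup (Fin 2) (ZMod 3)) := by
  classical
  have hconj : ∀ x ∈ R, a * x * a⁻¹ ∈ R := fun x hx => (Subgroup.mem_normalizer_iff.1 haR x).1 hx
  obtain ⟨g, hg⟩ : ∃ g : SL2, g = a * r * a⁻¹ * r⁻¹ := ⟨_, rfl⟩
  have hgR : g ∈ R := by rw [hg]; exact mul_mem (hconj r hrR) (inv_mem hrR)
  have hR8 : Nat.card R ∣ 8 := by
    have h1 : Nat.card R ∣ 8 * 3 := by
      have := Subgroup.card_dvd_of_le hRH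
      rwa [hH₁] at this
    exact Nat.Coprime.dvd_of_dvd_mul_right hR h1
  have hgpow : g ^ Nat.card R = 1 := by
    have : (⟨g, hgR⟩ : R) ^ Nat.card R = 1 := pow_card_eq_one'
    exact congrArg Subtype.val this
  have hg8 : g ^ 8 = 1 := by
    obtain ⟨j, hj⟩ := hR8
    rw [hj, pow_mul, hgpow, one_pow]
  have hgne : g ≠ 1 := by
    intro h
    apply hra
    have : a * r = (a * r * a⁻¹ * r⁻¹) * (r * a) := by group
    rw [this, ← hg, h, one_mul]
  have hnc : ¬ Commute a g := by
    intro h
    have h3 := comm_cube_of_comm a r ha3 (hg ▸ h)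
    rw [← hg] at h3
    exact hgne (eq_one_of_pow_coprime g 3 8 h3 hg8 (by decide))
  have hg'R : a * g * a⁻¹ ∈ R := hconj g hgR
  have hg'z : a * g * a⁻¹ ∉ Subgroup.zpowers g := by
    intro h
    have h1 := comm_of_conj_mem_zpowers a g ha3 hg8 h
    apply hnc
    have : a * g = g * a := by
      calc a * g = (a * g * a⁻¹) * a := by group
        _ = g * a := by rw [h1]
    exact this
  have hcen : ∀ y : SL2, y.1 = -1 → Commute a y := by
    intro y hy
    have : a * y = y * a := by
      apply Subtype.ext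
      rw [Matrix.SpecialLinearGroup.coe_mul, Matrix.SpecialLinearGroup.coe_mul, hy]
      simp
    exact this
  have hgg : g * g ≠ 1 := by
    intro h
    rcases sl2_sq_eq_one h2 g h with h1 | h1
    · exact hgne h1
    · exact hnc (hcen g h1)
  have ho8 : orderOf g ∣ 8 := orderOf_dvd_of_pow_eq_one hg8
  have hoR : orderOf g ∣ Nat.card R := orderOf_dvd_of_pow_eq_one hgpow
  have hone : orderOf g ≠ 1 := fun h => hgne (orderOf_eq_one_iff.1 h)
  have htwo : orderOf g ≠ 2 := by
    intro h
    apply hgg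
    have := pow_orderOf_eq_one g
    rw [h, pow_two] at this
    exact this
  have hneq : Nat.card R ≠ orderOf g := by
    intro h
    apply hg'z
    have hle : Subgroup.zpowers g ≤ R := by rw [Subgroup.zpowers_le]; exact hgR
    have hcard : Nat.card R ≤ Nat.card (Subgroup.zpowers g) := by
      rw [Nat.card_zpowers, h]
    have hfin : Finite R := Nat.finite_of_card_ne_zero (by
      intro h0; rw [h0] at hR8; omega)
    rw [Subgroup.eq_of_le_of_card_ge hle hcard]
    exact hg'R
  have h48 : orderOf g = 4 ∧ Nat.card R = 8 := by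
    have hR8' : Nat.card R ≤ 8 := Nat.le_of_dvd (by norm_num) hR8
    have ho8' : orderOf g ≤ 8 := Nat.le_of_dvd (by norm_num) ho8
    rcases div8_cases _ hR8' hR8 with hc | hc | hc | hc <;>
    rcases div8_cases _ ho8' ho8 with ho | ho | ho | ho <;>
    rw [hc, ho] at hoR <;> first | exact absurd ho hone | exact absurd ho htwo |
      exact absurd (hc.trans ho.symm) hneq | exact ⟨ho, hc⟩ | omega
  obtain ⟨ho4, hc8⟩ := h48
  have hg4 : g ^ 4 = 1 := by rw [← ho4]; exact pow_orderOf_eq_one g
  have hgsq : (g * g).1 = -1 := by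
    have h1 : (g * g) * (g * g) = 1 := by
      rw [← hg4, show (4 : ℕ) = 2 + 2 from rfl, pow_add, pow_two]
    rcases sl2_sq_eq_one h2 (g * g) h1 with h | h
    · exact absurd h hgg
    · exact h
  -- `R` is quaternion
  have hfinR : Finite R := Nat.finite_of_card_ne_zero (by rw [hc8]; norm_num)
  have hP : IsPGroup 2 R := IsPGroup.of_card (n := 3) (by rw [hc8]; norm_num)
  have hinv : ∀ s t : R, s ^ 2 = 1 → t ^ 2 = 1 → s ≠ 1 → t ≠ 1 → s = t := by
    intro s t hs ht hs1 ht1
    have hs' : s.1 * s.1 = 1 := by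
      have := congrArg Subtype.val hs
      rw [pow_two] at this
      exact this
    have ht' : t.1 * t.1 = 1 := by
      have := congrArg Subtype.val ht
      rw [pow_two] at this
      exact this
    rcases sl2_sq_eq_one h2 s.1 hs' with h | h
    · exact absurd (Subtype.ext h) hs1
    · rcases sl2_sq_eq_one h2 t.1 ht' with h' | h'
      · exact absurd (Subtype.ext h') ht1
      · exact Subtype.ext (Subtype.ext (h.trans h'.symm))
  have hncR : ¬ ∀ u v : R, u * v = v * u := by
    intro hall
    have hcomm : g * (a * g * a⁻¹) = (a * g * a⁻¹) * g := by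
      have := hall ⟨g, hgR⟩ ⟨a * g * a⁻¹, hg'R⟩
      exact congrArg Subtype.val this
    obtain ⟨g', hg'⟩ : ∃ g' : SL2, g' = a * g * a⁻¹ := ⟨_, rfl⟩
    rw [← hg'] at hcomm hg'z
    have hg'sq : g' * g' = g * g := by
      have e1 : g' * g' = a * (g * g) * a⁻¹ := by rw [hg']; group
      rw [e1]
      have hc := hcen (g * g) hgsq
      calc a * (g * g) * a⁻¹ = (g * g) * a * a⁻¹ := by rw [hc.eq]
        _ = g * g := by group
    have hw : (g * g'⁻¹) * (g * g'⁻¹) = 1 := by
      have hc2 : g'⁻¹ * g = g * g'⁻¹ := by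
        calc g'⁻¹ * g = g'⁻¹ * (g * g') * g'⁻¹ := by group
          _ = g'⁻¹ * (g' * g) * g'⁻¹ := by rw [hcomm]
          _ = g * g'⁻¹ := by group
      calc (g * g'⁻¹) * (g * g'⁻¹) = g * (g'⁻¹ * g) * g'⁻¹ := by group
        _ = g * (g * g'⁻¹) * g'⁻¹ := by rw [hc2]
        _ = (g * g) * (g' * g')⁻¹ := by group
        _ = 1 := by rw [hg'sq, mul_inv_cancel]
    apply hg'z
    rcases sl2_sq_eq_one h2 _ hw with h | h
    · have : g' = g := by
        have := mul_inv_eq_one.1 h
        exact this.symm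
      rw [this]; exact Subgroup.mem_zpowers g
    · have : g' = g ^ 3 := by
        have h3 : g ^ 3 = (g * g) * g := by rw [pow_succ, pow_two]
        rw [h3]
        have h4 : g = (g * g'⁻¹) * g' := by group
        apply Subtype.ext
        have h5 := congrArg Subtype.val h4
        rw [Matrix.SpecialLinearGroup.coe_mul, h] at h5
        rw [Matrix.SpecialLinearGroup.coe_mul, hgsq, h5]
        simp
      rw [this]; exact Subgroup.npow_mem_zpowers g 3
  obtain ⟨k, hk, ⟨eR⟩⟩ := quat_of_unique_involution hP hinv hncR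
  have hk1 : k = 1 := by
    have h1 := hc8
    rw [Nat.card_congr eR.toEquiv, Nat.card_eq_fintype_card, QuaternionGroup.card] at h1
    have h3 : 2 ^ k = 2 ^ 1 := by omega
    exact Nat.pow_right_injective (le_refl 2) h3
  subst hk1
  refine ⟨⟨eR⟩, ?_⟩
  -- `R ⟨a⟩ ≅ SL₂(3)`
  obtain ⟨b, hb⟩ : ∃ b : SL2, b = r * a * r⁻¹ := ⟨_, rfl⟩
  have htra : tr a = 2 := trace_eq_two_of_pow_eq_one 3 a 1 (by rw [pow_one]; exact ha3)
  have htrb : tr b = 2 := by rw [hb, tr_conj]; exact htra
  have hgab : g = a * b⁻¹ := by rw [hg, hb]; group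
  have hab : a * b ≠ b * a := by
    intro h
    apply hnc
    rw [hgab]
    have h1 : Commute a b := h
    exact (Commute.refl a).mul_right h1.inv_right
  obtain ⟨Q, hQ, lam, hlam, hA, hB⟩ := exists_conjGL_unip_pair a b htra htrb hab
  have hbi : (conjGL Q hQ b)⁻¹ = lSL (-lam) := by
    apply inv_eq_of_mul_eq_one_right
    apply Subtype.ext
    rw [Matrix.SpecialLinearGroup.coe_mul, hB, lSL_coe]
    simp [Matrix.mul_fin_two, Matrix.one_fin_two]
  have hcg : (conjGL Q hQ g).1 = !![1 - lam, 1; -lam, 1] := by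
    rw [hgab, map_mul, map_inv, hbi, Matrix.SpecialLinearGroup.coe_mul, hA, lSL_coe]
    simp [Matrix.mul_fin_two]
    ring
  have hcgg : (conjGL Q hQ (g * g)).1 = -1 := by
    rw [conjGL_coe, hgsq]
    simp [Matrix.nonsing_inv_mul Q (isUnit_iff_ne_zero.mpr hQ)]
  have hlam2 : lam = 2 := by
    rw [map_mul, Matrix.SpecialLinearGroup.coe_mul, hcg] at hcgg
    have := congrFun (congrFun hcgg 0) 1
    simp [Matrix.mul_fin_two] at this
    linear_combination -this
  subst hlam2
  obtain ⟨ψ, hψ⟩ : ∃ ψ : Matrix.SpecialLinearGroup (Fin 2) (ZMod 3) →* SL2,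
      ψ = Matrix.SpecialLinearGroup.map (ZMod.castHom (dvd_refl 3) F) := ⟨_, rfl⟩
  have hψinj : Function.Injective ψ := by
    intro x y hxy
    have hf : Function.Injective (ZMod.castHom (dvd_refl 3) F) := RingHom.injective _
    apply Subtype.ext
    ext i j
    apply hf
    have h1 := congrArg (fun z : SL2 => z.1 i j) hxy
    rw [hψ] at h1
    simpa [Matrix.SpecialLinearGroup.map_apply_coe] using h1
  have hψu : ψ (uSL 1) = conjGL Q hQ a := by
    apply Subtype.ext
    rw [hA, hψ]
    ext i j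
    fin_cases i <;> fin_cases j <;>
      simp [Matrix.SpecialLinearGroup.map_apply_coe, uSL_coe]
  have hψl : ψ (lSL 2) = conjGL Q hQ b := by
    apply Subtype.ext
    rw [hB, hψ]
    ext i j
    fin_cases i <;> fin_cases j <;>
      simp [Matrix.SpecialLinearGroup.map_apply_coe, lSL_coe]
    exact map_ofNat (ZMod.castHom (dvd_refl 3) F) 2
  obtain ⟨H, hH⟩ : ∃ H : Subgroup SL2, H = R ⊔ Subgroup.zpowers a := ⟨_, rfl⟩
  rw [← hH]
  have haH' : a ∈ H := hH ▸ (le_sup_right : Subgroup.zpowers a ≤ _) (Subgroup.mem_zpowers a)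
  have hrH' : r ∈ H := hH ▸ (le_sup_left : R ≤ _) hrR
  have hbH' : b ∈ H := by rw [hb]; exact mul_mem (mul_mem hrH' haH') (inv_mem hrH')
  have hK : (H.map (conjGL Q hQ)).comap ψ = ⊤ := by
    apply eq_top_of_uSL_lSL_mem
    · have h1 : uSL (1 : ZMod 3) ∈ (H.map (conjGL Q hQ)).comap ψ := by
        rw [Subgroup.mem_comap, hψu]
        exact Subgroup.mem_map_of_mem _ haH'
      intro c
      have hc : uSL c = uSL (1 : ZMod 3) ^ c.val := by
        rw [uSL_pow', mul_one, ZMod.natCast_zmod_val]
      rw [hc]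
      exact pow_mem h1 _
    · have h1 : lSL (2 : ZMod 3) ∈ (H.map (conjGL Q hQ)).comap ψ := by
        rw [Subgroup.mem_comap, hψl]
        exact Subgroup.mem_map_of_mem _ hbH'
      intro c
      have hc : lSL c = lSL (2 : ZMod 3) ^ (2 * c.val) := by
        rw [lSL_pow']
        congr 1
        push_cast
        rw [ZMod.natCast_zmod_val]
        have h4 : (4 : ZMod 3) = 1 := by decide
        linear_combination (-c) * h4
      rw [hc]
      exact pow_mem h1 _
  have hrange : ψ.range ≤ H.map (conjGL Q hQ) := by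
    rintro _ ⟨x, rfl⟩
    have : x ∈ (H.map (conjGL Q hQ)).comap ψ := by rw [hK]; trivial
    exact this
  have hHle : H ≤ H₁ := by
    rw [hH]
    exact sup_le hRH (by rw [Subgroup.zpowers_le]; exact haH)
  have hfinH₁ : Finite H₁ := Nat.finite_of_card_ne_zero (by rw [hH₁]; norm_num)
  have hcardH : Nat.card H ≤ 24 := by
    rw [← hH₁]
    exact Subgroup.card_le_of_le hHle
  have hcardmap : Nat.card (H.map (conjGL Q hQ)) = Nat.card H :=
    Subgroup.card_map_of_injective (conjGL_injective Q hQ)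
  have hcardψ : Nat.card ψ.range = 24 := by
    rw [← Nat.card_congr (MonoidHom.ofInjective hψinj).toEquiv, card_SL2, ZMod.card]
    norm_num
  have heq : ψ.range = H.map (conjGL Q hQ) :=
    Subgroup.eq_of_le_of_card_ge hrange (by rw [hcardmap, hcardψ]; exact hcardH)
  exact ⟨((Subgroup.equivMapOfInjective H (conjGL Q hQ) (conjGL_injective Q hQ)).trans
    (MulEquiv.subgroupCongr heq.symm)).trans (MonoidHom.ofInjective hψinj).symm⟩

end sl

end Cfsg.Agent.Helper5
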